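import Cfsg.Agent.H2.MinInn

set_option autoImplicit false
set_option linter.unusedSectionVars false
set_option linter.unusedSimpArgs false
set_option linter.unusedVariables false
set_option linter.style.haveILetI false
open scoped commutatorElement

/-! The ZJ argument for an axiomatic family (helper2). -/

namespace Cfsg.Agent.H2
open Cfsg

section
variable {G : Type*} [Group G]

/-- the intersection of the members of the family inside `Q` -/
def fI (𝒜 : Set (Subgroup G)) (Q : Subgroup G) : Subgroup G := sInf {A | A ∈ 𝒜 ∧ A ≤ Q}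

theorem ax_inf_normal [Finite G] {p : ℕ} [Fact p.Prime] (P : Sylow p G) (𝒜 : Set (Subgroup G))
    (h𝒜 : ∀ A ∈ 𝒜, A ≤ (P : Subgroup G) ∧ ∀ x ∈ A, ∀ y ∈ A, x * y = y * x)
    (hinv : ∀ R : Subgroup G, R ≤ (P : Subgroup G) → (∃ A ∈ 𝒜, A ≤ R) →
      Subgroup.normalizer (R : Set G) ≤ Subgroup.normalizer (fI 𝒜 R : Set G))
    (hrep : ∀ B : Subgroup G, B ≤ (P : Subgroup G) → ⁅⁅B, B⁆, B⁆ = ⊥ → (∃ A ∈ 𝒜, ⁅B, B⁆ ≤ A ∧ ¬ B ≤ A) →
      ∃ A ∈ 𝒜, ⁅B, B⁆ ≤ A ∧ ¬ B ≤ A ∧ B ≤ Subgroup.normalizer (A : Set G))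
    (hne : 𝒜.Nonempty)
    (hst : ∀ (B : Subgroup G) [B.Normal], IsPGroup p B → ∀ g : G,
      ⁅⁅B, Subgroup.zpowers g⁆, Subgroup.zpowers g⁆ = ⊥ → GoodEl p B g) :
    ∀ (n : ℕ) (B : Subgroup G) [B.Normal], Nat.card B ≤ n → IsPGroup p B → (B ⊓ sInf 𝒜).Normal := by
  classical
  have hPZ : (P : Subgroup G) ≤ Subgroup.normalizer ((sInf 𝒜 : Subgroup G) : Set G) := by
    have h1 : fI 𝒜 (P : Subgroup G) = sInf 𝒜 := by
      unfold fI
      congr 1
      ext A
      exact ⟨fun h => h.1, fun h => ⟨h, (h𝒜 A h).1⟩⟩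
    have h2 := hinv (P : Subgroup G) le_rfl (by
      obtain ⟨A, hA⟩ := hne
      exact ⟨A, hA, (h𝒜 A hA).1⟩)
    rw [h1] at h2
    exact Subgroup.le_normalizer.trans h2
  have hZc : ∀ x ∈ sInf 𝒜, ∀ y ∈ sInf 𝒜, x * y = y * x := by
    obtain ⟨A, hA⟩ := hne
    intro x hx y hy
    exact (h𝒜 A hA).2 x (sInf_le hA hx) y (sInf_le hA hy)
  intro n
  induction n with
  | zero =>
    intro B _ h
    exfalso
    have : 0 < Nat.card B := Nat.card_pos
    omega
  | succ n ih =>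
    intro B hBn hcard hB
    by_contra hcon
    have hBP : B ≤ P := L0.normal_le_sylow hB P
    -- `B` is the normal closure of `B ⊓ Z`
    set B1 := Subgroup.normalClosure ((B ⊓ sInf 𝒜 : Subgroup G) : Set G) with hB1
    have hB1B : B1 ≤ B := Subgroup.normalClosure_le_normal (fun x hx => hx.1)
    have hB1Z : B1 ⊓ sInf 𝒜 = B ⊓ sInf 𝒜 := by
      apply le_antisymm (inf_le_inf_right _ hB1B)
      exact le_inf (fun x hx => Subgroup.subset_normalClosure hx) inf_le_right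
    have hlt : ∀ B0 : Subgroup G, B0.Normal → B0 < B → (B0 ⊓ sInf 𝒜).Normal := by
      intro B0 hB0 hl
      haveI := hB0
      have hc : Nat.card B0 < Nat.card B := by
        apply lt_of_le_of_ne (Subgroup.card_le_of_le hl.le)
        intro h
        exact hl.ne (Subgroup.eq_of_le_of_card_ge hl.le h.ge)
      exact ih B0 (by omega) (hB.to_le hl.le)
    have hBB1 : B1 = B := by
      by_contra hne
      apply hcon
      rw [← hB1Z]
      exact hlt B1 inferInstance (lt_of_le_of_ne hB1B hne)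
    have hBbot : B ≠ ⊥ := by
      rintro rfl
      apply hcon
      rw [bot_inf_eq]; infer_instance
    -- the derived subgroup
    haveI hB'n : (⁅B, B⁆ : Subgroup G).Normal := Subgroup.commutator_normal B B
    have hB'lt : ⁅B, B⁆ < B := by
      refine lt_of_le_of_ne (Subgroup.commutator_le_left B B) ?_
      intro he
      haveI : Group.IsNilpotent B := hB.isNilpotent
      haveI : Nontrivial B := (Subgroup.nontrivial_iff_ne_bot B).mpr hBbot
      have h1 := (IsSolvable.commutator_lt_top_of_nontrivial B).ne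
      apply h1
      have h2 : (commutator B).map B.subtype = ⁅B, B⁆ := by
        rw [_root_.commutator_def, Subgroup.map_commutator, ← MonoidHom.range_eq_map, Subgroup.range_subtype]
      rw [he] at h2
      rw [eq_top_iff]
      intro x _
      have h3 : (x : G) ∈ (commutator B).map B.subtype := by rw [h2]; exact x.2
      obtain ⟨y, hy, hyx⟩ := h3
      have : y = x := Subtype.ext hyx
      rwa [← this]
    haveI hK0n : (⁅B, B⁆ ⊓ sInf 𝒜).Normal := hlt _ inferInstance hB'lt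
    set K0 := ⁅B, B⁆ ⊓ sInf 𝒜 with hK0
    have hBZB : ∀ x ∈ B ⊓ sInf 𝒜, ∀ y ∈ B, ⁅x, y⁆ ∈ K0 := by
      intro x hx y hy
      refine ⟨Subgroup.commutator_mem_commutator hx.1 hy, ?_⟩
      have h1 := (Subgroup.mem_normalizer_iff.mp (hPZ (hBP hy)) x⁻¹).1 (Subgroup.inv_mem _ hx.2)
      have : ⁅x, y⁆ = x * (y * x⁻¹ * y⁻¹) := by rw [commutatorElement_def]; group
      rw [this]
      exact Subgroup.mul_mem _ hx.2 h1
    have hBA : ⁅B, B⁆ ≤ sInf 𝒜 := by
      have h1 : B ≤ (Subgroup.centralizer ((B.map (QuotientGroup.mk' K0) : Subgroup (G ⧸ K0)) : Set (G ⧸ K0))).comap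
          (QuotientGroup.mk' K0) := by
        haveI : (B.map (QuotientGroup.mk' K0)).Normal := hBn.map _ (QuotientGroup.mk'_surjective _)
        conv_lhs => rw [← hBB1, hB1]
        apply Subgroup.normalClosure_le_normal
        intro x hx
        show QuotientGroup.mk' K0 x ∈ Subgroup.centralizer _
        rw [Subgroup.mem_centralizer_iff]
        rintro _ ⟨y, hy, rfl⟩
        have h2 := hBZB x hx y hy
        have h3 : QuotientGroup.mk' K0 ⁅x, y⁆ = 1 := (QuotientGroup.eq_one_iff _).2 h2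
        rw [map_commutatorElement, commutatorElement_eq_one_iff_mul_comm] at h3
        exact h3.symm
      rw [Subgroup.commutator_le]
      intro x hx y hy
      have h2 := (Subgroup.mem_centralizer_iff.mp (h1 hx)) (QuotientGroup.mk' K0 y) ⟨y, hy, rfl⟩
      have h3 : QuotientGroup.mk' K0 ⁅x, y⁆ = 1 := by
        rw [map_commutatorElement, commutatorElement_eq_one_iff_mul_comm]
        exact h2.symm
      have h4 : ⁅x, y⁆ ∈ K0 := (QuotientGroup.eq_one_iff _).1 h3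
      exact h4.2
    have hcl : ⁅⁅B, B⁆, B⁆ = ⊥ := by
      rw [Subgroup.commutator_eq_bot_iff_le_centralizer]
      rw [Subgroup.le_centralizer_iff]
      haveI : (Subgroup.centralizer ((⁅B, B⁆ : Subgroup G) : Set G)).Normal := by
        apply H6.normal_of_norm
        exact H6.le_norm_centralizer (H6.norm_of_normal ⊤)
      conv_lhs => rw [← hBB1, hB1]
      apply Subgroup.normalClosure_le_normal
      intro x hx
      show x ∈ Subgroup.centralizer _
      rw [Subgroup.mem_centralizer_iff]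
      intro y hy
      exact hZc y (hBA hy) x hx.2
    by_cases hall : ∀ A ∈ 𝒜, B ≤ A
    · apply hcon
      rw [inf_eq_left.2 (le_sInf hall)]; exact hBn
    push Not at hall
    obtain ⟨A0, hA0, hA0B⟩ := hall
    obtain ⟨A1, hA1, -, hA1B, hA1n⟩ := hrep B hBP hcl ⟨A0, hA0, hBA.trans (sInf_le hA0), hA0B⟩
    have hA1L : A1 ≤ LL p B := fun a ha => mem_LL_of_good (hst B hB a (comm_le_of_norm (h𝒜 A1 hA1).2 hA1n ha))
    set D2 := (P : Subgroup G) ⊓ LL p B with hD2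
    have hA1D : A1 ≤ D2 := le_inf (h𝒜 A1 hA1).1 hA1L
    have hZ2 : sInf 𝒜 ≤ fI 𝒜 D2 := sInf_le_sInf (fun A hA => hA.1)
    have hN2 := hinv D2 inf_le_left ⟨A1, hA1, hA1D⟩
    have hnorm2 : (B ⊓ fI 𝒜 D2).Normal := by
      have htop : Subgroup.normalizer ((B ⊓ fI 𝒜 D2 : Subgroup G) : Set G) = ⊤ := by
        rw [eq_top_iff, ← frattini_LL P B]
        refine sup_le ?_ ?_
        · intro x hx
          have h2 := hN2 hx
          rw [Subgroup.mem_normalizer_iff] at h2 ⊢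
          intro y
          constructor
          · rintro ⟨h3, h4⟩
            exact ⟨hBn.conj_mem y h3 x, (h2 y).1 h4⟩
          · rintro ⟨h3, h4⟩
            refine ⟨?_, (h2 y).2 h4⟩
            have := hBn.conj_mem _ h3 x⁻¹
            have e : x⁻¹ * (x * y * x⁻¹) * x⁻¹⁻¹ = y := by group
            rwa [e] at this
        · intro c hc
          apply mem_norm_of_conj
          intro y hy
          have h1 := (Subgroup.mem_centralizer_iff.mp hc) y hy.1
          have : c * y * c⁻¹ = y := by rw [← h1]; group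
          rw [this]; exact hy
      exact Subgroup.normalizer_eq_top_iff.mp htop
    have hBZ2 : B ≤ fI 𝒜 D2 := by
      have h1 : B ≤ B ⊓ fI 𝒜 D2 := by
        conv_lhs => rw [← hBB1, hB1]
        apply Subgroup.normalClosure_le_normal
        intro x hx
        exact ⟨hx.1, hZ2 hx.2⟩
      exact h1.trans inf_le_right
    exact hA1B (hBZ2.trans (sInf_le ⟨hA1, hA1D⟩))

theorem ax_normal [Finite G] {p : ℕ} [Fact p.Prime] (P : Sylow p G) (𝒜 : Set (Subgroup G))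
    (h𝒜 : ∀ A ∈ 𝒜, A ≤ (P : Subgroup G) ∧ ∀ x ∈ A, ∀ y ∈ A, x * y = y * x)
    (hinv : ∀ R : Subgroup G, R ≤ (P : Subgroup G) → (∃ A ∈ 𝒜, A ≤ R) →
      Subgroup.normalizer (R : Set G) ≤ Subgroup.normalizer (fI 𝒜 R : Set G))
    (hrep : ∀ B : Subgroup G, B ≤ (P : Subgroup G) → ⁅⁅B, B⁆, B⁆ = ⊥ → (∃ A ∈ 𝒜, ⁅B, B⁆ ≤ A ∧ ¬ B ≤ A) →
      ∃ A ∈ 𝒜, ⁅B, B⁆ ≤ A ∧ ¬ B ≤ A ∧ B ≤ Subgroup.normalizer (A : Set G))
    (hne : 𝒜.Nonempty)
    (hst : ∀ (B : Subgroup G) [B.Normal], IsPGroup p B → ∀ g : G,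
      ⁅⁅B, Subgroup.zpowers g⁆, Subgroup.zpowers g⁆ = ⊥ → GoodEl p B g)
    (hc : Subgroup.centralizer (pCore p G : Set G) ≤ pCore p G) : (sInf 𝒜).Normal := by
  have hPZ : (P : Subgroup G) ≤ Subgroup.normalizer ((sInf 𝒜 : Subgroup G) : Set G) := by
    have h1 : fI 𝒜 (P : Subgroup G) = sInf 𝒜 := by
      unfold fI
      congr 1
      ext A
      exact ⟨fun h => h.1, fun h => ⟨h, (h𝒜 A h).1⟩⟩
    have h2 := hinv (P : Subgroup G) le_rfl (by
      obtain ⟨A, hA⟩ := hne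
      exact ⟨A, hA, (h𝒜 A hA).1⟩)
    rw [h1] at h2
    exact Subgroup.le_normalizer.trans h2
  have hZc : ∀ x ∈ sInf 𝒜, ∀ y ∈ sInf 𝒜, x * y = y * x := by
    obtain ⟨A, hA⟩ := hne
    intro x hx y hy
    exact (h𝒜 A hA).2 x (sInf_le hA hx) y (sInf_le hA hy)
  have hQP : pCore p G ≤ P := L0.pCore_le_sylow P
  have h1 : sInf 𝒜 ≤ pCore p G := by
    intro z hz
    obtain ⟨E, hEn, hCE, hE, hzE⟩ := hst (pCore p G) (L0.pCore_isPGroup p G) z
      (comm_le_of_norm hZc (hQP.trans hPZ) hz)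
    have hEp : IsPGroup p E := by
      rintro ⟨e, he⟩
      obtain ⟨k, hk⟩ := hE e he
      obtain ⟨j, hj⟩ := L0.pCore_isPGroup p G ⟨_, hc hk⟩
      refine ⟨k + j, Subtype.ext ?_⟩
      have h2 := congrArg Subtype.val hj
      simp only [SubmonoidClass.coe_pow, Subgroup.coe_one] at h2 ⊢
      rw [pow_add, pow_mul]; exact h2
    exact L0.le_pCore hEp hzE
  have h2 := ax_inf_normal P 𝒜 h𝒜 hinv hrep hne hst _ (pCore p G) le_rfl (L0.pCore_isPGroup p G)
  rwa [inf_eq_right.mpr h1] at h2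

end

open Cfsg.Agent.L0 Cfsg.Agent.L0.Fus Cfsg.FusionSystem

theorem realized_normal {Ω : Type*} [Group Ω] {S : Subgroup Ω} [Finite S] {F : FusionSystem S} {G : Type*} [Group G] {ι : S →* G}
    (hG : F.IsRealizedBy ι) {W : Subgroup Ω} (hWS : W ≤ S) (hn : ((W.subgroupOf S).map ι).Normal) : F.IsNormal W := by
  have hSW : S ≤ Subgroup.normalizer (W : Set Ω) := by
    intro s hs
    haveI : Finite W := finite_of_le hWS
    apply mem_normalizer_of_finite
    intro x hx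
    obtain ⟨y, hy, hyx⟩ := hn.conj_mem _ (⟨⟨x, hWS hx⟩, hx, rfl⟩ : ι ⟨x, hWS hx⟩ ∈ (W.subgroupOf S).map ι) (ι ⟨s, hs⟩)
    rw [← map_inv, ← map_mul, ← map_mul] at hyx
    have h1 := hG.1 hyx
    have h2 : (y : Ω) = s * x * s⁻¹ := congrArg (fun z : S => (z : Ω)) h1
    rw [← h2]; exact hy
  refine normal_of_normalizerHom hWS ?_
  intro P φ hφ
  have hP := hom_le F hφ
  have hφS := hom_mem F hφ
  obtain ⟨g, hg⟩ := (hG.2 P hP φ hφS).1 hφ
  have hP1 : P ⊔ W ≤ S := sup_le hP hWS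
  have hKey : P ⊔ W ≤ ((ι.range.comap (MulAut.conj (g : G)).toMonoidHom).comap ι).map S.subtype := by
    refine sup_le ?_ ?_
    · intro x hx
      refine ⟨⟨x, hP hx⟩, ?_, rfl⟩
      show (g : G) * ι ⟨x, hP hx⟩ * (g : G)⁻¹ ∈ ι.range
      exact ⟨_, hg ⟨x, hx⟩⟩
    · intro x hx
      refine ⟨⟨x, hWS hx⟩, ?_, rfl⟩
      show (g : G) * ι ⟨x, hWS hx⟩ * (g : G)⁻¹ ∈ ι.range
      obtain ⟨y, -, hy⟩ := hn.conj_mem _ (⟨⟨x, hWS hx⟩, hx, rfl⟩ : ι ⟨x, hWS hx⟩ ∈ (W.subgroupOf S).map ι) g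
      exact ⟨y, hy⟩
  obtain ⟨ψ, hψ, hψS, h1⟩ := exists_hom_of_conj hG (g : G) hP1 (by
    intro x
    obtain ⟨y, hy, hyx⟩ := hKey x.2
    have : y = ⟨x, hP1 x.2⟩ := Subtype.ext hyx
    rw [← this]; exact hy)
  have hψW : ψ ∈ F.normalizerHom W (P ⊔ W) := by
    refine mem_normalizerHom_of_ge le_sup_right (le_inf hP1 (hP1.trans hSW)) hψ ?_
    intro x hx
    obtain ⟨y, hy1, hy2⟩ := hn.conj_mem _ (⟨⟨x, hWS hx⟩, hx, rfl⟩ : ι ⟨x, hWS hx⟩ ∈ (W.subgroupOf S).map ι) g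
    have h2 := h1 x
    have h3 : ι y = ι ⟨ψ x, hψS x⟩ := by rw [h2]; exact hy2
    have h4 := hG.1 h3
    rw [h4] at hy1
    exact hy1
  have hag : ∀ x : P, ψ (Subgroup.inclusion le_sup_left x) = φ x := by
    intro x
    have h2 := h1 (Subgroup.inclusion le_sup_left x)
    have h3 : ι ⟨ψ (Subgroup.inclusion le_sup_left x), hψS _⟩ = ι ⟨φ x, hφS x⟩ := by
      rw [h2, hg x]; rfl
    exact congrArg (fun z : S => (z : Ω)) (hG.1 h3)
  obtain ⟨a1, a2, a3, χ, hχ, a4, a5⟩ := hψW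
  have hle : P ⊔ W ≤ (P ⊔ W) ⊔ W := le_sup_left
  refine ⟨hφ, hP.trans (le_inf le_rfl hSW), fun x => ⟨hφS x, hSW (hφS x)⟩, ψ, hψ, hag, ?_⟩
  ext w
  constructor
  · rintro ⟨x, hx, rfl⟩
    rw [← a4 x]
    exact a5.le ⟨Subgroup.inclusion hle x, hx, rfl⟩
  · intro hw
    obtain ⟨x, hx, hxw⟩ := a5.ge hw
    have hxP : (x : Ω) ∈ P ⊔ W := (le_sup_right : W ≤ P ⊔ W) hx
    refine ⟨⟨x, hxP⟩, hx, ?_⟩
    rw [← a4 ⟨x, hxP⟩]; exact hxw

end Cfsg.Agent.H2
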