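import Mathlib

set_option autoImplicit false

namespace Cfsg.Agent.H2

/-- every finite group has a copy in `Type` -/
theorem exists_type_copy (S : Type*) [Group S] [Finite S] : ∃ (T : Type) (_ : Group T), Nonempty (S ≃* T) := by
  exact ⟨Shrink.{0} S, inferInstance, ⟨Shrink.mulEquiv.symm⟩⟩

theorem comm_of_disj {G : Type*} [Group G] {M N : Subgroup G} [M.Normal] [N.Normal] (h : M ⊓ N = ⊥) :
    ∀ m ∈ M, ∀ n ∈ N, m * n = n * m := by
  intro m hm n hn
  have h1 : ⁅M, N⁆ = ⊥ := by rw [eq_bot_iff, ← h]; exact Subgroup.commutator_le_inf M N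
  have h2 := Subgroup.commutator_eq_bot_iff_le_centralizer.1 h1 hm
  exact (Subgroup.mem_centralizer_iff.1 h2 n hn).symm

theorem sup_equiv_prod {G : Type*} [Group G] (D E : Subgroup G) [D.Normal] [E.Normal] (h : D ⊓ E = ⊥) :
    Nonempty (↥(D ⊔ E) ≃* D × E) := by
  have hc := comm_of_disj h
  let f : D × E →* G := MonoidHom.noncommCoprod D.subtype E.subtype (fun x y => hc x x.2 y y.2)
  have hf : ∀ x : D × E, f x = x.1 * x.2 := fun x => rfl
  have hinj : Function.Injective f := by
    rw [injective_iff_map_eq_one]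
    rintro ⟨x, y⟩ hxy
    rw [hf] at hxy
    have h1 : (x : G) = (y : G)⁻¹ := eq_inv_of_mul_eq_one_left hxy
    have h2 : (x : G) ∈ D ⊓ E := ⟨x.2, by rw [h1]; exact E.inv_mem y.2⟩
    rw [h, Subgroup.mem_bot] at h2
    have h3 : (y : G) = 1 := by
      have : (x : G) * y = 1 := hxy
      rwa [h2, one_mul] at this
    exact Prod.ext (Subtype.ext h2) (Subtype.ext h3)
  have hr : f.range = D ⊔ E := by
    apply le_antisymm
    · rintro _ ⟨x, rfl⟩
      rw [hf]; exact Subgroup.mul_mem_sup x.1.2 x.2.2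
    · refine sup_le ?_ ?_
      · intro x hx
        exact ⟨(⟨x, hx⟩, 1), by rw [hf]; simp⟩
      · intro x hx
        exact ⟨(1, ⟨x, hx⟩), by rw [hf]; simp⟩
  exact ⟨((MonoidHom.ofInjective hinj).trans (MulEquiv.subgroupCongr hr)).symm⟩

theorem cons_equiv (S : Type*) [Group S] (k : ℕ) : Nonempty ((Fin k → S) × S ≃* (Fin (k + 1) → S)) := by
  let e : (Fin k → S) × S ≃ (Fin (k + 1) → S) := (Equiv.prodComm _ _).trans (Fin.consEquiv (fun _ => S))
  refine ⟨{ e with map_mul' := ?_ }⟩
  intro x y
  funext i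
  refine Fin.cases rfl (fun j => rfl) i

variable {N : Type*} [Group N] [Finite N] [Nontrivial N]

theorem exists_min_normal : ∃ S : Subgroup N, S.Normal ∧ S ≠ ⊥ ∧ ∀ R : Subgroup N, R.Normal → R ≤ S → R = ⊥ ∨ R = S := by
  classical
  have hex : ∃ n, ∃ S : Subgroup N, S.Normal ∧ S ≠ ⊥ ∧ Nat.card S = n := ⟨_, ⊤, inferInstance, top_ne_bot, rfl⟩
  obtain ⟨S, h1, h2, h3⟩ := Nat.find_spec hex
  refine ⟨S, h1, h2, fun R hR hRS => ?_⟩
  by_cases hR1 : R = ⊥
  · exact Or.inl hR1
  · right
    refine Subgroup.eq_of_le_of_card_ge hRS ?_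
    rw [h3]
    exact Nat.find_min' hex ⟨R, hR, hR1, rfl⟩

theorem power_of_simple (A : Set (MulAut N))
    (hch : ∀ L : Subgroup N, (∀ a ∈ A, L.map a.toMonoidHom ≤ L) → L = ⊥ ∨ L = ⊤)
    (hA1 : 1 ∈ A) (hmulA : ∀ a ∈ A, ∀ b ∈ A, a * b ∈ A) :
    ∃ (T : Type) (_ : Group T) (_ : IsSimpleGroup T) (k : ℕ), 1 ≤ k ∧ Nonempty (N ≃* (Fin k → T)) := by
  classical
  obtain ⟨S, hSn, hS1, hSm⟩ := exists_min_normal (N := N)
  -- images
  have hmapn : ∀ a : MulAut N, (S.map a.toMonoidHom).Normal := fun a => hSn.map _ a.surjective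
  have hmin : ∀ (a : MulAut N) (D : Subgroup N), D.Normal → D ⊓ S.map a.toMonoidHom = ⊥ ∨ S.map a.toMonoidHom ≤ D := by
    intro a D hD
    have h1 : ((D ⊓ S.map a.toMonoidHom).comap a.toMonoidHom).Normal := by
      haveI := hmapn a
      infer_instance
    have h2 : (D ⊓ S.map a.toMonoidHom).comap a.toMonoidHom ≤ S := by
      intro x hx
      obtain ⟨y, hy, hyx⟩ := hx.2
      have : y = x := a.injective hyx
      rw [← this]; exact hy
    rcases hSm _ h1 h2 with h | h
    · left
      rw [eq_bot_iff]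
      intro x hx
      obtain ⟨y, rfl⟩ := a.surjective x
      have h3 : y ∈ (D ⊓ S.map a.toMonoidHom).comap a.toMonoidHom := hx
      rw [h, Subgroup.mem_bot] at h3
      rw [h3, map_one]; exact Subgroup.mem_bot.2 rfl
    · right
      rintro _ ⟨y, hy, rfl⟩
      rw [← h] at hy
      exact hy.1
  have hsup : (⨆ a : A, S.map (a : MulAut N).toMonoidHom) = ⊤ := by
    have hinv : ∀ b ∈ A, (⨆ a : A, S.map (a : MulAut N).toMonoidHom).map b.toMonoidHom ≤ ⨆ a : A, S.map (a : MulAut N).toMonoidHom := by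
      intro b hb
      rw [Subgroup.map_iSup]
      refine iSup_le fun a => ?_
      refine le_trans ?_ (le_iSup (fun a : A => S.map (a : MulAut N).toMonoidHom) ⟨b * a, hmulA b hb a a.2⟩)
      rw [Subgroup.map_map]
      exact le_rfl
    rcases hch (⨆ a : A, S.map (a : MulAut N).toMonoidHom) hinv with h | h
    · exfalso
      apply hS1
      rw [eq_bot_iff, ← h]
      refine le_trans ?_ (le_iSup (fun a : A => S.map (a : MulAut N).toMonoidHom) ⟨1, hA1⟩)
      intro x hx
      exact ⟨x, hx, rfl⟩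
    · exact h
  -- S is simple
  have hsimple : IsSimpleGroup S := by
    haveI : Nontrivial S := (Subgroup.nontrivial_iff_ne_bot S).2 hS1
    refine ⟨fun R hR => ?_⟩
    have htop : S ⊔ Subgroup.centralizer (S : Set N) = ⊤ := by
      rw [eq_top_iff, ← hsup]
      refine iSup_le fun a => ?_
      rcases hmin a S hSn with h | h
      · refine le_trans ?_ le_sup_right
        intro x hx
        rw [Subgroup.mem_centralizer_iff]
        intro y hy
        haveI := hmapn (a : MulAut N)
        exact comm_of_disj h y hy x hx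
      · exact h.trans le_sup_left
    have hRn : (R.map S.subtype).Normal := by
      rw [← Subgroup.normalizer_eq_top_iff, eq_top_iff, ← htop]
      refine sup_le ?_ ?_
      · exact (Subgroup.normal_subgroupOf_iff_le_normalizer (Subgroup.map_subtype_le R)).1 (by
          rw [Subgroup.subgroupOf, Subgroup.comap_map_eq_self_of_injective S.subtype_injective]; exact hR)
      · intro x hx
        rw [Subgroup.mem_normalizer_iff]
        intro y
        have hxy : ∀ y ∈ S, x * y * x⁻¹ = y := by
          intro y hy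
          rw [← Subgroup.mem_centralizer_iff.1 hx y hy]; group
        constructor
        · intro hy
          rw [hxy y (Subgroup.map_subtype_le R hy)]; exact hy
        · intro hy
          have h1 : x * y * x⁻¹ ∈ S := Subgroup.map_subtype_le R hy
          have h2 : y ∈ S := by
            have := hSn.conj_mem _ h1 x⁻¹
            simpa [mul_assoc] using this
          rw [hxy y h2] at hy; exact hy
    rcases hSm _ hRn (Subgroup.map_subtype_le R) with h | h
    · left
      exact (Subgroup.map_eq_bot_iff_of_injective _ S.subtype_injective).1 h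
    · right
      rw [eq_top_iff]
      intro x _
      have h1 : (x : N) ∈ R.map S.subtype := by rw [h]; exact x.2
      obtain ⟨y, hy, hyx⟩ := h1
      have : y = x := Subtype.ext hyx
      rw [← this]; exact hy
  -- the induction
  have key : ∀ (n : ℕ) (D : Subgroup N) (_ : D.Normal) (k : ℕ) (_ : 1 ≤ k) (_ : Nonempty (D ≃* (Fin k → S))),
      Nat.card N - Nat.card D = n → ∃ k' : ℕ, 1 ≤ k' ∧ Nonempty (N ≃* (Fin k' → S)) := by
    intro n
    induction n using Nat.strong_induction_on with
    | _ n ih =>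
      intro D hD k hk e hn
      by_cases hall : ∀ a : A, S.map (a : MulAut N).toMonoidHom ≤ D
      · have hDt : D = ⊤ := by rw [eq_top_iff, ← hsup]; exact iSup_le hall
        obtain ⟨e⟩ := e
        exact ⟨k, hk, ⟨(Subgroup.topEquiv.symm.trans (MulEquiv.subgroupCongr hDt.symm)).trans e⟩⟩
      · rw [not_forall] at hall
        obtain ⟨a, ha⟩ := hall
        have hdis := (hmin (a : MulAut N) D hD).resolve_right ha
        haveI := hmapn (a : MulAut N)
        obtain ⟨e⟩ := e
        obtain ⟨e1⟩ := sup_equiv_prod D (S.map (a : MulAut N).toMonoidHom) hdis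
        obtain ⟨e2⟩ := cons_equiv S k
        let e3 : S ≃* S.map (a : MulAut N).toMonoidHom := S.equivMapOfInjective _ (a : MulAut N).injective
        refine ih _ ?_ (D ⊔ S.map (a : MulAut N).toMonoidHom) inferInstance (k + 1) (by omega)
          ⟨(e1.trans (MulEquiv.prodCongr e e3.symm)).trans e2⟩ rfl
        have hlt : D < D ⊔ S.map (a : MulAut N).toMonoidHom :=
          lt_of_le_of_ne le_sup_left (fun h => ha (by rw [h]; exact le_sup_right))
        have h1 : Nat.card D < Nat.card ↥(D ⊔ S.map (a : MulAut N).toMonoidHom) :=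
          Set.ncard_lt_ncard (SetLike.coe_ssubset_coe.2 hlt) (Set.toFinite _)
        have h2 : Nat.card ↥(D ⊔ S.map (a : MulAut N).toMonoidHom) ≤ Nat.card N :=
          Nat.le_of_dvd Nat.card_pos (Subgroup.card_subgroup_dvd_card _)
        omega
  obtain ⟨k, hk, ⟨e⟩⟩ := key _ S hSn 1 le_rfl
    ⟨(MulEquiv.funUnique (Fin 1) S).symm⟩ rfl
  obtain ⟨T, hT, ⟨f⟩⟩ := exists_type_copy S
  refine ⟨T, hT, ?_, k, hk, ⟨e.trans (MulEquiv.piCongrRight (fun _ => f))⟩⟩
  exact (MulEquiv.isSimpleGroup_congr f).1 hsimple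

end Cfsg.Agent.H2
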