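import Cfsg.Prelude.Def_Balance
import Cfsg.Agent.L0.Core
import Cfsg.Agent.L0.Coprime
import Cfsg.Agent.H2.PComp2
import Cfsg.Agent.H6.CharP
import Mathlib

set_option autoImplicit false
open Cfsg Subgroup
open scoped Pointwise

namespace Cfsg.Agent.H2

variable {X : Type*} [Group X]

/-- `O(C_X(P))` inside `X` -/
def OC (P : Subgroup X) : Subgroup X :=
  (oddCore ↥(Subgroup.centralizer (P : Set X))).map (Subgroup.centralizer (P : Set X)).subtype

theorem cent_conj (P : Subgroup X) (g : X) : (Subgroup.centralizer (P : Set X)).map (MulAut.conj g).toMonoidHom =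
    Subgroup.centralizer ((P.map (MulAut.conj g).toMonoidHom : Subgroup X) : Set X) := by
  ext x
  constructor
  · rintro ⟨y, hy, rfl⟩
    rw [Subgroup.mem_centralizer_iff]
    rintro _ ⟨z, hz, rfl⟩
    rw [← map_mul, ← map_mul, Subgroup.mem_centralizer_iff.1 hy z hz]
  · intro hx
    refine ⟨g⁻¹ * x * g, ?_, by show g * (g⁻¹ * x * g) * g⁻¹ = x; group⟩
    rw [SetLike.mem_coe, Subgroup.mem_centralizer_iff]
    intro z hz
    have h1 : (g * z * g⁻¹) * x = x * (g * z * g⁻¹) := Subgroup.mem_centralizer_iff.1 hx _ ⟨z, hz, rfl⟩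
    calc z * (g⁻¹ * x * g) = g⁻¹ * ((g * z * g⁻¹) * x) * g := by group
      _ = g⁻¹ * (x * (g * z * g⁻¹)) * g := by rw [h1]
      _ = g⁻¹ * x * g * z := by group

/-- the map of the odd core of a subgroup under conjugation -/
theorem core_conj (C : Subgroup X) (g : X) : ((oddCore ↥C).map C.subtype).map (MulAut.conj g).toMonoidHom =
    (oddCore ↥(C.map (MulAut.conj g).toMonoidHom)).map (C.map (MulAut.conj g).toMonoidHom).subtype := by
  have e : ↥C ≃* ↥(C.map (MulAut.conj g).toMonoidHom) := C.equivMapOfInjective _ (MulAut.conj g).injective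
  have he : ∀ x : ↥C, ((C.equivMapOfInjective (MulAut.conj g).toMonoidHom (MulAut.conj g).injective x : ↥(C.map (MulAut.conj g).toMonoidHom)) : X) = (MulAut.conj g).toMonoidHom (x : X) := fun x => rfl
  have h1 := L0.pPrimeCore_map_equiv 2 (C.equivMapOfInjective (MulAut.conj g).toMonoidHom (MulAut.conj g).injective)
  rw [oddCore, oddCore, ← h1, Subgroup.map_map, Subgroup.map_map]
  congr 1

theorem OC_conj (P : Subgroup X) (g : X) : (OC P).map (MulAut.conj g).toMonoidHom = OC (P.map (MulAut.conj g).toMonoidHom) := by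
  unfold OC
  rw [core_conj, cent_conj]

theorem mem_norm_of_map {P : Subgroup X} {g : X} (h : P.map (MulAut.conj g).toMonoidHom = P) : g ∈ Subgroup.normalizer (P : Set X) := by
  rw [Subgroup.mem_normalizer_iff]
  intro a
  constructor
  · intro ha; rw [← h]; exact ⟨a, ha, rfl⟩
  · intro ha
    rw [← h] at ha
    obtain ⟨b, hb, hba⟩ := ha
    have : b = a := (MulAut.conj g).injective hba
    rw [← this]; exact hb

theorem map_of_mem_norm {P : Subgroup X} {g : X} (h : g ∈ Subgroup.normalizer (P : Set X)) : P.map (MulAut.conj g).toMonoidHom = P := by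
  ext x
  constructor
  · rintro ⟨a, ha, rfl⟩
    exact (Subgroup.mem_normalizer_iff.1 h a).1 ha
  · intro hx
    refine ⟨g⁻¹ * x * g, ?_, by show g * (g⁻¹ * x * g) * g⁻¹ = x; group⟩
    have := (Subgroup.mem_normalizer_iff.1 (inv_mem h) x).1 hx
    rwa [inv_inv] at this

theorem norm_OC {P : Subgroup X} {g : X} (h : g ∈ Subgroup.normalizer (P : Set X)) : g ∈ Subgroup.normalizer ((OC P : Subgroup X) : Set X) := by
  apply mem_norm_of_map
  rw [OC_conj, map_of_mem_norm h]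

variable [Finite X]

theorem OC_odd (P : Subgroup X) : Odd (Nat.card ↥(OC P)) := by
  have h1 : Nat.card ↥(OC P) = Nat.card ↥(oddCore ↥(Subgroup.centralizer (P : Set X))) :=
    Nat.card_congr ((oddCore ↥(Subgroup.centralizer (P : Set X))).equivMapOfInjective _ (Subgroup.subtype_injective _)).symm.toEquiv
  rw [h1]
  exact Nat.coprime_two_right.1 (L0.pPrimeCore_coprime 2 _)

theorem pLayer_normal (p : ℕ) [Fact p.Prime] : (pLayer p X).Normal := by
  refine ⟨fun x hx g => ?_⟩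
  have h1 : (pLayer p X).map (MulAut.conj g).toMonoidHom ≤ pLayer p X := by
    unfold pLayer
    rw [sSup_eq_iSup', Subgroup.map_iSup]
    refine iSup_le fun K => ?_
    exact le_iSup (fun K : {K : Subgroup X | IsPComponent p K} => (K : Subgroup X)) ⟨_, isPComponent_map_equiv (MulAut.conj g) K.2⟩
  exact h1 ⟨x, hx, rfl⟩

instance ext2_inst : (pLayer 2 X).Normal := pLayer_normal 2
instance ext2_inst' : (pPrimePCore 2 X).Normal := by unfold pPrimePCore; infer_instance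

theorem isP_quot {M D : Subgroup X} (hDn : (D.subgroupOf M).Normal) {q : ℕ} (hpow : ∀ m ∈ M, ∃ k : ℕ, m ^ q ^ k ∈ D) :
    IsPGroup q (↥M ⧸ D.subgroupOf M) := by
  intro x
  obtain ⟨m, rfl⟩ := QuotientGroup.mk_surjective x
  obtain ⟨k, hk⟩ := hpow m m.2
  refine ⟨k, ?_⟩
  rw [← QuotientGroup.mk_pow, QuotientGroup.eq_one_iff, Subgroup.mem_subgroupOf]
  exact hk

theorem sup_top_of {M D : Subgroup X} (hDn : (D.subgroupOf M).Normal) {q : ℕ} [hq : Fact q.Prime] (hpow : ∀ m ∈ M, ∃ k : ℕ, m ^ q ^ k ∈ D) (T : Sylow q ↥M) :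
    (T : Subgroup ↥M) ⊔ D.subgroupOf M = ⊤ := by
  obtain ⟨n, hn⟩ := (isP_quot hDn hpow).exists_card_eq
  have h1 : ((T : Subgroup ↥M) ⊔ D.subgroupOf M).index ∣ q ^ n := by
    rw [← hn]; exact Subgroup.index_dvd_of_le le_sup_right
  have h2 : ((T : Subgroup ↥M) ⊔ D.subgroupOf M).index ∣ (T : Subgroup ↥M).index :=
    Subgroup.index_dvd_of_le le_sup_left
  have h3 : (q ^ n).Coprime (T : Subgroup ↥M).index :=
    Nat.Coprime.pow_left n ((Nat.Prime.coprime_iff_not_dvd hq.out).2 T.not_dvd_index)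
  exact Subgroup.index_eq_one.1 (Nat.eq_one_of_dvd_coprimes h3 h1 h2)

/-- the 2-group `M/(L O)` -/
theorem M_pow : ∀ m ∈ pLayer 2 X ⊔ pPrimePCore 2 X, ∃ k : ℕ, m ^ 2 ^ k ∈ pLayer 2 X ⊔ oddCore X := by
  intro m hm
  obtain ⟨l, hl, r, hr, rfl⟩ := Subgroup.mem_sup_of_normal_left.1 hm
  have hr' : QuotientGroup.mk' (pPrimeCore 2 X) r ∈ pCore 2 (X ⧸ pPrimeCore 2 X) := hr
  obtain ⟨k, hk⟩ := (L0.pCore_isPGroup 2 (X ⧸ pPrimeCore 2 X)) ⟨_, hr'⟩
  have hk' : (QuotientGroup.mk' (pPrimeCore 2 X) r) ^ 2 ^ k = 1 := congrArg Subtype.val hk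
  rw [← map_pow] at hk'
  have hk2 : r ^ 2 ^ k ∈ pLayer 2 X ⊔ oddCore X := Subgroup.mem_sup_right ((QuotientGroup.eq_one_iff _).1 hk')
  obtain ⟨D, hD⟩ : ∃ D, D = pLayer 2 X ⊔ oddCore X := ⟨_, rfl⟩
  haveI : D.Normal := by rw [hD]; infer_instance
  have hl' : l ∈ D := hD ▸ Subgroup.mem_sup_left hl
  rw [← hD] at hk2 ⊢
  refine ⟨k, ?_⟩
  rw [← QuotientGroup.eq_one_iff (N := D), QuotientGroup.mk_pow, QuotientGroup.mk_mul, (QuotientGroup.eq_one_iff l).2 hl', one_mul,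
    ← QuotientGroup.mk_pow, QuotientGroup.eq_one_iff]
  exact hk2

theorem M_sup (T : Sylow 2 ↥(pLayer 2 X ⊔ pPrimePCore 2 X)) : (T : Subgroup ↥(pLayer 2 X ⊔ pPrimePCore 2 X)) ⊔ (pLayer 2 X ⊔ oddCore X).subgroupOf (pLayer 2 X ⊔ pPrimePCore 2 X) = ⊤ :=
  sup_top_of inferInstance M_pow T

theorem map_conj_mul (P : Subgroup X) (a b : X) : P.map (MulAut.conj (a * b)).toMonoidHom = (P.map (MulAut.conj b).toMonoidHom).map (MulAut.conj a).toMonoidHom := by
  rw [Subgroup.map_map]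
  congr 1
  ext x
  simp [mul_assoc]

theorem conj_in {M D : Subgroup X} (hDn : (D.subgroupOf M).Normal) (T T' : Sylow 2 ↥M) (hTD : (T : Subgroup ↥M) ⊔ D.subgroupOf M = ⊤) :
    ∃ y ∈ D, (T' : Subgroup ↥M).map M.subtype = ((T : Subgroup ↥M).map M.subtype).map (MulAut.conj (y : X)).toMonoidHom := by
  obtain ⟨m, hm⟩ := MulAction.exists_smul_eq ↥M T T'
  have h0 : m ∈ D.subgroupOf M ⊔ (T : Subgroup ↥M) := by
    rw [sup_comm, hTD]; exact mem_top m
  obtain ⟨y, hy, t, ht, rfl⟩ := Subgroup.mem_sup_of_normal_left.1 h0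
  refine ⟨(y : X), Subgroup.mem_subgroupOf.1 hy, ?_⟩
  have hmem : ∀ z : ↥M, z ∈ (T' : Subgroup ↥M) ↔ y⁻¹ * z * y ∈ (T : Subgroup ↥M) := by
    intro z
    rw [← hm, Sylow.coe_subgroup_smul, Subgroup.mem_pointwise_smul_iff_inv_smul_mem]
    have e1 : (MulAut.conj (y * t))⁻¹ • z = t⁻¹ * (y⁻¹ * z * y) * t := by
      rw [← map_inv]
      show (y * t)⁻¹ * z * (y * t)⁻¹⁻¹ = _
      group
    rw [e1]
    constructor
    · intro h
      have := mul_mem (mul_mem ht h) (inv_mem ht)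
      have e2 : t * (t⁻¹ * (y⁻¹ * z * y) * t) * t⁻¹ = y⁻¹ * z * y := by group
      rwa [e2] at this
    · intro h
      exact mul_mem (mul_mem (inv_mem ht) h) ht
  ext x
  constructor
  · rintro ⟨z, hz, rfl⟩
    exact ⟨_, ⟨_, (hmem z).1 hz, rfl⟩, by show (y : X) * ((y : X)⁻¹ * z * y) * (y : X)⁻¹ = z; group⟩
  · rintro ⟨_, ⟨z, hz, rfl⟩, rfl⟩
    refine ⟨y * z * y⁻¹, (hmem _).2 ?_, rfl⟩
    have : y⁻¹ * (y * z * y⁻¹) * y = z := by group
    rw [this]; exact hz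

/-- all the `O(C(T'))` lie in `L O O(C(T))` -/
theorem OC_le (T T' : Sylow 2 ↥(pLayer 2 X ⊔ pPrimePCore 2 X)) :
    OC ((T' : Subgroup ↥(pLayer 2 X ⊔ pPrimePCore 2 X)).map (pLayer 2 X ⊔ pPrimePCore 2 X).subtype) ≤
      pLayer 2 X ⊔ oddCore X ⊔ OC ((T : Subgroup ↥(pLayer 2 X ⊔ pPrimePCore 2 X)).map (pLayer 2 X ⊔ pPrimePCore 2 X).subtype) := by
  obtain ⟨y, hy', h1⟩ := conj_in (D := pLayer 2 X ⊔ oddCore X) inferInstance T T' (M_sup T)
  rw [h1, ← OC_conj]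
  rintro _ ⟨z, hz, rfl⟩
  exact mul_mem (mul_mem (Subgroup.mem_sup_left hy') (Subgroup.mem_sup_right hz)) (inv_mem (Subgroup.mem_sup_left hy'))

theorem ext_eq (T : Sylow 2 ↥(pLayer 2 X ⊔ pPrimePCore 2 X)) :
    extendedTwoLayer X = pLayer 2 X ⊔ oddCore X ⊔ OC ((T : Subgroup ↥(pLayer 2 X ⊔ pPrimePCore 2 X)).map (pLayer 2 X ⊔ pPrimePCore 2 X).subtype) := by
  apply le_antisymm
  · refine sup_le le_sup_left (iSup_le fun T' => ?_)
    exact OC_le T T'
  · refine sup_le_sup_left ?_ _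
    exact le_iSup (fun T : Sylow 2 ↥(pLayer 2 X ⊔ pPrimePCore 2 X) => OC ((T : Subgroup ↥(pLayer 2 X ⊔ pPrimePCore 2 X)).map (pLayer 2 X ⊔ pPrimePCore 2 X).subtype)) T

theorem ext_normal : (extendedTwoLayer X).Normal := by
  obtain ⟨T⟩ : Nonempty (Sylow 2 ↥(pLayer 2 X ⊔ pPrimePCore 2 X)) := inferInstance
  have hE := ext_eq T
  rw [← Subgroup.normalizer_eq_top_iff, eq_top_iff, ← Sylow.normalizer_sup_eq_top T]
  refine sup_le ?_ ?_
  · intro g hg
    rw [hE]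
    apply mem_norm_of_map
    rw [Subgroup.map_sup, map_of_mem_norm (norm_OC hg)]
    congr 1
    exact map_of_mem_norm (by rw [Subgroup.normalizer_eq_top]; exact mem_top g)
  · intro m hm
    apply mem_norm_of_map
    have h1 : ∀ m ∈ pLayer 2 X ⊔ pPrimePCore 2 X, (extendedTwoLayer X).map (MulAut.conj m).toMonoidHom ≤ extendedTwoLayer X := by
      intro m hm
      conv_lhs => rw [hE]
      rw [Subgroup.map_sup]
      refine sup_le ?_ ?_
      · have : (pLayer 2 X ⊔ oddCore X).map (MulAut.conj m).toMonoidHom = pLayer 2 X ⊔ oddCore X :=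
          map_of_mem_norm (by rw [Subgroup.normalizer_eq_top]; exact mem_top m)
        rw [this]; exact le_sup_left
      · rw [OC_conj]
        have e : ((T : Subgroup ↥(pLayer 2 X ⊔ pPrimePCore 2 X)).map (pLayer 2 X ⊔ pPrimePCore 2 X).subtype).map (MulAut.conj m).toMonoidHom =
            ((((⟨m, hm⟩ : ↥(pLayer 2 X ⊔ pPrimePCore 2 X)) • T : Sylow 2 ↥(pLayer 2 X ⊔ pPrimePCore 2 X)) : Subgroup ↥(pLayer 2 X ⊔ pPrimePCore 2 X))).map (pLayer 2 X ⊔ pPrimePCore 2 X).subtype := by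
          rw [Sylow.coe_subgroup_smul]
          ext x
          constructor
          · rintro ⟨_, ⟨z, hz, rfl⟩, rfl⟩
            refine ⟨⟨m, hm⟩ * z * (⟨m, hm⟩ : ↥(pLayer 2 X ⊔ pPrimePCore 2 X))⁻¹, ⟨z, hz, rfl⟩, rfl⟩
          · rintro ⟨_, ⟨z, hz, rfl⟩, rfl⟩
            exact ⟨_, ⟨z, hz, rfl⟩, rfl⟩
        rw [e]
        exact le_trans (le_iSup (fun T : Sylow 2 ↥(pLayer 2 X ⊔ pPrimePCore 2 X) => OC ((T : Subgroup ↥(pLayer 2 X ⊔ pPrimePCore 2 X)).map (pLayer 2 X ⊔ pPrimePCore 2 X).subtype)) _) le_sup_right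
    apply le_antisymm (h1 m hm)
    intro x hx
    have := h1 m⁻¹ (inv_mem hm) ⟨x, hx, rfl⟩
    exact ⟨_, this, by show m * (m⁻¹ * x * m⁻¹⁻¹) * m⁻¹ = x; group⟩

end Cfsg.Agent.H2
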