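import Cfsg.Agent.H2.FusPS
import Cfsg.Agent.L0.Fus.Norm2
import Cfsg.Agent.L0.Fus.ModelEx
import Cfsg.Agent.H6.WeakClosure2
import Cfsg.Agent.H6.NoSL2

set_option autoImplicit false
set_option linter.unusedSectionVars false
set_option linter.unusedSimpArgs false
set_option linter.unusedVariables false
set_option linter.style.haveILetI false
open Cfsg
open scoped commutatorElement

/-! Fusion systems of `p`-stable groups are constrained, `p > 3` (helper2). -/

namespace Cfsg.Agent.H2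
open Cfsg.Agent.H6

universe u

section
variable {p : ℕ} [hp : Fact p.Prime]

/-- control of fusion by the normalizer of a subgroup normal in the fusion system -/
theorem ctl_of_fusNormal {G : Type*} [Group G] [Finite G] (S : Sylow p G) {R : Subgroup G}
    (hR : (groupFusionSystem (S : Subgroup G)).IsNormal R) (P : Subgroup G) (g : G) (hP : P ≤ (S : Subgroup G))
    (hg : ∀ x ∈ P, g * x * g⁻¹ ∈ (S : Subgroup G)) :
    ∃ n ∈ Subgroup.normalizer (R : Set G), ∀ x ∈ P, n * x * n⁻¹ = g * x * g⁻¹ := by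
  obtain ⟨ψ, ⟨hψ1, hψ2, n, hn⟩, hψ3, κ, hκ⟩ := (L0.Fus.isNormal_iff.1 hR).2 P (conjHom P g)
    ⟨hP, fun x => hg x x.2, g, fun x => rfl⟩
  refine ⟨n, ?_, ?_⟩
  · apply mem_norm_of_conj
    intro r hr
    have h1 := hκ ⟨r, hr⟩
    rw [hn] at h1
    have h2 : n * r * n⁻¹ = (κ ⟨r, hr⟩ : R) := h1
    rw [h2]; exact (κ _).2
  · intro x hx
    have := hψ3 ⟨x, hx⟩
    rw [hn] at this
    exact this

/-- strong closure from the group -/
theorem fusSC_of_sc {G : Type*} [Group G] [Finite G] (S : Sylow p G) {D : Subgroup G}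
    (hD : IsStronglyClosed D (S : Subgroup G)) : (groupFusionSystem (S : Subgroup G)).StronglyClosed D := by
  refine ⟨hD.1, ?_⟩
  rintro R hR φ ⟨h1, h2, g, hg⟩ x
  rw [hg]
  exact hD.2 x (hR x.2) g (by rw [← hg]; exact h2 x)

/-- `zz m S` is strongly closed when it controls strong fusion -/
theorem zz_sc_of_zf {m : ℕ} (hm : m = 0 ∨ m = p) {G : Type u} [Group G] [Finite G] (h : ZF p m G) (S : Sylow p G) :
    IsStronglyClosed (zz m (S : Subgroup G)) (S : Subgroup G) := by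
  refine ⟨zz_le, ?_⟩
  intro w hw g hg
  by_cases hS : (S : Subgroup G) = ⊥
  · have : zz m (S : Subgroup G) = ⊥ := by rw [eq_bot_iff, ← hS]; exact zz_le
    rw [this, Subgroup.mem_bot] at hw
    rw [hw]; simp [this]
  obtain ⟨n, hn, hna⟩ := h S (S : Subgroup G) ⟨le_rfl, fun x _ g hg => hg⟩ hS {w} g⁻¹
    (by intro a ha; rw [Set.mem_singleton_iff] at ha; rw [ha]; exact zz_le hw) (by
      rintro _ ⟨a, ha, rfl⟩
      rw [Set.mem_singleton_iff] at ha
      rw [ha]
      show (g⁻¹)⁻¹ * w * g⁻¹ ∈ (S : Subgroup G)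
      rw [inv_inv]; exact hg)
  have h1 := hna w rfl
  rw [inv_inv] at h1
  rw [← h1]
  have := (Subgroup.mem_normalizer_iff.1 (Subgroup.inv_mem _ hn) w).1 hw
  simpa using this

set_option maxHeartbeats 800000 in
/-- **The fusion system of a `p`-stable group is constrained, `p > 3`.** -/
theorem constrained_of_nps (h3 : 3 < p) {G : Type u} [Group G] [Finite G] (hst : IsNormalizerPStable p G)
    (S : Sylow p G) : (groupFusionSystem (S : Subgroup G)).IsConstrained p := by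
  classical
  set F := groupFusionSystem (S : Subgroup G) with hF
  have hsat : F.IsSaturated p := L0.Fus.group_saturated S
  have hRn : F.IsNormal F.core := L0.Fus.core_normal F
  refine ⟨hsat, F.core, hRn, hRn.1, ?_⟩
  intro Q hQ
  rw [L0.Fus.isConj_of_normal hRn hQ]
  clear hQ Q
  set R := F.core with hR
  have hRS : R ≤ (S : Subgroup G) := hRn.1
  by_contra hcon
  have hRsc := L0.Fus.stronglyClosed_of_normal hRn
  set N := Subgroup.normalizer (R : Set G) with hN
  have hSN : (S : Subgroup G) ≤ N := L0.Fus.StronglyClosed.le_normalizer hRsc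
  set C := Subgroup.centralizer (R : Set G) with hC
  have hCN : C ≤ N := centralizer_le_norm R
  have hNC : N ≤ Subgroup.normalizer (C : Set G) := le_norm_centralizer le_rfl
  have hSC : ¬ (S : Subgroup G) ⊓ C ≤ R := hcon
  have hsylN : SylIn p (S : Subgroup G) N := sylIn_of_sylow_le S hSN
  have hsylC : SylIn p ((S : Subgroup G) ⊓ C) C := sylIn_inf_normal hsylN hCN hNC
  obtain ⟨P, hP⟩ := hsylC.exists_sylow
  -- the central subgroup
  set Z : Subgroup C := R.subgroupOf C with hZ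
  have hZcen : ∀ z ∈ Z, ∀ c : C, z * c = c * z := by
    intro z hz c
    apply Subtype.ext
    exact (Subgroup.mem_centralizer_iff.1 c.2 z hz)
  haveI hZn : Z.Normal := by
    constructor
    intro z hz c
    rw [← hZcen z hz c, mul_inv_cancel_right]; exact hz
  have hZp : IsPGroup p ↥Z := (S.2.to_le hRS).comap_subtype
  have hZP : Z ≤ (P : Subgroup C) := by
    rw [hP]
    intro z hz
    exact ⟨hRS hz, z.2⟩
  set f := QuotientGroup.mk' Z with hf
  have hfs : Function.Surjective f := QuotientGroup.mk'_surjective Z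
  have hf1 : ∀ c : C, f c = 1 ↔ (c : G) ∈ R := fun c => (QuotientGroup.eq_one_iff c).trans Subgroup.mem_subgroupOf
  have hstH : IsNormalizerPStable p (C ⧸ Z) := nps_quotient h3 (pstable_subgroup hst C) Z hZp (by
    intro w _
    rw [Subgroup.mem_centralizer_iff]
    intro z hz
    exact hZcen z hz w)
  set Pb := P.mapSurjective hfs with hPb
  have hPbc : (Pb : Subgroup (C ⧸ Z)) = (P : Subgroup C).map f := Sylow.coe_mapSurjective hfs P
  have hZF : ZF p 0 (C ⧸ Z) := zf_of_pstable h3 (Or.inl rfl) _ (C ⧸ Z) rfl hstH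
  set W1 := zz 0 (Pb : Subgroup (C ⧸ Z)) with hW1
  have hW1sc := zz_sc_of_zf (Or.inl rfl) hZF Pb
  have hW1comm : ∀ x ∈ W1, ∀ y ∈ W1, x * y = y * x := zz_comm
  have hPbne : (Pb : Subgroup (C ⧸ Z)) ≠ ⊥ := by
    intro h
    apply hSC
    rintro x ⟨hx1, hx2⟩
    have h1 : f ⟨x, hx2⟩ ∈ (Pb : Subgroup (C ⧸ Z)) := by
      rw [hPbc]
      refine ⟨⟨x, hx2⟩, ?_, rfl⟩
      rw [hP]; exact ⟨hx1, hx2⟩
    rw [h, Subgroup.mem_bot, hf1] at h1
    exact h1
  have hW1ne : W1 ≠ ⊥ := zz_ne_bot (Or.inl rfl) Pb.2 hPbne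
  set W : Subgroup G := (W1.comap f).map C.subtype with hW
  have mW : ∀ g, g ∈ W ↔ ∃ h : g ∈ C, f ⟨g, h⟩ ∈ W1 := by
    intro g
    constructor
    · rintro ⟨b, hb, rfl⟩
      exact ⟨b.2, hb⟩
    · rintro ⟨h, h1⟩
      exact ⟨⟨g, h⟩, h1, rfl⟩
  have hWC : W ≤ C := Subgroup.map_subtype_le _
  have hPcomap : (Pb : Subgroup (C ⧸ Z)).comap f = (P : Subgroup C) := by
    rw [hPbc, comap_map_mk', sup_eq_left]; exact hZP
  have hfP : ∀ c : C, f c ∈ (Pb : Subgroup (C ⧸ Z)) ↔ (c : G) ∈ (S : Subgroup G) := by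
    intro c
    rw [← Subgroup.mem_comap, hPcomap, hP, Subgroup.mem_subgroupOf]
    exact ⟨fun h => h.1, fun h => ⟨h, c.2⟩⟩
  have hWS : W ≤ (S : Subgroup G) := by
    intro g hg
    obtain ⟨h, h1⟩ := (mW g).1 hg
    exact (hfP ⟨g, h⟩).1 (zz_le h1)
  -- strong closure in `C`
  have hWsc : ∀ w ∈ W, ∀ c ∈ C, c * w * c⁻¹ ∈ (S : Subgroup G) → c * w * c⁻¹ ∈ W := by
    intro w hw c hc hS
    obtain ⟨h, h1⟩ := (mW w).1 hw
    have h2 : c * w * c⁻¹ ∈ C := C.mul_mem (C.mul_mem hc h) (C.inv_mem hc)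
    refine (mW _).2 ⟨h2, ?_⟩
    have h4 : f ⟨c * w * c⁻¹, h2⟩ = f ⟨c, hc⟩ * f ⟨w, h⟩ * (f ⟨c, hc⟩)⁻¹ := by
      rw [← map_inv, ← map_mul, ← map_mul]; rfl
    rw [h4]
    refine hW1sc.2 _ h1 _ ?_
    rw [← h4]
    exact (hfP _).2 hS
  -- invariance under elements normalizing `S ⊓ C`
  have hWm : ∀ m ∈ N ⊓ Subgroup.normalizer (((S : Subgroup G) ⊓ C : Subgroup G) : Set G), ∀ w ∈ W, m * w * m⁻¹ ∈ W := by
    rintro m ⟨hmN, hmS⟩ w hw
    let e : C ≃* C := C.normalizerMonoidHom ⟨m, hNC hmN⟩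
    have he : ∀ c : C, ((e c : C) : G) = m * c * m⁻¹ := fun c => rfl
    have heZ : Z.map e.toMonoidHom = Z := by
      ext z
      constructor
      · rintro ⟨y, hy, rfl⟩
        exact (Subgroup.mem_normalizer_iff.1 hmN y).1 hy
      · intro hz
        obtain ⟨y, rfl⟩ := e.surjective z
        exact ⟨y, (Subgroup.mem_normalizer_iff.1 hmN y).2 hz, rfl⟩
    have heP : (P : Subgroup C).map e.toMonoidHom = P := by
      ext z
      rw [hP]
      constructor
      · rintro ⟨y, hy, rfl⟩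
        exact (Subgroup.mem_normalizer_iff.1 hmS y).1 hy
      · intro hz
        obtain ⟨y, rfl⟩ := e.surjective z
        exact ⟨y, (Subgroup.mem_normalizer_iff.1 hmS y).2 hz, rfl⟩
    let eb : (C ⧸ Z) ≃* (C ⧸ Z) := QuotientGroup.congr Z Z e heZ
    have heb : ∀ c, eb (f c) = f (e c) := fun c => rfl
    have h1 := zz_equiv eb (m := 0) (D := (Pb : Subgroup (C ⧸ Z)))
    have h2 : (Pb : Subgroup (C ⧸ Z)).map eb.toMonoidHom = Pb := by
      rw [hPbc, Subgroup.map_map]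
      have : eb.toMonoidHom.comp f = f.comp e.toMonoidHom := by
        ext c; exact heb c
      rw [this, ← Subgroup.map_map, heP]
    rw [h2] at h1
    obtain ⟨h, h4⟩ := (mW w).1 hw
    have h5 : eb (f ⟨w, h⟩) ∈ W1 := by
      rw [hW1, ← h1]
      exact ⟨_, h4, rfl⟩
    rw [heb] at h5
    exact (mW _).2 ⟨(e ⟨w, h⟩).2, h5⟩
  -- strong closure in `G`
  have hWscG : IsStronglyClosed W (S : Subgroup G) := by
    refine ⟨hWS, ?_⟩
    intro w hw g hg
    obtain ⟨n, hn, hnw⟩ := ctl_of_fusNormal S hRn (Subgroup.zpowers w) g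
      (by rw [Subgroup.zpowers_le]; exact hWS hw) (by
        rintro _ ⟨j, rfl⟩
        have : g * w ^ j * g⁻¹ = (g * w * g⁻¹) ^ j := by simp [conj_zpow]
        change g * w ^ j * g⁻¹ ∈ _
        rw [this]; exact Subgroup.zpow_mem _ hg j)
    rw [← hnw w (Subgroup.mem_zpowers w)] at hg ⊢
    obtain ⟨c, hc, m, hm, hcm⟩ := frattini_sub hsylN hCN hNC (Subgroup.inv_mem _ hn)
    have hn' : n = m⁻¹ * c⁻¹ := by rw [← inv_inv n, hcm, mul_inv_rev]
    have hwc : n * w * n⁻¹ ∈ (S : Subgroup G) ⊓ C :=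
      ⟨hg, (Subgroup.mem_normalizer_iff.1 (hNC hn) w).1 (hWC hw)⟩
    have h1 : c⁻¹ * w * c⁻¹⁻¹ ∈ (S : Subgroup G) ⊓ C := by
      have := (Subgroup.mem_normalizer_iff.1 hm.2 _).1 hwc
      have e : m * (n * w * n⁻¹) * m⁻¹ = c⁻¹ * w * c⁻¹⁻¹ := by rw [hn']; group
      rwa [e] at this
    have h2 := hWsc w hw c⁻¹ (C.inv_mem hc) h1.1
    have h4 := hWm m⁻¹ (Subgroup.inv_mem _ hm) _ h2
    have e : m⁻¹ * (c⁻¹ * w * c⁻¹⁻¹) * m⁻¹⁻¹ = n * w * n⁻¹ := by rw [hn']; group
    rwa [e] at h4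
  -- `Z(R)` is strongly closed
  have hZsc : IsStronglyClosed (R ⊓ C) (S : Subgroup G) := by
    refine ⟨inf_le_left.trans hRS, ?_⟩
    intro w hw g hg
    obtain ⟨n, hn, hnw⟩ := ctl_of_fusNormal S hRn (Subgroup.zpowers w) g
      (by rw [Subgroup.zpowers_le]; exact hRS hw.1) (by
        rintro _ ⟨j, rfl⟩
        have : g * w ^ j * g⁻¹ = (g * w * g⁻¹) ^ j := by simp [conj_zpow]
        change g * w ^ j * g⁻¹ ∈ _
        rw [this]; exact Subgroup.zpow_mem _ hg j)
    rw [← hnw w (Subgroup.mem_zpowers w)]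
    exact ⟨(Subgroup.mem_normalizer_iff.1 hn w).1 hw.1, (Subgroup.mem_normalizer_iff.1 (hNC hn) w).1 hw.2⟩
  have hZW : R ⊓ C ≤ W := by
    rintro z ⟨hz1, hz2⟩
    refine (mW z).2 ⟨hz2, ?_⟩
    rw [(hf1 ⟨z, hz2⟩).2 hz1]; exact W1.one_mem
  -- `W` is normal in the fusion system
  have hWnormal : F.IsNormal W := by
    refine L0.Fus.normal_of_chain S.2 hsat W 2 (fun i => if i = 0 then ⊥ else if i = 1 then R ⊓ C else W)
      (by simp) (by simp) ?_ ?_ ?_
    · intro i
      rcases i with _ | _ | i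
      · simp
      · simpa using hZW
      · simp
    · intro i hi
      rcases i with _ | _ | i
      · simp only [if_true]
        exact fusSC_of_sc S ⟨bot_le, fun x hx g _ => by
          rw [Subgroup.mem_bot] at hx ⊢; rw [hx]; simp⟩
      · simpa using fusSC_of_sc S hZsc
      · simpa using fusSC_of_sc S hWscG
    · intro i hi
      have hi' : i = 0 ∨ i = 1 := by omega
      rcases hi' with rfl | rfl
      · simp only [zero_add, one_ne_zero, if_false, if_true]
        rw [Subgroup.commutator_le]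
        rintro w hw z ⟨hz1, _⟩
        rw [Subgroup.mem_bot, commutatorElement_eq_one_iff_mul_comm]
        exact (Subgroup.mem_centralizer_iff.1 (hWC hw) z hz1).symm
      · show ⁅W, W⁆ ≤ R ⊓ C
        rw [Subgroup.commutator_le]
        intro a ha b hb
        obtain ⟨ha1, ha2⟩ := (mW a).1 ha
        obtain ⟨hb1, hb2⟩ := (mW b).1 hb
        have h1 := hW1comm _ ha2 _ hb2
        have h2 : f ⁅(⟨a, ha1⟩ : C), ⟨b, hb1⟩⁆ = 1 := by
          rw [map_commutatorElement, commutatorElement_eq_one_iff_mul_comm]; exact h1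
        rw [hf1] at h2
        refine ⟨h2, ?_⟩
        exact (⁅(⟨a, ha1⟩ : C), ⟨b, hb1⟩⁆ : C).2
  have hWR : W ≤ R := L0.Fus.le_core hWnormal
  apply hW1ne
  rw [eq_bot_iff]
  intro w hw
  obtain ⟨c, rfl⟩ := hfs w
  rw [Subgroup.mem_bot, hf1]
  exact hWR ((mW c).2 ⟨c.2, hw⟩)

end
end Cfsg.Agent.H2
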