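import Cfsg.Agent.H6.Critical4
import Cfsg.Agent.H6.CopFrat
import Cfsg.Agent.H1.Class2
import Cfsg.Agent.S0206
import Mathlib

set_option autoImplicit false

/-! Generalized extraspecial groups, the pure part (helper2). -/

namespace Cfsg.Agent.H2

open Cfsg
open scoped commutatorElement

/-- diagonal elements from two transvections -/
theorem torus_core {B : Type*} [Group B] {p : ℕ} (hc : ∀ a b : B, a * b = b * a) (U : Subgroup (MulAut B)) {u v : MulAut B}
    (hu : u ∈ U) (hv : v ∈ U) {e y : B} (he : e ^ p = 1) (hy : y ^ p = 1) (hue : u e = e) (huy : u y = y * e) (hvy : v y = y)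
    (hve : v e = e * y⁻¹) (K : Subgroup B) (huK : ∀ k ∈ K, u k = k) (hvK : ∀ k ∈ K, v k = k) {t s : ℕ}
    (hts : t * s ≡ 1 [MOD p]) :
    ∃ h ∈ U, h e = e ^ t ∧ h y = y ^ s ∧ ∀ k ∈ K, h k = k := by
  letI : CommGroup B := { (inferInstance : Group B) with mul_comm := hc }
  have hets : e ^ (t * s) = e := by
    have h1 : e ^ (t * s) = e ^ 1 := by
      rw [pow_eq_pow_iff_modEq]
      exact hts.of_dvd (orderOf_dvd_of_pow_eq_one he)
    rw [h1, pow_one]
  have hup : ∀ n : ℕ, (u ^ n) e = e ∧ (u ^ n) y = y * e ^ n ∧ ∀ k ∈ K, (u ^ n) k = k := by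
    intro n
    induction n with
    | zero => simp
    | succ n ih =>
      refine ⟨?_, ?_, fun k hk => ?_⟩
      · rw [pow_succ', MulAut.mul_apply, ih.1, hue]
      · rw [pow_succ', MulAut.mul_apply, ih.2.1, map_mul, map_pow, hue, huy, mul_assoc, ← pow_succ']
      · rw [pow_succ', MulAut.mul_apply, ih.2.2 k hk, huK k hk]
  have hvp : ∀ n : ℕ, (v ^ n) e = e * (y⁻¹) ^ n ∧ (v ^ n) y = y ∧ ∀ k ∈ K, (v ^ n) k = k := by
    intro n
    induction n with
    | zero => simp
    | succ n ih =>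
      refine ⟨?_, ?_, fun k hk => ?_⟩
      · rw [pow_succ', MulAut.mul_apply, ih.1, map_mul, map_pow, map_inv, hvy, hve, mul_assoc, ← pow_succ']
      · rw [pow_succ', MulAut.mul_apply, ih.2.1, hvy]
      · rw [pow_succ', MulAut.mul_apply, ih.2.2 k hk, hvK k hk]
  -- the Weyl elements
  have hw : ∀ t s : ℕ, e ^ (t * s) = e → y ^ (t * s) = y → ((u ^ t * v ^ s * u ^ t) e = (y⁻¹) ^ s ∧
      (u ^ t * v ^ s * u ^ t) y = e ^ t ∧ ∀ k ∈ K, (u ^ t * v ^ s * u ^ t) k = k) := by
    intro t s hts htsy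
    obtain ⟨a1, a2, a3⟩ := hup t
    obtain ⟨b1, b2, b3⟩ := hvp s
    refine ⟨?_, ?_, fun k hk => ?_⟩
    · rw [MulAut.mul_apply, MulAut.mul_apply, a1, b1, map_mul, map_pow, map_inv, a1, a2]
      calc e * ((y * e ^ t)⁻¹) ^ s = e * ((e ^ (t * s))⁻¹ * (y⁻¹) ^ s) := by
            rw [mul_inv_rev, mul_pow, inv_pow, ← pow_mul]
        _ = (y⁻¹) ^ s := by rw [hts]; group
    · rw [MulAut.mul_apply, MulAut.mul_apply, a2, map_mul, map_pow, b1, b2]
      have h1 : y * (e * (y⁻¹) ^ s) ^ t = e ^ t := by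
        calc y * (e * (y⁻¹) ^ s) ^ t = y * (e ^ t * (y ^ (t * s))⁻¹) := by
              rw [mul_pow, inv_pow, inv_pow, ← pow_mul, mul_comm s t]
          _ = e ^ t := by rw [htsy, mul_comm, inv_mul_cancel_right]
      rw [h1, map_pow, a1]
    · rw [MulAut.mul_apply, MulAut.mul_apply, a3 k hk, b3 k hk, a3 k hk]
  have hyts : y ^ (t * s) = y := by
    have h1 : y ^ (t * s) = y ^ 1 := by
      rw [pow_eq_pow_iff_modEq]
      exact hts.of_dvd (orderOf_dvd_of_pow_eq_one hy)
    rw [h1, pow_one]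
  obtain ⟨w1, w2, w3⟩ := hw t s hets hyts
  obtain ⟨x1, x2, x3⟩ := hw 1 1 (by simp) (by simp)
  set W := u ^ t * v ^ s * u ^ t with hW
  set X := u ^ 1 * v ^ 1 * u ^ 1 with hX
  have hWU : W ∈ U := U.mul_mem (U.mul_mem (U.pow_mem hu t) (U.pow_mem hv s)) (U.pow_mem hu t)
  have hXU : X ∈ U := U.mul_mem (U.mul_mem (U.pow_mem hu 1) (U.pow_mem hv 1)) (U.pow_mem hu 1)
  rw [pow_one] at x1 x2
  have hXe : X⁻¹ e = y := by rw [← x2, MulAut.inv_apply_self]
  have hXy : X⁻¹ y = e⁻¹ := by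
    have h1 : X e⁻¹ = y := by rw [map_inv, x1, inv_inv]
    rw [← h1, MulAut.inv_apply_self]
  refine ⟨W * X⁻¹, U.mul_mem hWU (U.inv_mem hXU), ?_, ?_, fun k hk => ?_⟩
  · rw [MulAut.mul_apply, hXe, w2]
  · rw [MulAut.mul_apply, hXy, map_inv, w1, inv_pow, inv_inv]
  · have h1 : X⁻¹ k = k := by
      nth_rw 1 [← x3 k hk]
      rw [MulAut.inv_apply_self]
    rw [MulAut.mul_apply, h1, w3 k hk]

/-- complements in elementary abelian groups -/
theorem exists_compl_comm {V : Type*} [CommGroup V] [Finite V] {p : ℕ} [hpf : Fact p.Prime] (hexp : ∀ v : V, v ^ p = 1)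
    (Z : Subgroup V) : ∃ A : Subgroup V, A ⊓ Z = ⊥ ∧ A ⊔ Z = ⊤ := by
  have hpp : p.Prime := hpf.out
  obtain ⟨A, hA, hmax⟩ := Set.Finite.exists_maximalFor (fun A : Subgroup V => Nat.card A) {A : Subgroup V | A ⊓ Z = ⊥}
    (Set.toFinite _) ⟨⊥, bot_inf_eq _⟩
  refine ⟨A, hA, ?_⟩
  rw [eq_top_iff]
  intro v _
  by_contra hv
  have hvA : v ∉ A := fun h => hv ((le_sup_left : A ≤ A ⊔ Z) h)
  have h1 : A ⊔ Subgroup.zpowers v ∈ {A : Subgroup V | A ⊓ Z = ⊥} := by
    show (A ⊔ Subgroup.zpowers v) ⊓ Z = ⊥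
    rw [eq_bot_iff]
    rintro x ⟨hx, hxZ⟩
    obtain ⟨a, ha, w, hw, rfl⟩ := Subgroup.mem_sup.1 hx
    obtain ⟨i, rfl⟩ := Subgroup.mem_zpowers_iff.1 hw
    by_cases hi : (p : ℤ) ∣ i
    · obtain ⟨j, rfl⟩ := hi
      have h2 : v ^ ((p : ℤ) * j) = 1 := by rw [zpow_mul, zpow_natCast, hexp, one_zpow]
      rw [h2, mul_one] at hxZ ⊢
      have : a ∈ A ⊓ Z := ⟨ha, hxZ⟩
      rwa [hA] at this
    · exfalso
      apply hv
      have hcop : IsCoprime (p : ℤ) i :=
        (Prime.coprime_iff_not_dvd (Nat.prime_iff_prime_int.1 hpp)).2 hi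
      obtain ⟨c, d, hcd⟩ := hcop
      have h2 : v ^ i ∈ A ⊔ Z := by
        have : v ^ i = a⁻¹ * (a * v ^ i) := by group
        rw [this]
        exact (A ⊔ Z).mul_mem ((le_sup_left : A ≤ A ⊔ Z) (A.inv_mem ha)) ((le_sup_right : Z ≤ A ⊔ Z) hxZ)
      have h3 : v = (v ^ i) ^ d := by
        calc v = v ^ (c * p + d * i) := by rw [hcd, zpow_one]
          _ = (v ^ (p : ℤ)) ^ c * (v ^ i) ^ d := by rw [zpow_add, mul_comm c, zpow_mul, mul_comm d, zpow_mul]
          _ = (v ^ i) ^ d := by rw [zpow_natCast, hexp, one_zpow, one_mul]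
      rw [h3]
      exact Subgroup.zpow_mem _ h2 d
  have h2 := hmax h1 (Subgroup.card_le_of_le le_sup_left)
  have h3 : A = A ⊔ Subgroup.zpowers v := Subgroup.eq_of_le_of_card_ge le_sup_left h2
  apply hvA
  rw [h3]
  exact (le_sup_right : Subgroup.zpowers v ≤ _) (Subgroup.mem_zpowers v)

/-- nonabelian of order `p³` is extraspecial -/
theorem extraspecial_of_card {E : Type*} [Group E] [Finite E] {p : ℕ} [hpf : Fact p.Prime] (hcard : Nat.card E = p ^ 3)
    (hna : ∃ a b : E, a * b ≠ b * a) (hexp : ∀ x : E, x ^ p = 1) : IsExtraspecial p E := by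
  have hpp : p.Prime := hpf.out
  have hE : IsPGroup p E := IsPGroup.of_card hcard
  obtain ⟨a, b, hab⟩ := hna
  haveI : Nontrivial E := ⟨a * b, b * a, hab⟩
  have hcc : Nat.card (Subgroup.center E) ∣ p ^ 3 := by rw [← hcard]; exact Subgroup.card_subgroup_dvd_card _
  obtain ⟨k, hk, hk'⟩ := (Nat.dvd_prime_pow hpp).1 hcc
  have hk0 : k ≠ 0 := by
    intro h; rw [h, pow_zero] at hk'
    exact hE.bot_lt_center.ne' (Subgroup.card_eq_one.1 hk')
  have hk1 : k = 1 := by
    by_contra hne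
    -- the quotient by the centre is cyclic
    have h1 : Nat.card (E ⧸ Subgroup.center E) ∣ p := by
      have h2 := Subgroup.card_eq_card_quotient_mul_card_subgroup (Subgroup.center E)
      rw [hcard, hk'] at h2
      have h3 : Nat.card (E ⧸ Subgroup.center E) = p ^ (3 - k) := by
        have h4 : p ^ 3 = p ^ (3 - k) * p ^ k := by rw [← pow_add]; congr 1; omega
        rw [h4] at h2
        exact (Nat.eq_of_mul_eq_mul_right (pow_pos hpp.pos k) h2).symm
      rw [h3]
      have : 3 - k ≤ 1 := by omega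
      calc p ^ (3 - k) ∣ p ^ 1 := pow_dvd_pow p this
        _ = p := pow_one p
    haveI : IsCyclic (E ⧸ Subgroup.center E) := by
      rcases (Nat.dvd_prime hpp).1 h1 with h2 | h2
      · haveI := (Nat.card_eq_one_iff_unique.1 h2).1
        infer_instance
      · exact isCyclic_of_prime_card h2
    have h3 := commutative_of_cyclic_center_quotient (QuotientGroup.mk' (Subgroup.center E)) (by rw [QuotientGroup.ker_mk'])
    exact hab (h3 a b)
  rw [hk1, pow_one] at hk'
  have hcomm : commutator E ≤ Subgroup.center E := by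
    have h2 : Nat.card (E ⧸ Subgroup.center E) = p ^ 2 := by
      have h2 := Subgroup.card_eq_card_quotient_mul_card_subgroup (Subgroup.center E)
      rw [hcard, hk', pow_succ] at h2
      exact (Nat.eq_of_mul_eq_mul_right hpp.pos h2).symm
    have h3 := IsPGroup.commutative_of_card_eq_prime_sq h2
    rw [commutator_def, Subgroup.commutator_le]
    intro x _ y _
    rw [← QuotientGroup.eq_one_iff]
    have h4 := h3 (x : E ⧸ Subgroup.center E) y
    have h5 : ((⁅x, y⁆ : E) : E ⧸ Subgroup.center E) = (x : E ⧸ Subgroup.center E) * y * (x : E ⧸ Subgroup.center E)⁻¹ * (y : E ⧸ Subgroup.center E)⁻¹ := rfl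
    rw [h5, h4]; group
  have hne : commutator E ≠ ⊥ := by
    intro h
    apply hab
    have h1 : ⁅a, b⁆ ∈ commutator E := Subgroup.commutator_mem_commutator (Subgroup.mem_top _) (Subgroup.mem_top _)
    rw [h, Subgroup.mem_bot, commutatorElement_eq_one_iff_mul_comm] at h1
    exact h1
  have hce : commutator E = Subgroup.center E := by
    apply Subgroup.eq_of_le_of_card_ge hcomm
    have h1 : Nat.card (commutator E) ∣ p := by rw [← hk']; exact Subgroup.card_dvd_of_le hcomm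
    rcases (Nat.dvd_prime hpp).1 h1 with h2 | h2
    · exact absurd (Subgroup.card_eq_one.1 h2) hne
    · rw [h2, hk']
  refine ⟨⟨hE, ?_, hce⟩, hk'⟩
  apply le_antisymm
  · apply H6.frattini_le_of_pow (p := p) _ hce.le
    intro x; rw [hexp x]; exact Subgroup.one_mem _
  · rw [← hce]
    unfold frattini Order.radical
    refine le_iInf fun M => le_iInf fun hM => ?_
    haveI : Group.IsNilpotent E := hE.isNilpotent
    haveI hMn : M.Normal := Subgroup.NormalizerCondition.normal_of_coatom M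
      Group.normalizerCondition_of_isNilpotent hM
    have h1 := H1.index_of_isCoatom_pgroup hE hM
    have h2 : IsCyclic (E ⧸ M) := isCyclic_of_prime_card (p := p) (by rw [← h1]; rfl)
    letI : CommGroup (E ⧸ M) := IsCyclic.commGroup
    rw [commutator_def, Subgroup.commutator_le]
    intro x _ y _
    rw [← QuotientGroup.eq_one_iff]
    have h5 : ((⁅x, y⁆ : E) : E ⧸ M) = (x : E ⧸ M) * y * (x : E ⧸ M)⁻¹ * (y : E ⧸ M)⁻¹ := rfl
    rw [h5, mul_comm (x : E ⧸ M) y]; group

section iso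
variable {P : Type*} [Group P] [Finite P] {p : ℕ} [hpf : Fact p.Prime]

/-- commutation with a fixed element, class two -/
def commHomL (hZc : commutator P ≤ Subgroup.center P) (y : P) : P →* P where
  toFun x := ⁅x, y⁆
  map_one' := commutatorElement_one_left y
  map_mul' a b := by
    have h1 : ⁅b, y⁆ ∈ Subgroup.center P := hZc (Subgroup.commutator_mem_commutator (Subgroup.mem_top _) (Subgroup.mem_top _))
    have h2 : a * ⁅b, y⁆ = ⁅b, y⁆ * a := (Subgroup.mem_center_iff.1 h1 a)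
    have h3 : ⁅a, y⁆ * ⁅b, y⁆ = ⁅b, y⁆ * ⁅a, y⁆ := (Subgroup.mem_center_iff.1 h1 _)
    calc ⁅a * b, y⁆ = a * ⁅b, y⁆ * a⁻¹ * ⁅a, y⁆ := by simp only [commutatorElement_def]; group
      _ = ⁅b, y⁆ * ⁅a, y⁆ := by rw [h2]; group
      _ = _ := h3.symm

def commHomR (hZc : commutator P ≤ Subgroup.center P) (g : P) : P →* P where
  toFun x := ⁅g, x⁆
  map_one' := commutatorElement_one_right g
  map_mul' a b := by
    have h1 : ⁅g, b⁆ ∈ Subgroup.center P := hZc (Subgroup.commutator_mem_commutator (Subgroup.mem_top _) (Subgroup.mem_top _))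
    have h2 : a * ⁅g, b⁆ = ⁅g, b⁆ * a := (Subgroup.mem_center_iff.1 h1 a)
    calc ⁅g, a * b⁆ = ⁅g, a⁆ * (a * ⁅g, b⁆) * a⁻¹ := by simp only [commutatorElement_def]; group
      _ = ⁅g, a⁆ * ⁅g, b⁆ := by rw [h2]; group

theorem genext_split (hZc : commutator P ≤ Subgroup.center P) (hZ : Nat.card (commutator P) = p) {g y : P}
    (hCab : ∀ a b : P, a * y = y * a → b * y = y * b → a * b = b * a) (hCexp : ∀ a : P, a * y = y * a → a ^ p = 1)
    (hgy : ⁅g, y⁆ ≠ 1) (hgp : g ^ p = 1) :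
    ∃ E A : Subgroup P, E = Subgroup.closure {g, y} ∧ E ⊓ A = ⊥ ∧ E ⊔ A = ⊤ ∧ A ≤ Subgroup.center P ∧
      (∀ a ∈ A, a ^ p = 1) ∧ Nat.card E = p ^ 3 := by
  have hpp : p.Prime := hpf.out
  set e := ⁅g, y⁆ with he
  have heZ : e ∈ commutator P := Subgroup.commutator_mem_commutator (Subgroup.mem_top _) (Subgroup.mem_top _)
  have hZe : ∀ z ∈ commutator P, ∃ i : ℤ, z = e ^ i := by
    intro z hz
    have h1 : (⟨z, hz⟩ : commutator P) ∈ Subgroup.zpowers (⟨e, heZ⟩ : commutator P) :=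
      mem_zpowers_of_prime_card hZ (fun h => hgy (congrArg Subtype.val h))
    obtain ⟨k, hk⟩ := Subgroup.mem_zpowers_iff.1 h1
    exact ⟨k, (congrArg Subtype.val hk).symm⟩
  have heo : orderOf e = p := by
    have h1 : e ^ p = 1 := by
      have h2 : (⟨e, heZ⟩ : commutator P) ^ Nat.card (commutator P) = 1 := pow_card_eq_one'
      rw [hZ] at h2
      exact congrArg Subtype.val h2
    exact orderOf_eq_prime h1 hgy
  let ρ := commHomL hZc y
  let l := commHomR hZc g
  have hρ : ∀ x, ρ x = ⁅x, y⁆ := fun _ => rfl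
  have hl : ∀ x, l x = ⁅g, x⁆ := fun _ => rfl
  have hρ1 : ∀ x, ρ x = 1 ↔ x * y = y * x := fun x => by rw [hρ, commutatorElement_eq_one_iff_mul_comm]
  have hl1 : ∀ x, l x = 1 ↔ g * x = x * g := fun x => by rw [hl, commutatorElement_eq_one_iff_mul_comm]
  have hyp : y ^ p = 1 := hCexp y rfl
  have hdecg : ∀ x : P, ∃ i : ℤ, (x * (g ^ i)⁻¹) * y = y * (x * (g ^ i)⁻¹) := by
    intro x
    obtain ⟨i, hi⟩ := hZe (ρ x) (Subgroup.commutator_mem_commutator (Subgroup.mem_top _) (Subgroup.mem_top _))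
    refine ⟨i, (hρ1 _).1 ?_⟩
    rw [map_mul, map_inv, map_zpow, hi, hρ g, ← he, mul_inv_cancel]
  have hdecy : ∀ c : P, c * y = y * c → ∃ j : ℤ, g * (c * (y ^ j)⁻¹) = (c * (y ^ j)⁻¹) * g ∧
      (c * (y ^ j)⁻¹) * y = y * (c * (y ^ j)⁻¹) := by
    intro c hc
    obtain ⟨j, hj⟩ := hZe (l c) (Subgroup.commutator_mem_commutator (Subgroup.mem_top _) (Subgroup.mem_top _))
    refine ⟨j, (hl1 _).1 ?_, (hρ1 _).1 ?_⟩
    · rw [map_mul, map_inv, map_zpow, hj, hl y, ← he, mul_inv_cancel]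
    · rw [map_mul, map_inv, map_zpow, (hρ1 c).2 hc, (hρ1 y).2 rfl, one_zpow, inv_one, mul_one]
  have hcen : ∀ w : P, w * y = y * w → g * w = w * g → w ∈ Subgroup.center P := by
    intro w h1 h2
    rw [Subgroup.mem_center_iff]
    intro x
    obtain ⟨i, hi⟩ := hdecg x
    have h3 := hCab _ _ hi h1
    have h4 : Commute (g ^ i) w := Commute.zpow_left h2 i
    calc x * w = (x * (g ^ i)⁻¹) * (g ^ i * w) := by group
      _ = (x * (g ^ i)⁻¹) * (w * g ^ i) := by rw [h4.eq]
      _ = (x * (g ^ i)⁻¹ * w) * g ^ i := by group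
      _ = w * (x * (g ^ i)⁻¹) * g ^ i := by rw [h3]
      _ = w * x := by group
  let Z := commutator P
  letI : CommGroup ↥(Subgroup.center P) := { (inferInstance : Group ↥(Subgroup.center P)) with
    mul_comm := fun a b => Subtype.ext ((Subgroup.mem_center_iff.1 b.2 a)) }
  obtain ⟨A0, hA1, hA2⟩ := exists_compl_comm (V := ↥(Subgroup.center P)) (p := p) (by
    rintro ⟨v, hv⟩
    apply Subtype.ext
    have h1 := hCexp v ((Subgroup.mem_center_iff.1 hv y).symm)
    simpa using h1) (Z.subgroupOf (Subgroup.center P))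
  set E := Subgroup.closure {g, y} with hE
  have hgE : g ∈ E := Subgroup.subset_closure (Or.inl rfl)
  have hyE : y ∈ E := Subgroup.subset_closure (Or.inr rfl)
  have heE : e ∈ E := by
    rw [he, commutatorElement_def]
    exact E.mul_mem (E.mul_mem (E.mul_mem hgE hyE) (E.inv_mem hgE)) (E.inv_mem hyE)
  have hZE : Z ≤ E := by
    intro z hz
    obtain ⟨i, rfl⟩ := hZe z hz
    exact E.zpow_mem heE i
  have hEc : ∀ x ∈ E, x * y = y * x → g * x = x * g → x ∈ Z := by
    intro x hx h1 h2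
    have h3 : Abelianization.of x ∈ Subgroup.closure {Abelianization.of g, Abelianization.of y} := by
      have h4 : E.map Abelianization.of = Subgroup.closure {Abelianization.of g, Abelianization.of y} := by
        rw [hE, MonoidHom.map_closure, Set.image_pair]
      rw [← h4]
      exact ⟨x, hx, rfl⟩
    obtain ⟨m, n, hmn⟩ := Subgroup.mem_closure_pair.1 h3
    rw [← map_zpow, ← map_zpow, ← map_mul] at hmn
    have h4 : (g ^ m * y ^ n)⁻¹ * x ∈ Z := by
      have := QuotientGroup.eq.1 hmn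
      exact this
    set z := (g ^ m * y ^ n)⁻¹ * x with hz
    have hx' : x = g ^ m * y ^ n * z := by rw [hz]; group
    have hzc := hZc h4
    have h5 : ρ z = 1 := (hρ1 z).2 ((Subgroup.mem_center_iff.1 hzc y).symm)
    have h6 : l z = 1 := (hl1 z).2 (Subgroup.mem_center_iff.1 hzc g)
    have h7 : e ^ m = 1 := by
      have h8 := (hρ1 x).2 h1
      rw [hx', map_mul, map_mul, map_zpow, map_zpow, h5, (hρ1 y).2 rfl, one_zpow, mul_one, mul_one, hρ g] at h8
      exact h8
    have h8 : e ^ n = 1 := by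
      have h9 := (hl1 x).2 h2
      rw [hx', map_mul, map_mul, map_zpow, map_zpow, h6, (hl1 g).2 rfl, one_zpow, one_mul, mul_one, hl y] at h9
      exact h9
    have h9 : g ^ m = 1 := by
      have := orderOf_dvd_iff_zpow_eq_one.2 h7
      rw [heo] at this
      obtain ⟨k, rfl⟩ := this
      rw [zpow_mul, zpow_natCast, hgp, one_zpow]
    have h10 : y ^ n = 1 := by
      have := orderOf_dvd_iff_zpow_eq_one.2 h8
      rw [heo] at this
      obtain ⟨k, rfl⟩ := this
      rw [zpow_mul, zpow_natCast, hyp, one_zpow]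
    rw [hx', h9, h10, one_mul, one_mul]
    exact h4
  refine ⟨E, A0.map (Subgroup.center P).subtype, rfl, ?_, ?_, Subgroup.map_subtype_le _, ?_, ?_⟩
  · rw [eq_bot_iff]
    rintro _ ⟨hx, ⟨a, ha, rfl⟩⟩
    have h1 : (a : P) ∈ Z := hEc _ hx ((Subgroup.mem_center_iff.1 a.2 y).symm) (Subgroup.mem_center_iff.1 a.2 g)
    have h2 : a ∈ A0 ⊓ Z.subgroupOf (Subgroup.center P) := ⟨ha, Subgroup.mem_subgroupOf.2 h1⟩
    rw [hA1, Subgroup.mem_bot] at h2
    rw [h2]; exact Subgroup.one_mem _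
  · rw [eq_top_iff]
    intro x _
    obtain ⟨i, hi⟩ := hdecg x
    obtain ⟨j, hj1, hj2⟩ := hdecy _ hi
    set w := x * (g ^ i)⁻¹ * (y ^ j)⁻¹ with hw
    have hwc := hcen w hj2 hj1
    have h1 : (⟨w, hwc⟩ : ↥(Subgroup.center P)) ∈ A0 ⊔ Z.subgroupOf (Subgroup.center P) := by rw [hA2]; exact Subgroup.mem_top _
    obtain ⟨a, ha, z, hz, haz⟩ := Subgroup.mem_sup.1 h1
    have h2 : w = (a : P) * z := (congrArg Subtype.val haz).symm
    have h3 : x = w * y ^ j * g ^ i := by rw [hw]; group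
    rw [h3, h2]
    refine Subgroup.mul_mem _ (Subgroup.mul_mem _ (Subgroup.mul_mem _ ?_ ?_) ?_) ?_
    · exact (le_sup_right : _ ≤ E ⊔ _) ⟨a, ha, rfl⟩
    · exact (le_sup_left : E ≤ _) (hZE (Subgroup.mem_subgroupOf.1 hz))
    · exact (le_sup_left : E ≤ _) (E.zpow_mem hyE j)
    · exact (le_sup_left : E ≤ _) (E.zpow_mem hgE i)
  · rintro _ ⟨a, ha, rfl⟩
    exact hCexp _ ((Subgroup.mem_center_iff.1 a.2 y).symm)
  · let f : E →* P × P := (ρ.prod l).comp E.subtype
    have h1 : Nat.card E = Nat.card f.ker * Nat.card f.range := by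
      rw [← Subgroup.index_ker, Subgroup.card_mul_index]
    have h2 : f.ker.map E.subtype = Z := by
      apply le_antisymm
      · rintro _ ⟨x, hx, rfl⟩
        have h3 : (ρ x, l x) = ((1 : P), (1 : P)) := hx
        exact hEc x x.2 ((hρ1 _).1 (congrArg Prod.fst h3)) ((hl1 _).1 (congrArg Prod.snd h3))
      · intro z hz
        refine ⟨⟨z, hZE hz⟩, ?_, rfl⟩
        have hzc := hZc hz
        show (ρ z, l z) = ((1 : P), (1 : P))
        rw [(hρ1 z).2 ((Subgroup.mem_center_iff.1 hzc y).symm), (hl1 z).2 (Subgroup.mem_center_iff.1 hzc g)]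
    have h3 : Nat.card f.ker = p := by
      rw [Nat.card_congr (Subgroup.equivMapOfInjective f.ker E.subtype E.subtype_injective).toEquiv, h2]
      exact hZ
    have h4 : f.range = Z.prod Z := by
      apply le_antisymm
      · rintro _ ⟨x, rfl⟩
        exact ⟨Subgroup.commutator_mem_commutator (Subgroup.mem_top _) (Subgroup.mem_top _),
          Subgroup.commutator_mem_commutator (Subgroup.mem_top _) (Subgroup.mem_top _)⟩
      · rintro ⟨a, b⟩ ⟨ha, hb⟩
        obtain ⟨i, hi⟩ := hZe a ha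
        obtain ⟨j, hj⟩ := hZe b hb
        refine ⟨⟨g, hgE⟩ ^ i * ⟨y, hyE⟩ ^ j, ?_⟩
        have h5 : f ⟨g, hgE⟩ = (e, 1) := by
          show (ρ g, l g) = _
          rw [(hl1 g).2 rfl, hρ g]
        have h6 : f ⟨y, hyE⟩ = (1, e) := by
          show (ρ y, l y) = _
          rw [(hρ1 y).2 rfl, hl y]
        rw [map_mul, map_zpow, map_zpow, h5, h6]
        ext
        · simp [hi]
        · simp [hj]
    have h5 : Nat.card f.range = p * p := by
      rw [h4, Nat.card_congr (Subgroup.prodEquiv Z Z).toEquiv, Nat.card_prod]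
      exact congrArg₂ _ hZ hZ
    rw [h1, h3, h5]; ring

theorem split_equiv {E A : Subgroup P} (h1 : E ⊓ A = ⊥) (h2 : E ⊔ A = ⊤) (h3 : A ≤ Subgroup.center P) :
    Nonempty (P ≃* E × A) := by
  have hc : ∀ (m : E) (n : A), Commute (E.subtype m) (A.subtype n) := fun m n => Subgroup.mem_center_iff.1 (h3 n.2) m
  let f := MonoidHom.noncommCoprod E.subtype A.subtype hc
  have hinj : Function.Injective f := (MonoidHom.noncommCoprod_injective _ _ _).2
    ⟨E.subtype_injective, A.subtype_injective, by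
      rw [Subgroup.range_subtype, Subgroup.range_subtype, disjoint_iff]; exact h1⟩
  have hsurj : Function.Surjective f := by
    rw [← MonoidHom.range_eq_top, MonoidHom.noncommCoprod_range, Subgroup.range_subtype, Subgroup.range_subtype]; exact h2
  exact ⟨(MulEquiv.ofBijective f ⟨hinj, hsurj⟩).symm⟩

/-- excluded case, `p = 2` -/
theorem genext_two (hZc : commutator P ≤ Subgroup.center P) (hZ : Nat.card (commutator P) = 2) {g y : P}
    (hCab : ∀ a b : P, a * y = y * a → b * y = y * b → a * b = b * a) (hCexp : ∀ a : P, a * y = y * a → a ^ 2 = 1)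
    (hgy : ⁅g, y⁆ ≠ 1) (hgp : g ^ 2 = 1) :
    ∃ (A : Type) (_ : CommGroup A), (∀ a : A, a ^ 2 = 1) ∧ Nonempty (P ≃* DihedralGroup 4 × A) := by
  obtain ⟨E, A, hE, h1, h2, h3, h4, -⟩ := genext_split (p := 2) hZc hZ hCab hCexp hgy hgp
  obtain ⟨e1⟩ := split_equiv h1 h2 h3
  letI : CommGroup A := { (inferInstance : Group A) with
    mul_comm := fun a b => Subtype.ext ((Subgroup.mem_center_iff.1 (h3 b.2) a)) }
  have hg1 : g ≠ 1 := fun h => hgy (by rw [h, commutatorElement_one_left])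
  have hy1 : y ≠ 1 := fun h => hgy (by rw [h, commutatorElement_one_right])
  have hyp := hCexp y rfl
  have hgo : orderOf g = 2 := orderOf_eq_prime hgp hg1
  have hyo : orderOf y = 2 := orderOf_eq_prime hyp hy1
  have hne : g ≠ y := fun h => hgy (by rw [h, commutatorElement_self])
  obtain ⟨e2⟩ := S0206.result g y hgo hyo hne
  have hgi : g⁻¹ = g := inv_eq_of_mul_eq_one_left (by rw [← pow_two]; exact hgp)
  have hyi : y⁻¹ = y := inv_eq_of_mul_eq_one_left (by rw [← pow_two]; exact hyp)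
  have h5 : (g * y) ^ 2 = ⁅g, y⁆ := by rw [commutatorElement_def, hgi, hyi, pow_two]; group
  have h6 : (⁅g, y⁆ : P) ^ 2 = 1 := by
    have h2 : (⟨⁅g, y⁆, Subgroup.commutator_mem_commutator (Subgroup.mem_top _) (Subgroup.mem_top _)⟩ : commutator P) ^
      Nat.card (commutator P) = 1 := pow_card_eq_one'
    rw [hZ] at h2
    exact congrArg Subtype.val h2
  have h7 : orderOf (g * y) = 4 := by
    have h8 : (g * y) ^ 2 ^ (1 + 1) = 1 := by
      rw [pow_succ, pow_one, pow_mul, h5, h6]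
    have h9 : ¬ (g * y) ^ 2 ^ 1 = 1 := by rw [pow_one, h5]; exact hgy
    exact orderOf_eq_prime_pow h9 h8
  rw [h7, ← hE] at e2
  let eA : Shrink.{0} A ≃* A := Shrink.mulEquiv
  refine ⟨Shrink.{0} A, inferInstance, ?_, ⟨(e1.trans (e2.prodCongr eA.symm))⟩⟩
  intro a
  apply eA.injective
  rw [map_pow, map_one]
  exact Subtype.ext (h4 _ (eA a).2)

/-- excluded case, `p` odd -/
theorem genext_odd (hp : p ≠ 2) (hZc : commutator P ≤ Subgroup.center P) (hZ : Nat.card (commutator P) = p) {g y : P}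
    (hCab : ∀ a b : P, a * y = y * a → b * y = y * b → a * b = b * a) (hCexp : ∀ a : P, a * y = y * a → a ^ p = 1)
    (hgy : ⁅g, y⁆ ≠ 1) (hgp : g ^ p = 1) :
    ∃ (E : Type) (_ : Group E) (A : Type) (_ : CommGroup A), IsExtraspecial p E ∧ Nat.card E = p ^ 3 ∧
      Monoid.exponent E = p ∧ (∀ a : A, a ^ p = 1) ∧ Nonempty (P ≃* E × A) := by
  have hpp : p.Prime := hpf.out
  obtain ⟨E, A, hE, h1, h2, h3, h4, h5⟩ := genext_split (p := p) hZc hZ hCab hCexp hgy hgp
  obtain ⟨e1⟩ := split_equiv h1 h2 h3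
  letI : CommGroup A := { (inferInstance : Group A) with
    mul_comm := fun a b => Subtype.ext ((Subgroup.mem_center_iff.1 (h3 b.2) a)) }
  have hexp : ∀ x ∈ E, x ^ p = 1 := by
    intro x hx
    rw [hE] at hx
    have hcomm : ∀ a b : P, ⁅a, b⁆ ^ p = 1 := by
      intro a b
      have h2 : (⟨⁅a, b⁆, Subgroup.commutator_mem_commutator (Subgroup.mem_top _) (Subgroup.mem_top _)⟩ : commutator P) ^
        Nat.card (commutator P) = 1 := pow_card_eq_one'
      rw [hZ] at h2
      exact congrArg Subtype.val h2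
    have hcen : ∀ a b c : P, Commute ⁅a, b⁆ c := fun a b c =>
      (Subgroup.mem_center_iff.1 (hZc (Subgroup.commutator_mem_commutator (Subgroup.mem_top a) (Subgroup.mem_top b))) c).symm
    induction hx using Subgroup.closure_induction with
    | mem z hz =>
      rcases hz with rfl | hz
      · exact hgp
      · rw [Set.mem_singleton_iff] at hz; rw [hz]; exact hCexp y rfl
    | one => exact one_pow p
    | mul a b _ _ ha hb =>
      rw [H1.mul_pow_class_two (hcen b a a) (hcen b a b) p, ha, hb]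
      obtain ⟨k, hk⟩ := H1.dvd_choose_two hpp hp
      rw [hk, pow_mul, hcomm, one_pow, one_mul, one_mul]
    | inv a _ ha => rw [inv_pow, ha, inv_one]
  let eA : Shrink.{0} A ≃* A := Shrink.mulEquiv
  let E' := Shrink.{0} E
  let e2 : E' ≃* E := Shrink.mulEquiv
  haveI : Finite E' := Finite.of_equiv _ e2.symm.toEquiv
  have hc' : Nat.card E' = p ^ 3 := by rw [Nat.card_congr e2.toEquiv, h5]
  have hx' : ∀ x : E', x ^ p = 1 := by
    intro x
    apply e2.injective
    rw [map_pow, map_one]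
    exact Subtype.ext (hexp _ (e2 x).2)
  have hgE : g ∈ E := by rw [hE]; exact Subgroup.subset_closure (Or.inl rfl)
  have hyE : y ∈ E := by rw [hE]; exact Subgroup.subset_closure (Or.inr rfl)
  refine ⟨E', inferInstance, Shrink.{0} A, inferInstance, extraspecial_of_card hc' ⟨e2.symm ⟨g, hgE⟩, e2.symm ⟨y, hyE⟩, ?_⟩ hx',
    hc', ?_, ?_, ⟨e1.trans (e2.symm.prodCongr eA.symm)⟩⟩
  · intro h
    rw [← map_mul, ← map_mul] at h
    have h6 := congrArg Subtype.val (e2.symm.injective h)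
    apply hgy
    rw [commutatorElement_eq_one_iff_mul_comm]
    exact h6
  · have h6 : Monoid.exponent E' ∣ p := Monoid.exponent_dvd_of_forall_pow_eq_one hx'
    rcases (Nat.dvd_prime hpp).1 h6 with h7 | h7
    · exfalso
      rw [Monoid.exp_eq_one_iff] at h7
      have h8 : Nat.card E' ≤ 1 := Finite.card_le_one_iff_subsingleton.2 h7
      rw [hc'] at h8
      have := Nat.one_lt_pow (by norm_num : 3 ≠ 0) hpp.one_lt
      omega
    · exact h7
  · intro a
    apply eA.injective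
    rw [map_pow, map_one]
    exact Subtype.ext (h4 _ (eA a).2)

end iso

end Cfsg.Agent.H2
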