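import Cfsg.Agent.H2.GenExt
import Cfsg.Agent.H2.InvTwo
import Mathlib

set_option autoImplicit false

/-! Generalized extraspecial strongly closed subgroups (helper2). -/

namespace Cfsg.Agent.H2

open Cfsg Cfsg.FusionSystem Cfsg.Agent.L0 Cfsg.Agent.L0.Fus
open scoped commutatorElement

variable {Ω : Type*} [Group Ω] {S : Subgroup Ω} [Finite S] {F : FusionSystem S} {p : ℕ} [hpf : Fact p.Prime]

theorem gx_star (hS : IsPGroup p S) (hF : F.IsSaturated p) {P : Subgroup Ω} (hP : F.StronglyClosed P)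
    (hge : ∀ a ∈ P, a ^ p ∈ ⁅P, P⁆) (hZ : Nat.card ↥⁅P, P⁆ = p) {R : Subgroup Ω} (hR : R ≤ ⁅P, P⁆) {φ : R →* Ω}
    (hφ : φ ∈ F.Hom R) {x : R} (hx : φ x ∉ ⁅P, P⁆) :
    (∀ a ∈ P, ∀ b ∈ P, a * φ x = φ x * a → b * φ x = φ x * b → a * b = b * a) ∧
    (∀ a ∈ P, a * φ x = φ x * a → a ^ p = 1) ∧
    ∃ θ ∈ F.Hom (P ⊓ Subgroup.centralizer {φ x}), ∀ h, θ ⟨φ x, h⟩ = x := by
  have hpp : p.Prime := hpf.out
  set Z := ⁅P, P⁆ with hZdef
  have hZP : Z ≤ P := Subgroup.commutator_le_self P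
  have hZS : Z ≤ S := hZP.trans hP.1
  haveI := finite_of_le hZS
  have hPn := StronglyClosed.le_normalizer hP
  have hZn : S ≤ Subgroup.normalizer (Z : Set Ω) := by
    intro g hg
    apply mem_normalizer_of_finite
    intro x hx
    have h2 : Z.map (MulAut.conj g).toMonoidHom ≤ Z := by
      rw [hZdef, Subgroup.map_commutator]
      apply Subgroup.commutator_mono
      · rintro _ ⟨y, hy, rfl⟩
        exact (Subgroup.mem_normalizer_iff.mp (hPn hg) _).mp hy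
      · rintro _ ⟨y, hy, rfl⟩
        exact (Subgroup.mem_normalizer_iff.mp (hPn hg) _).mp hy
    exact h2 ⟨x, hx, rfl⟩
  have hx1 : (x : Ω) ≠ 1 := by
    intro h
    apply hx
    have : x = 1 := Subtype.ext h
    rw [this, map_one]; exact Z.one_mem
  have hgen : ∀ z ∈ Z, z ≠ 1 → ∀ w ∈ Z, ∃ k : ℤ, w = z ^ k := by
    intro z hz hz1 w hw
    have h1 : (⟨w, hw⟩ : Z) ∈ Subgroup.zpowers (⟨z, hz⟩ : Z) :=
      mem_zpowers_of_prime_card hZ (fun h => hz1 (congrArg Subtype.val h))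
    obtain ⟨k, hk⟩ := Subgroup.mem_zpowers_iff.1 h1
    exact ⟨k, (congrArg Subtype.val hk).symm⟩
  have hRx : ∀ r : R, ∃ k : ℤ, r = x ^ k := by
    intro r
    obtain ⟨k, hk⟩ := hgen x (hR x.2) hx1 r (hR r.2)
    exact ⟨k, Subtype.ext (by rw [hk]; simp)⟩
  have hRZ : R = Z := by
    apply le_antisymm hR
    intro w hw
    obtain ⟨k, hk⟩ := hgen x (hR x.2) hx1 w hw
    rw [hk]; exact R.zpow_mem x.2 k
  obtain ⟨ψ, hψ, hψx⟩ := F.inv_mem hφ
  have hψr : ψ.range = Z := by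
    apply le_antisymm
    · rintro _ ⟨⟨_, ⟨t, rfl⟩⟩, rfl⟩
      rw [hψx t]; exact hR t.2
    · intro t ht
      rw [← hRZ] at ht
      exact ⟨⟨φ ⟨t, ht⟩, ⟨⟨t, ht⟩, rfl⟩⟩, hψx ⟨t, ht⟩⟩
  have hZfn : F.IsFullyNormalized Z := fullyNormalized_of_le_normalizer hZS hZn
  obtain ⟨θ, hθ, hθag⟩ := (receptive_of_fullyNormalized_sat hS hF hZfn).2 φ.range ψ hψ hψr
  set C := P ⊓ Subgroup.centralizer {φ x} with hC
  have hCE : C ≤ FusionSystem.extender S φ.range ψ := by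
    intro a ha
    apply centralizerIn_le_extender
    refine ⟨hP.1 ha.1, ?_⟩
    refine Subgroup.mem_centralizer_iff.2 ?_
    rintro _ ⟨t, rfl⟩
    obtain ⟨k, rfl⟩ := hRx t
    have h1 : φ x * a = a * φ x := Subgroup.mem_centralizer_iff.1 ha.2 _ rfl
    rw [map_zpow]
    exact (Commute.zpow_left h1 k)
  have hθC := restrict_mem F hθ hCE
  set θ' := θ.comp (Subgroup.inclusion hCE) with hθ'
  have hθP : ∀ a, θ' a ∈ P := hP.2 C inf_le_left θ' hθC
  have hθx : ∀ h, θ' ⟨φ x, h⟩ = x := by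
    intro h
    show θ ⟨φ x, _⟩ = x
    rw [hθag (φ x) ⟨x, rfl⟩, hψx x]
  have hφxP : φ x ∈ P := hP.2 R (hR.trans hZP) φ hφ x
  have hφxC : φ x ∈ C := ⟨hφxP, Subgroup.mem_centralizer_iff.2 (by rintro _ rfl; rfl)⟩
  -- the key contradiction
  have key : ∀ (z : Ω) (hz : z ∈ C), z ∈ Z → z ≠ 1 → θ' ⟨z, hz⟩ ∈ Z → False := by
    intro z hz hzZ hz1 hθz
    have h1 : θ' ⟨z, hz⟩ ≠ 1 := by
      intro h
      apply hz1
      have := F.injective_of_mem hθC (h.trans (map_one θ').symm)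
      exact congrArg Subtype.val this
    obtain ⟨k, hk⟩ := hgen _ hθz h1 x (hR x.2)
    have h2 : θ' (⟨z, hz⟩ ^ k) = θ' ⟨φ x, hφxC⟩ := by rw [map_zpow, ← hk, hθx]
    have h3 := congrArg Subtype.val (F.injective_of_mem hθC h2)
    apply hx
    have h4 : φ x = z ^ k := by rw [← show ((⟨z, hz⟩ ^ k : C) : Ω) = z ^ k by simp, h3]
    rw [h4]; exact Z.zpow_mem hzZ k
  have hCm : ∀ a ∈ P, a * φ x = φ x * a → a ∈ C := fun a ha h =>
    ⟨ha, Subgroup.mem_centralizer_iff.2 (by rintro _ rfl; exact h.symm)⟩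
  refine ⟨?_, ?_, θ', hθC, hθx⟩
  · intro a ha b hb hax hbx
    by_contra hab
    have haC := hCm a ha hax
    have hbC := hCm b hb hbx
    have h1 : ⁅a, b⁆ ∈ C := by
      rw [commutatorElement_def]
      exact C.mul_mem (C.mul_mem (C.mul_mem haC hbC) (C.inv_mem haC)) (C.inv_mem hbC)
    refine key ⁅a, b⁆ h1 (Subgroup.commutator_mem_commutator ha hb) (fun h => hab (commutatorElement_eq_one_iff_mul_comm.1 h)) ?_
    have h2 : θ' ⟨⁅a, b⁆, h1⟩ = ⁅θ' ⟨a, haC⟩, θ' ⟨b, hbC⟩⁆ := by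
      rw [← map_commutatorElement]; rfl
    rw [h2]
    exact Subgroup.commutator_mem_commutator (hθP _) (hθP _)
  · intro a ha hax
    by_contra hap
    have haC := hCm a ha hax
    refine key (a ^ p) (C.pow_mem haC p) (hge a ha) hap ?_
    have h2 : θ' ⟨a ^ p, C.pow_mem haC p⟩ = (θ' ⟨a, haC⟩) ^ p := by
      rw [← map_pow]; rfl
    rw [h2]
    exact hge _ (hθP _)

theorem gx_core (hp : p ≠ 2) (hS : IsPGroup p S) (hF : F.IsSaturated p) {P : Subgroup Ω} (hP : F.StronglyClosed P)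
    (hge : ∀ a ∈ P, a ^ p ∈ ⁅P, P⁆) (hZ : Nat.card ↥⁅P, P⁆ = p) (hZc : ∀ z ∈ ⁅P, P⁆, ∀ a ∈ P, a * z = z * a)
    {R : Subgroup Ω} (hR : R ≤ ⁅P, P⁆) {φ : R →* Ω} (hφ : φ ∈ F.Hom R) {x : R} (hx : φ x ∉ ⁅P, P⁆)
    (hno : ∀ g ∈ P, g * φ x ≠ φ x * g → g ^ p ≠ 1) : False := by
  classical
  have hpp : p.Prime := hpf.out
  obtain ⟨hCab, hCexp, hθex⟩ := gx_star hS hF hP hge hZ hR hφ hx
  set Z := ⁅P, P⁆ with hZdef
  have hZP : Z ≤ P := Subgroup.commutator_le_self P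
  have hPS := hP.1
  have hφxP : φ x ∈ P := hP.2 R (hR.trans hZP) φ hφ x
  set y : Ω := φ x with hy
  have hgen : ∀ z ∈ Z, z ≠ 1 → ∀ w ∈ Z, ∃ k : ℤ, w = z ^ k := by
    intro z hz hz1 w hw
    have h1 : (⟨w, hw⟩ : Z) ∈ Subgroup.zpowers (⟨z, hz⟩ : Z) :=
      mem_zpowers_of_prime_card hZ (fun h => hz1 (congrArg Subtype.val h))
    obtain ⟨k, hk⟩ := Subgroup.mem_zpowers_iff.1 h1
    exact ⟨k, (congrArg Subtype.val hk).symm⟩
  have hZp : ∀ z ∈ Z, z ^ p = 1 := by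
    intro z hz
    have h2 : (⟨z, hz⟩ : Z) ^ Nat.card Z = 1 := pow_card_eq_one'
    rw [hZ] at h2
    exact congrArg Subtype.val h2
  have hx1 : (x : Ω) ≠ 1 := by
    intro h
    apply hx
    have : x = 1 := Subtype.ext h
    rw [hy, this, map_one]; exact Z.one_mem
  have hyp : y ^ p = 1 := hCexp y hφxP rfl
  have hy1 : y ≠ 1 := fun h => hx (by rw [h]; exact Z.one_mem)
  have hyo : orderOf y = p := orderOf_eq_prime hyp hy1
  -- a non-commuting element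
  obtain ⟨g, hgP, hgy⟩ : ∃ g ∈ P, g * y ≠ y * g := by
    by_contra hcon
    push Not at hcon
    have h1 : Z = ⊥ := by
      rw [hZdef, Subgroup.commutator_eq_bot_iff_le_centralizer]
      intro a ha
      refine Subgroup.mem_centralizer_iff.2 ?_
      intro b hb
      exact (hCab a ha b hb (hcon a ha) (hcon b hb)).symm
    rw [h1, Subgroup.card_bot] at hZ
    exact hpp.one_lt.ne hZ
  -- the subgroup `B`
  set B : Subgroup Ω := P ⊓ Subgroup.centralizer {y} with hBdef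
  have hBm : ∀ a, a ∈ B ↔ a ∈ P ∧ a * y = y * a := by
    intro a
    constructor
    · rintro ⟨h1, h2⟩
      exact ⟨h1, (Subgroup.mem_centralizer_iff.1 h2 y rfl).symm⟩
    · rintro ⟨h1, h2⟩
      exact ⟨h1, Subgroup.mem_centralizer_iff.2 (by rintro _ rfl; exact h2.symm)⟩
  have hB : ∀ b ∈ P, b ∈ B ↔ b ^ p = 1 := by
    intro b hb
    constructor
    · intro h; exact hCexp b hb ((hBm b).1 h).2
    · intro h
      by_contra hcon
      exact hno b hb (fun h' => hcon ((hBm b).2 ⟨hb, h'⟩)) h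
  have hBP : B ≤ P := inf_le_left
  have hBS : B ≤ S := hBP.trans hPS
  haveI := finite_of_le hPS
  haveI := finite_of_le hBS
  have hBsc : F.StronglyClosed B := by
    refine ⟨hBS, fun R' hR' φ' hφ' t => ?_⟩
    have h1 : φ' t ∈ P := hP.2 R' (hR'.trans hBP) φ' hφ' t
    rw [hB _ h1, ← map_pow]
    have h2 : t ^ p = 1 := Subtype.ext (by
      have := (hB _ (hBP (hR' t.2))).1 (hR' t.2)
      simpa using this)
    rw [h2, map_one]
  have hBn := StronglyClosed.le_normalizer hBsc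
  have hBfn : F.IsFullyNormalized B := fullyNormalized_of_le_normalizer hBS hBn
  have hBab : ∀ a b : B, a * b = b * a := fun a b =>
    Subtype.ext (hCab a (hBP a.2) b (hBP b.2) ((hBm a).1 a.2).2 ((hBm b).1 b.2).2)
  have hZB : Z ≤ B := fun z hz => (hBm z).2 ⟨hZP hz, (hZc z hz y hφxP).symm⟩
  have hyB : y ∈ B := (hBm y).2 ⟨hφxP, rfl⟩
  -- the automorphism `β`
  obtain ⟨θ, hθ, hθx⟩ := hθex
  obtain ⟨β, hβ, hβx⟩ := exists_aut_of_hom hθ (fun a => hBsc.2 B le_rfl θ hθ a)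
  set yB : B := ⟨y, hyB⟩ with hyBdef
  set xB : B := ⟨x, hZB (hR x.2)⟩ with hxBdef
  have hβy : β yB = xB := by
    apply Subtype.ext
    rw [hβx]
    exact hθx _
  set τ : MulAut B := B.normalizerMonoidHom ⟨g, hBn (hPS hgP)⟩ with hτ
  have hτap : ∀ a : B, ((τ a : B) : Ω) = g * a * g⁻¹ := fun a => rfl
  have hτF : τ ∈ F.autGroup B := autInducedBy_le_autGroup F hBS (mem_autInducedBy.mpr ⟨g, hPS hgP, hτap⟩)
  have hτZ : ∀ b : B, ((b⁻¹ * τ b : B) : Ω) ∈ Z := by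
    intro b
    have h1 := Subgroup.commutator_mem_commutator (P.inv_mem (hBP b.2)) hgP
    have e : ⁅(b : Ω)⁻¹, g⁆ = ((b⁻¹ * τ b : B) : Ω) := by
      rw [commutatorElement_def, Subgroup.coe_mul, hτap, Subgroup.coe_inv]; group
    rw [← e]; exact h1
  set e : B := yB⁻¹ * τ yB with hedef
  have heZ : (e : Ω) ∈ Z := hτZ yB
  have hτy : τ yB = yB * e := by rw [hedef, mul_inv_cancel_left]
  have he1 : e ≠ 1 := by
    intro h
    rw [h, mul_one] at hτy
    apply hgy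
    have h1 := congrArg Subtype.val hτy
    rw [hτap] at h1
    calc g * y = (g * y * g⁻¹) * g := by group
      _ = y * g := by rw [h1]
  have hτZfix : ∀ b : B, (b : Ω) ∈ Z → τ b = b := by
    intro b hb
    apply Subtype.ext
    rw [hτap, hZc b hb g hgP]; group
  have hτe : τ e = e := hτZfix e heZ
  have hxZ : (xB : Ω) ∈ Z := hR x.2
  have hxB1 : xB ≠ 1 := fun h => hx1 (congrArg Subtype.val h)
  have hgenB : ∀ z : B, (z : Ω) ∈ Z → z ≠ 1 → ∀ w : B, (w : Ω) ∈ Z → ∃ k : ℤ, w = z ^ k := by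
    intro z hz hz1 w hw
    obtain ⟨k, hk⟩ := hgen z hz (fun h => hz1 (Subtype.ext h)) w hw
    exact ⟨k, Subtype.ext (by rw [hk]; simp)⟩
  -- `g` does not commute with `β e`
  have hβe : τ (β e) ≠ β e := by
    intro hcon
    have hβeZ : ((β e : B) : Ω) ∉ Z := by
      intro h
      obtain ⟨k, hk⟩ := hgenB xB hxZ hxB1 (β e) h
      rw [← hβy, ← map_zpow] at hk
      have h2 : e = yB ^ k := β.injective hk
      -- `y ^ k ∈ Z`
      by_cases hpk : (p : ℤ) ∣ k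
      · obtain ⟨j, rfl⟩ := hpk
        apply he1
        rw [h2, zpow_mul, zpow_natCast]
        have : yB ^ p = 1 := Subtype.ext (by simpa using hyp)
        rw [this, one_zpow]
      · obtain ⟨c, d, hcd⟩ := (Prime.coprime_iff_not_dvd (Nat.prime_iff_prime_int.1 hpp)).2 hpk
        apply hx
        have h3 : y = ((e : Ω)) ^ d := by
          have h4 : (e : Ω) = y ^ k := by rw [h2, Subgroup.coe_zpow]
          calc y = y ^ (c * p + d * k) := by rw [hcd, zpow_one]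
            _ = (y ^ (p : ℤ)) ^ c * (y ^ k) ^ d := by rw [zpow_add, mul_comm c, zpow_mul, mul_comm d, zpow_mul]
            _ = (e : Ω) ^ d := by rw [zpow_natCast, hyp, one_zpow, one_mul, ← h4]
        rw [h3]; exact Z.zpow_mem heZ d
    have hβF := (mem_autGroup F hBS).mp hβ
    have hφ' := restrict_mem F hβF hZB
    have hval : (B.subtype.comp β.toMonoidHom).comp (Subgroup.inclusion hZB) ⟨e, heZ⟩ = ((β e : B) : Ω) := rfl
    obtain ⟨h1, -, -⟩ := gx_star hS hF hP hge hZ le_rfl hφ' (x := ⟨e, heZ⟩) (by rw [hval]; exact hβeZ)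
    rw [hval] at h1
    apply hgy
    apply h1 g hgP y hφxP
    · have h2 := congrArg Subtype.val hcon
      rw [hτap] at h2
      calc g * ((β e : B) : Ω) = (g * ((β e : B) : Ω) * g⁻¹) * g := by group
        _ = _ := by rw [h2]
    · exact congrArg Subtype.val (hBab yB (β e))
  -- the second transvection
  set σ : MulAut B := β⁻¹ * τ * β with hσ
  have hσF : σ ∈ F.autGroup B := Subgroup.mul_mem _ (Subgroup.mul_mem _ (Subgroup.inv_mem _ hβ) hτF) hβ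
  have hσap : ∀ b, σ b = β⁻¹ (τ (β b)) := fun b => rfl
  have hβinv : ∀ b, β⁻¹ (β b) = b := fun b => MulAut.inv_apply_self B β b
  have hσy : σ yB = yB := by
    rw [hσap, hβy, hτZfix xB hxZ, ← hβy, hβinv]
  have hσb : ∀ b : B, ∃ k : ℤ, σ b = b * yB ^ k := by
    intro b
    obtain ⟨k, hk⟩ := hgenB xB hxZ hxB1 _ (hτZ (β b))
    refine ⟨k, ?_⟩
    have h1 : τ (β b) = β b * xB ^ k := by rw [← hk, mul_inv_cancel_left]
    rw [hσap, h1, map_mul, map_zpow, hβinv, ← hβy, hβinv]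
  obtain ⟨b, hb⟩ := hσb e
  have hyb : yB ^ b ≠ 1 := by
    intro h
    rw [h, mul_one, hσap] at hb
    apply hβe
    have h2 := congrArg β hb
    rwa [MulAut.apply_inv_self] at h2
  have hyBp : yB ^ p = 1 := Subtype.ext (by simpa using hyp)
  have hyBo : orderOf yB = p := orderOf_eq_prime hyBp (fun h => hy1 (congrArg Subtype.val h))
  have hyc : Nat.card ↥(Subgroup.zpowers yB) = p := by rw [Nat.card_zpowers, hyBo]
  have hygen : ∀ k : ℤ, ∃ n : ℕ, (yB ^ b) ^ n = yB ^ k := by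
    intro k
    have h1 : (⟨yB ^ k, Subgroup.zpow_mem_zpowers yB k⟩ : Subgroup.zpowers yB) ∈
        Subgroup.zpowers (⟨yB ^ b, Subgroup.zpow_mem_zpowers yB b⟩ : Subgroup.zpowers yB) :=
      mem_zpowers_of_prime_card hyc (fun h => hyb (congrArg Subtype.val h))
    rw [← mem_powers_iff_mem_zpowers] at h1
    obtain ⟨n, hn⟩ := Submonoid.mem_powers_iff _ _ |>.1 h1
    exact ⟨n, congrArg Subtype.val hn⟩
  obtain ⟨n, hn⟩ := hygen (-1)
  rw [zpow_neg_one] at hn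
  have hσn : ∀ k : ℕ, (σ ^ k) e = e * (yB ^ b) ^ k ∧ (σ ^ k) yB = yB ∧ ∀ c : B, σ c = c → (σ ^ k) c = c := by
    intro k
    induction k with
    | zero => simp
    | succ k ih =>
      refine ⟨?_, ?_, fun c hc => ?_⟩
      · rw [pow_succ', MulAut.mul_apply, ih.1, map_mul, map_pow, map_zpow, hσy, hb, mul_assoc, ← pow_succ']
      · rw [pow_succ', MulAut.mul_apply, ih.2.1, hσy]
      · rw [pow_succ', MulAut.mul_apply, ih.2.2 c hc, hc]
  obtain ⟨v1, v2, v3⟩ := hσn n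
  rw [hn] at v1
  let K : Subgroup B :=
    { carrier := {c | τ c = c ∧ σ c = c}
      one_mem' := ⟨map_one _, map_one _⟩
      mul_mem' := by
        rintro a c ⟨h1, h2⟩ ⟨h3, h4⟩
        exact ⟨by rw [map_mul, h1, h3], by rw [map_mul, h2, h4]⟩
      inv_mem' := by
        rintro a ⟨h1, h2⟩
        exact ⟨by rw [map_inv, h1], by rw [map_inv, h2]⟩ }
  have hep : e ^ p = 1 := Subtype.ext (by simpa using hZp e heZ)
  have hodd := hpp.odd_of_ne_two hp
  obtain ⟨m, hm⟩ := hodd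
  have hts : 2 * (m + 1) ≡ 1 [MOD p] := by
    rw [show 2 * (m + 1) = p + 1 by omega]
    simp [Nat.ModEq]
  obtain ⟨h, hhF, hhe, hhy, hhK⟩ := torus_core hBab (F.autGroup B) hτF (Subgroup.pow_mem _ hσF n) hep hyBp hτe hτy v2 v1 K
    (fun k hk => hk.1) (fun k hk => v3 k hk.2) hts
  -- `B` is generated by `K`, `e`, `y`
  have hgenK : ∀ M : Subgroup B, K ≤ M → e ∈ M → yB ∈ M → M = ⊤ := by
    intro M hKM heM hyM
    rw [eq_top_iff]
    intro c _
    obtain ⟨i, hi⟩ := hgenB e heZ he1 _ (hτZ c)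
    have hτc : τ c = c * e ^ i := by rw [← hi, mul_inv_cancel_left]
    set c1 := c * (yB ^ i)⁻¹ with hc1
    have hτc1 : τ c1 = c1 := by
      rw [hc1, map_mul, map_inv, map_zpow, hτc, hτy]
      have h5 : (yB * e) ^ i = yB ^ i * e ^ i := (show Commute yB e from hBab _ _).mul_zpow i
      rw [h5, mul_inv_rev]; group
    obtain ⟨j, hj⟩ := hσb c1
    obtain ⟨n', hn'⟩ := hygen j
    set c2 := c1 * (e ^ n')⁻¹ with hc2
    have hτc2 : τ c2 = c2 := by rw [hc2, map_mul, map_inv, map_pow, hτc1, hτe]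
    have hσc2 : σ c2 = c2 := by
      rw [hc2, map_mul, map_inv, map_pow, hj, hb]
      have h5 : (e * yB ^ b) ^ n' = e ^ n' * (yB ^ b) ^ n' := (show Commute e (yB ^ b) from hBab _ _).mul_pow n'
      rw [h5, hn', mul_inv_rev]; group
    have h6 : c = c2 * e ^ n' * yB ^ i := by rw [hc2, hc1]; group
    rw [h6]
    exact M.mul_mem (M.mul_mem (hKM ⟨hτc2, hσc2⟩) (M.pow_mem heM n')) (M.zpow_mem hyM i)
  have hcommh : ∀ c : B, h (τ c) = (τ ^ 4) (h c) := by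
    have h1 : MonoidHom.eqLocus (((h * τ : MulAut B) : B →* B)) (((τ ^ 4 * h : MulAut B) : B →* B)) = ⊤ := by
      apply hgenK
      · intro k hk
        show h (τ k) = (τ ^ 4) (h k)
        have h2 : ∀ j : ℕ, (τ ^ j) k = k := by
          intro j
          induction j with
          | zero => simp
          | succ j ih => rw [pow_succ', MulAut.mul_apply, ih, hk.1]
        rw [hk.1, hhK k hk, h2]
      · show h (τ e) = (τ ^ 4) (h e)
        have h2 : ∀ j : ℕ, (τ ^ j) (e ^ 2) = e ^ 2 := by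
          intro j
          induction j with
          | zero => simp
          | succ j ih => rw [pow_succ', MulAut.mul_apply, ih, map_pow, hτe]
        rw [hτe, hhe, h2]
      · show h (τ yB) = (τ ^ 4) (h yB)
        have h2 : ∀ j : ℕ, (τ ^ j) yB = yB * e ^ j := by
          intro j
          induction j with
          | zero => simp
          | succ j ih => rw [pow_succ', MulAut.mul_apply, ih, map_mul, map_pow, hτe, hτy, mul_assoc, ← pow_succ']
        rw [hτy, map_mul, hhe, hhy, map_pow, h2]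
        have h5 : (yB * e ^ 4) ^ (m + 1) = yB ^ (m + 1) * (e ^ 4) ^ (m + 1) :=
          (show Commute yB (e ^ 4) from hBab _ _).mul_pow _
        rw [h5]
        congr 1
        rw [← pow_mul, pow_eq_pow_iff_modEq]
        have h6 : 4 * (m + 1) ≡ 2 [MOD p] := by
          have h7 := hts.mul_left 2
          rw [← mul_assoc] at h7
          simpa using h7
        exact (h6.of_dvd (orderOf_dvd_of_pow_eq_one hep)).symm
    intro c
    exact (h1 ▸ Subgroup.mem_top c : c ∈ MonoidHom.eqLocus (((h * τ : MulAut B) : B →* B)) (((τ ^ 4 * h : MulAut B) : B →* B)))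
  have hτ4 : ∀ c : B, (((τ ^ 4) c : B) : Ω) = g ^ 4 * c * (g ^ 4)⁻¹ := by
    intro c
    have h2 : ∀ j : ℕ, (((τ ^ j) c : B) : Ω) = g ^ j * c * (g ^ j)⁻¹ := by
      intro j
      induction j with
      | zero => simp
      | succ j ih => rw [pow_succ', MulAut.mul_apply, hτap, ih, pow_succ' g]; group
    exact h2 4
  -- extension to `P`
  have hhF' := (mem_autGroup F hBS).mp hhF
  obtain ⟨θ', hθ', hθ'ag⟩ := (receptive_of_fullyNormalized_sat hS hF hBfn).2 B _ hhF' (range_subtype_comp h)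
  have hgE : g ∈ FusionSystem.extender S B (B.subtype.comp h.toMonoidHom) := by
    refine mem_extender.mpr ⟨hPS hgP, hBn (hPS hgP), g ^ 4, S.pow_mem (hPS hgP) 4, fun t ht => ?_⟩
    have h2 := congrArg Subtype.val (hcommh t)
    rw [hτ4] at h2
    exact h2
  have hBE : B ≤ FusionSystem.extender S B (B.subtype.comp h.toMonoidHom) := le_extender hBS (fun t => hBS (h t).2)
  have hdec : ∀ a ∈ P, ∃ i : ℤ, a * (g ^ i)⁻¹ ∈ B := by
    intro a ha
    have hc1 : ⁅a, y⁆ ∈ Z := Subgroup.commutator_mem_commutator ha hφxP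
    have hc2 : ⁅g, y⁆ ∈ Z := Subgroup.commutator_mem_commutator hgP hφxP
    have hc3 : ⁅g, y⁆ ≠ 1 := fun h => hgy (commutatorElement_eq_one_iff_mul_comm.1 h)
    obtain ⟨i, hi⟩ := hgen _ hc2 hc3 _ hc1
    refine ⟨i, (hBm _).2 ⟨P.mul_mem ha (P.inv_mem (P.zpow_mem hgP i)), ?_⟩⟩
    have hZc' : ∀ z ∈ Z, ∀ a ∈ P, Commute a z := hZc
    -- `g ^ i * y * g ^ -i = c ^ i * y`
    have h1 : ∀ a' ∈ P, a' * y * a'⁻¹ = ⁅a', y⁆ * y := by
      intro a' _; rw [commutatorElement_def]; group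
    have h2 : ∀ k : ℤ, g ^ k * y * (g ^ k)⁻¹ = ⁅g, y⁆ ^ k * y := by
      have hcg : Commute g ⁅g, y⁆ := hZc _ hc2 g hgP
      have hpos : ∀ k : ℕ, g ^ k * y * (g ^ k)⁻¹ = ⁅g, y⁆ ^ k * y := by
        intro k
        induction k with
        | zero => simp
        | succ k ih =>
          calc g ^ (k + 1) * y * (g ^ (k + 1))⁻¹ = g * (g ^ k * y * (g ^ k)⁻¹) * g⁻¹ := by rw [pow_succ']; group
            _ = (g * ⁅g, y⁆ ^ k) * y * g⁻¹ := by rw [ih]; group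
            _ = (⁅g, y⁆ ^ k * g) * y * g⁻¹ := by rw [(hcg.pow_right k).eq]
            _ = ⁅g, y⁆ ^ k * (g * y * g⁻¹) := by group
            _ = ⁅g, y⁆ ^ k * (⁅g, y⁆ * y) := by rw [h1 g hgP]
            _ = ⁅g, y⁆ ^ (k + 1) * y := by rw [pow_succ]; group
      intro k
      obtain ⟨k, rfl | rfl⟩ := k.eq_nat_or_neg
      · simpa using hpos k
      · have h3 := hpos k
        have h4 : Commute (g ^ k) (⁅g, y⁆ ^ k) := (hcg.pow_right k).pow_left k
        rw [zpow_neg, zpow_neg, zpow_natCast, zpow_natCast, inv_inv]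
        have h5 : y = (g ^ k)⁻¹ * (⁅g, y⁆ ^ k * y) * g ^ k := by rw [← h3]; group
        have h6 : (g ^ k)⁻¹ * (⁅g, y⁆ ^ k * y) * g ^ k = ⁅g, y⁆ ^ k * ((g ^ k)⁻¹ * y * g ^ k) := by
          have h7 := h4.inv_left.eq
          calc (g ^ k)⁻¹ * (⁅g, y⁆ ^ k * y) * g ^ k = ((g ^ k)⁻¹ * ⁅g, y⁆ ^ k) * y * g ^ k := by group
            _ = (⁅g, y⁆ ^ k * (g ^ k)⁻¹) * y * g ^ k := by rw [h7]
            _ = _ := by group
        rw [h6] at h5
        exact (inv_mul_eq_iff_eq_mul.2 h5).symm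
    have h3 : (g ^ i)⁻¹ * y * g ^ i = ⁅g, y⁆ ^ (-i) * y := by
      have := h2 (-i)
      rwa [zpow_neg g i, inv_inv] at this
    have h4 : (a * (g ^ i)⁻¹) * y * (a * (g ^ i)⁻¹)⁻¹ = y := by
      calc (a * (g ^ i)⁻¹) * y * (a * (g ^ i)⁻¹)⁻¹ = a * ((g ^ i)⁻¹ * y * g ^ i) * a⁻¹ := by group
        _ = a * (⁅g, y⁆ ^ (-i) * y) * a⁻¹ := by rw [h3]
        _ = (a * ⁅g, y⁆ ^ (-i)) * y * a⁻¹ := by group
        _ = (⁅g, y⁆ ^ (-i) * a) * y * a⁻¹ := by rw [((hZc' _ hc2 a ha).zpow_right (-i)).eq]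
        _ = ⁅g, y⁆ ^ (-i) * (a * y * a⁻¹) := by group
        _ = ⁅g, y⁆ ^ (-i) * (⁅g, y⁆ ^ i * y) := by rw [h1 a ha, hi]
        _ = y := by group
    calc (a * (g ^ i)⁻¹) * y = ((a * (g ^ i)⁻¹) * y * (a * (g ^ i)⁻¹)⁻¹) * (a * (g ^ i)⁻¹) := by group
      _ = y * (a * (g ^ i)⁻¹) := by rw [h4]
  have hPE : P ≤ FusionSystem.extender S B (B.subtype.comp h.toMonoidHom) := by
    intro a ha
    obtain ⟨i, hi⟩ := hdec a ha
    have h2 : a = (a * (g ^ i)⁻¹) * g ^ i := by group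
    rw [h2]
    exact Subgroup.mul_mem _ (hBE hi) (Subgroup.zpow_mem _ hgE i)
  have hθP := restrict_mem F hθ' hPE
  set δ := θ'.comp (Subgroup.inclusion hPE) with hδ
  have hδP : ∀ a, δ a ∈ P := hP.2 P le_rfl δ hθP
  have hδB : ∀ c : B, δ ⟨c, hBP c.2⟩ = h c := fun c => hθ'ag c c.2 _
  set g1 := δ ⟨g, hgP⟩ with hg1
  have hg1P : g1 ∈ P := hδP _
  have hrel : ∀ c : B, g1 * (h c : B) * g1⁻¹ = g ^ 4 * (h c : B) * (g ^ 4)⁻¹ := by
    intro c
    have h2 : δ ⟨(τ c : B), hBP (τ c).2⟩ = g1 * (h c : B) * g1⁻¹ := by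
      have h3 : (⟨(τ c : B), hBP (τ c).2⟩ : P) = ⟨g, hgP⟩ * ⟨c, hBP c.2⟩ * ⟨g, hgP⟩⁻¹ := Subtype.ext (hτap c)
      rw [h3, map_mul, map_mul, map_inv, hδB]
    rw [← h2, hδB, hcommh, hτ4]
  have hg1B : (g ^ 4)⁻¹ * g1 ∈ B := by
    refine (hBm _).2 ⟨P.mul_mem (P.inv_mem (P.pow_mem hgP 4)) hg1P, ?_⟩
    obtain ⟨c, hc⟩ := h.surjective yB
    have h2 := hrel c
    rw [hc] at h2
    change g1 * y * g1⁻¹ = g ^ 4 * y * (g ^ 4)⁻¹ at h2
    calc (g ^ 4)⁻¹ * g1 * y = (g ^ 4)⁻¹ * (g1 * y * g1⁻¹) * g1 := by group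
      _ = (g ^ 4)⁻¹ * (g ^ 4 * y * (g ^ 4)⁻¹) * g1 := by rw [h2]
      _ = y * ((g ^ 4)⁻¹ * g1) := by group
  set c := (g ^ 4)⁻¹ * g1 with hc
  have hg1c : g1 = g ^ 4 * c := by rw [hc]; group
  have hcm : ⁅c, g ^ 4⁆ ∈ Z := Subgroup.commutator_mem_commutator (hBP hg1B) (P.pow_mem hgP 4)
  have hg1p : g1 ^ p = (g ^ 4) ^ p := by
    rw [hg1c, H1.mul_pow_class_two (show Commute ⁅c, g ^ 4⁆ (g ^ 4) from (hZc _ hcm _ (P.pow_mem hgP 4)).symm)
      (show Commute ⁅c, g ^ 4⁆ c from (hZc _ hcm _ (hBP hg1B)).symm) p, (hB c (hBP hg1B)).1 hg1B, mul_one]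
    obtain ⟨k, hk⟩ := H1.dvd_choose_two hpp hp
    rw [hk, pow_mul, hZp _ hcm, one_pow, mul_one]
  have hgpZ : g ^ p ∈ Z := hge g hgP
  have hg1p' : g1 ^ p = (g ^ p) ^ 2 := by
    obtain ⟨k, hk⟩ := hgenB e heZ he1 ⟨g ^ p, hZB hgpZ⟩ hgpZ
    have h2 : g1 ^ p = δ ⟨g ^ p, P.pow_mem hgP p⟩ := by
      rw [hg1, ← map_pow]; rfl
    have h3 : δ ⟨g ^ p, P.pow_mem hgP p⟩ = h ⟨g ^ p, hZB hgpZ⟩ := hδB ⟨g ^ p, hZB hgpZ⟩
    have h4 : h ⟨g ^ p, hZB hgpZ⟩ = (⟨g ^ p, hZB hgpZ⟩ : B) ^ 2 := by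
      rw [hk, map_zpow, hhe, ← zpow_natCast, ← zpow_natCast, ← zpow_mul, ← zpow_mul, mul_comm]
    rw [h2, h3, h4]; simp
  have hfin : g ^ p = 1 := by
    have h2 : (g ^ p) ^ 4 = (g ^ p) ^ 2 := by
      rw [← hg1p', hg1p, ← pow_mul, ← pow_mul, mul_comm]
    have h3 : (g ^ p) ^ 2 = 1 := by
      have h4 : (g ^ p) ^ 2 * (g ^ p) ^ 2 = (g ^ p) ^ 2 * 1 := by rw [← pow_add, mul_one]; exact h2
      exact mul_left_cancel h4
    have h5 : Nat.Coprime 2 p := (Nat.coprime_primes Nat.prime_two hpp).2 (Ne.symm hp)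
    exact orderOf_eq_one_iff.1 (Nat.eq_one_of_dvd_coprimes h5 (orderOf_dvd_of_pow_eq_one h3)
      (orderOf_dvd_of_pow_eq_one (hZp _ hgpZ)))
  exact hno g hgP hgy hfin

end Cfsg.Agent.H2
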