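import Cfsg.Agent.H2.WcTwo
import Cfsg.Agent.H2.FusThom

set_option autoImplicit false
set_option linter.unusedSectionVars false
set_option linter.unusedSimpArgs false
set_option linter.unusedVariables false
set_option linter.style.haveILetI false
open Cfsg
open scoped commutatorElement

/-! Glauberman's weak closure theorem for the centre of the normalizer of the Thompson subgroup (helper2). -/

universe u

namespace Cfsg.Agent.H2
open Cfsg.Agent.H6

section
variable {G : Type u} [Group G] [Finite G] {p : ℕ} [hp : Fact p.Prime]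

theorem thompsonA_eq (Q : Type*) [Group Q] : thompsonSubgroupA Q = thompsonSubgroupAOf (⊤ : Subgroup Q) := by
  rw [thompsonAOf_eq]
  show sSup (maxAbelianSubgroups Q) = _
  rw [maxAbelian_eq]

theorem charP_J : IsCharPFunctor.{u} p (fun Q _ => thompsonSubgroupA Q) := by
  refine ⟨?_, ?_⟩
  · intro Q _ _ hQ hnt h
    have h1 : (⊤ : Subgroup Q) ≠ ⊥ := by
      intro h2
      obtain ⟨x, hx⟩ := exists_ne (1 : Q)
      have : x ∈ (⊤ : Subgroup Q) := Subgroup.mem_top x
      rw [h2, Subgroup.mem_bot] at this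
      exact hx this
    refine jj_ne_bot (T := (⊤ : Subgroup Q)) (hQ.to_subgroup ⊤) h1 ?_
    rw [← thompsonA_eq]; exact h
  · intro Q R _ _ _ hQ φ
    show (thompsonSubgroupA Q).map φ.toMonoidHom = thompsonSubgroupA R
    rw [thompsonA_eq, thompsonA_eq, thompsonAOf_map _ _ φ.injective, Subgroup.map_top_of_surjective _ φ.surjective]

theorem isConj_J : IsConjugacyFunctor p (fun P : Subgroup G => thompsonSubgroupAOf P) := by
  intro P hP
  refine ⟨jj_le P, jj_ne_bot hP, fun g => ?_⟩
  exact (thompsonAOf_map P (MulAut.conj g).toMonoidHom (MulAut.conj g).injective).symm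

theorem zc_le_J {P : Subgroup G} (hP : IsPGroup p P) : H6.zc P ≤ thompsonSubgroupAOf P := by
  rw [thompsonAOf_eq]
  obtain ⟨A, hA⟩ := AA_nonempty 0 P
  refine le_trans ?_ (le_sSup hA)
  intro x hx
  exact mem_of_centralize hA (Subgroup.mem_inf.1 hx).1 (pow_zero x) (fun a ha =>
    Subgroup.mem_centralizer_iff.1 (Subgroup.mem_inf.1 hx).2 a (hA.1 ha))

/-- a quadratic element outside the core -/
theorem quad_of_J (S : Sylow p G) (hJ : ¬ (thompsonSubgroupAOf (S : Subgroup G)).Normal) :
    ∃ u ∈ (S : Subgroup G), u ∉ pCore p G ∧ ⁅⁅H6.zc (pCore p G), Subgroup.zpowers u⁆, Subgroup.zpowers u⁆ = ⊥ := by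
  classical
  set Q := pCore p G with hQ
  have hQS : Q ≤ (S : Subgroup G) := L0.pCore_le_sylow S
  haveI hYn : (H6.zc Q).Normal := normal_of_norm (le_norm_zc (norm_of_normal _))
  have hYc : ∀ v ∈ H6.zc Q, ∀ w ∈ Q, w * v = v * w := fun v hv w hw =>
    Subgroup.mem_centralizer_iff.1 (Subgroup.mem_inf.1 hv).2 w hw
  have hYY : ⁅H6.zc Q, H6.zc Q⁆ = ⊥ := by
    rw [eq_bot_iff, Subgroup.commutator_le]
    intro x hx y hy
    rw [Subgroup.mem_bot, commutatorElement_eq_one_iff_mul_comm]
    exact hYc y hy x (Subgroup.mem_inf.1 hx).1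
  have h1 : ¬ ∀ A ∈ AA 0 (S : Subgroup G), H6.zc Q ≤ Subgroup.normalizer (A : Set G) → A ≤ Q := by
    intro hcon
    apply hJ
    refine thompsonAOf_normal S hQS (all_le_of_norm S (V := H6.zc Q) (inf_le_left.trans hQS) hYc hYY hcon)
  push Not at h1
  obtain ⟨A, hA, hYA, hAQ⟩ := h1
  obtain ⟨u, hu, huQ⟩ := SetLike.not_le_iff_exists.1 hAQ
  refine ⟨u, hA.1 hu, huQ, ?_⟩
  have huA : Subgroup.zpowers u ≤ A := by rwa [Subgroup.zpowers_le]
  have h2 : ⁅H6.zc Q, Subgroup.zpowers u⁆ ≤ A := by
    rw [Subgroup.commutator_le]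
    intro x hx y hy
    have h3 := (Subgroup.mem_normalizer_iff.1 (hYA hx) y).1 (huA hy)
    rw [commutatorElement_def]
    exact A.mul_mem h3 (A.inv_mem (huA hy))
  rw [eq_bot_iff, Subgroup.commutator_le]
  intro x hx y hy
  rw [Subgroup.mem_bot, commutatorElement_eq_one_iff_mul_comm]
  exact hA.2.1 x (h2 hx) y (huA hy)

theorem map_J (K : Subgroup G) (P : Subgroup ↥K) :
    (thompsonSubgroupAOf P).map K.subtype = thompsonSubgroupAOf (P.map K.subtype) :=
  thompsonAOf_map P K.subtype K.subtype_injective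

theorem powLoc_J : PowLoc p (fun P : Subgroup G => thompsonSubgroupAOf P) := by
  intro H T hT1 hT2 hT3 hn
  have hT : SylIn p T H := ⟨hT1, hT2, hT3⟩
  obtain ⟨P, hP⟩ := hT.exists_sylow
  have hPT : (P : Subgroup ↥H).map H.subtype = T := by
    rw [hP, Subgroup.map_subgroupOf_eq_of_le hT.le]
  have h1 : ¬ (thompsonSubgroupAOf (P : Subgroup ↥H)).Normal := by
    intro hnorm
    apply hn
    have h3 : (⊤ : Subgroup ↥H) ≤ Subgroup.normalizer ((thompsonSubgroupAOf (P : Subgroup ↥H) : Subgroup ↥H) : Set ↥H) :=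
      norm_of_normal _
    have h4 := (map_le_norm (Subgroup.subtype_injective H)).2 h3
    rw [map_J, hPT] at h4
    refine le_trans ?_ h4
    rw [← MonoidHom.range_eq_map, Subgroup.range_subtype]
  obtain ⟨g, hgP, hgQ, hq⟩ := quad_of_J P h1
  refine ⟨g, ?_, ?_, ?_⟩
  · rw [← hPT]; exact ⟨g, hgP, rfl⟩
  · rintro ⟨x, hx, hxe⟩
    apply hgQ
    rwa [← Subgroup.subtype_injective H hxe]
  · have h5 := congrArg (Subgroup.map H.subtype) hq
    rw [Subgroup.map_commutator, Subgroup.map_commutator, map_zc (Subgroup.subtype_injective H),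
      MonoidHom.map_zpowers, Subgroup.map_bot] at h5
    exact h5

/-- the conclusion for the group `G` -/
def JW (p : ℕ) (G : Type*) [Group G] : Prop :=
  ∀ S : Sylow p G, ∀ x ∈ (S : Subgroup G),
    (∀ m ∈ Subgroup.normalizer ((thompsonSubgroupAOf (S : Subgroup G) : Subgroup G) : Set G), m * x = x * m) →
    ∀ g : G, g * x * g⁻¹ ∈ (S : Subgroup G) → g * x * g⁻¹ = x

/-- the conclusion for a subgroup -/
theorem JW.sub {K : Subgroup G} (hK : JW p ↥K) {T : Subgroup G} (hT : SylIn p T K) {x : G} (hx : x ∈ T)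
    (hxc : ∀ k ∈ K, k ∈ Subgroup.normalizer ((thompsonSubgroupAOf T : Subgroup G) : Set G) → k * x = x * k) {g : G} (hg : g ∈ K)
    (hgT : g * x * g⁻¹ ∈ T) : g * x * g⁻¹ = x := by
  obtain ⟨P, hP⟩ := hT.exists_sylow
  have hPT : (P : Subgroup ↥K).map K.subtype = T := by
    rw [hP, Subgroup.map_subgroupOf_eq_of_le hT.le]
  have h1 := hK P ⟨x, hT.le hx⟩ ?_ ?_ ⟨g, hg⟩ ?_
  · exact congrArg Subtype.val h1
  · change (⟨x, hT.le hx⟩ : ↥K) ∈ (P : Subgroup ↥K)
    rw [hP]; exact hx
  · intro k hk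
    apply Subtype.ext
    apply hxc k k.2
    have h3 := map_norm_inf (Subgroup.subtype_injective K) (⊤ : Subgroup ↥K) (thompsonSubgroupAOf (P : Subgroup ↥K))
    rw [map_J, hPT] at h3
    have h4 : (k : G) ∈ Subgroup.map K.subtype (⊤ ⊓ Subgroup.normalizer ((thompsonSubgroupAOf (P : Subgroup ↥K) : Subgroup ↥K) : Set ↥K)) :=
      ⟨k, ⟨Subgroup.mem_top _, hk⟩, rfl⟩
    rw [h3] at h4
    exact (Subgroup.mem_inf.1 h4).2
  · rw [hP]; exact hgT

theorem iterComm_bot {A B : Subgroup G} (h : ⁅⁅A, B⁆, B⁆ = ⊥) : ∀ n, 2 ≤ n → iterCommutator A B n = ⊥ := by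
  intro n hn
  induction n with
  | zero => omega
  | succ n ih =>
    rcases Nat.lt_or_ge n 2 with h1 | h1
    · have : n = 1 := by omega
      subst this
      exact h
    · show ⁅iterCommutator A B n, B⁆ = ⊥
      rw [ih h1, Subgroup.commutator_bot_left]

theorem iterComm_mono {A A' B : Subgroup G} (h : A ≤ A') (n : ℕ) : iterCommutator A B n ≤ iterCommutator A' B n := by
  induction n with
  | zero => exact h
  | succ n ih => exact Subgroup.commutator_mono ih le_rfl

end

theorem jw_main {p : ℕ} [hp : Fact p.Prime] : ∀ (n : ℕ) (G : Type u) [Group G] [Finite G], Nat.card G ≤ n →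
    (p ≠ 2 ∨ ¬ Sec (Equiv.Perm (Fin 4)) G) → JW p G := by
  intro n
  induction n with
  | zero =>
    intro G _ _ hn
    exact absurd hn (by have := Nat.card_pos (α := G); omega)
  | succ n ih =>
    intro G _ _ hn hfree S z hzS hzN g hg
    by_contra hne
    have hW := isConj_J (G := G) (p := p)
    have ih' : ∀ K : Subgroup G, K ≠ ⊤ → JW p ↥K := by
      intro K hK
      refine ih ↥K ?_ (hfree.imp_right (fun h1 h2 => h1 (h2.trans ⟨K, MonoidHom.id _, Function.surjective_id⟩)))
      have := H6.card_lt_of_lt (lt_top_iff_ne_top.2 hK)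
      rw [Subgroup.card_top] at this
      omega
    set N := Subgroup.normalizer ((thompsonSubgroupAOf (S : Subgroup G) : Subgroup G) : Set G) with hN
    have hSN : (S : Subgroup G) ≤ N := cf_self_norm hW S.2
    have hzZ : z ∈ H6.zc (S : Subgroup G) :=
      ⟨hzS, Subgroup.mem_centralizer_iff.2 (fun s hs => hzN s (hSN hs))⟩
    set C := Subgroup.centralizer ({z} : Set G) with hC
    have hCmem : ∀ x : G, x ∈ C ↔ x * z = z * x := fun x => Subgroup.mem_centralizer_singleton_iff
    have hNC : N ≤ C := by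
      intro x hx
      rw [hCmem]
      exact hzN x hx
    have hCA : C ≤ Subgroup.normalizer ((Subgroup.zpowers z : Subgroup G) : Set G) := by
      refine le_trans ?_ (H6.centralizer_le_norm _)
      intro x hx
      rw [Subgroup.mem_centralizer_iff]
      rintro _ ⟨k, rfl⟩
      have h1 : Commute x z := (hCmem x).1 hx
      exact ((h1.zpow_right k).eq).symm
    have hgC : g⁻¹ ∉ C := by
      intro h1
      apply hne
      have h2 := (hCmem g).1 (by simpa using C.inv_mem h1)
      rw [h2]; group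
    have hrc : rc g⁻¹ ((Subgroup.zpowers z : Subgroup G) : Set G) ⊆ (S : Subgroup G) := by
      rw [rc_subgroup, inv_inv, SetLike.coe_subset_coe]
      unfold cj
      rw [MonoidHom.map_zpowers, Subgroup.zpowers_le]
      exact hg
    obtain ⟨T, hT, hzT, h1, h2⟩ := exists_wp_not_le S hW (fun P hP => zc_le_J hP)
      (by rw [Subgroup.zpowers_le]; exact hzZ) hCA hNC hrc hgC
    rw [Subgroup.zpowers_le] at hzT
    have hPN := wp_sylIn S hT 0
    have hTP : T ≤ (S : Subgroup G) ⊓ Subgroup.normalizer (T : Set G) := le_inf hT.1 Subgroup.le_normalizer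
    have hNtop : Subgroup.normalizer (T : Set G) = ⊤ := by
      by_contra hNT
      apply h2
      intro x hx
      rw [hCmem]
      have h3 := JW.sub (ih' _ hNT) hPN (hTP hzT) (fun k _ hk => (hCmem k).1 (h1 hk)) hx
        (hTP ((Subgroup.mem_normalizer_iff.1 hx z).1 hzT))
      rw [mul_inv_eq_iff_eq_mul] at h3
      exact h3
    haveI hTn : T.Normal := normal_of_norm hNtop.ge
    have hTQ : T ≤ pCore p G := L0.le_pCore (S.2.to_le hT.1)
    have hQS : pCore p G ≤ (S : Subgroup G) := L0.pCore_le_sylow S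
    have hCtop : C ≠ ⊤ := fun h3 => hgC (by rw [h3]; exact Subgroup.mem_top _)
    have hSC : (S : Subgroup G) ≤ C := hSN.trans hNC
    have hmax : ∀ H : Subgroup G, (S : Subgroup G) ≤ H → H ≠ ⊤ → H ≤ C := by
      intro H hSH hH x hx
      rw [hCmem]
      have h3 := JW.sub (ih' _ hH) (sylIn_of_sylow_le S hSH) hzS (fun k _ hk => (hCmem k).1 (hNC hk)) hx
        (hQS (hTQ (hTn.conj_mem z hzT x)))
      rw [mul_inv_eq_iff_eq_mul] at h3
      exact h3
    have hz0 : z ∈ H6.zc (pCore p G) := ⟨hTQ hzT, Subgroup.centralizer_le (SetLike.coe_subset_coe.2 hQS) (Subgroup.mem_inf.1 hzZ).2⟩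
    have hz0M : z ∈ Subgroup.centralizer (C : Set G) := by
      rw [Subgroup.mem_centralizer_iff]
      intro x hx
      exact (hCmem x).1 hx
    have hz0c : z ∉ Subgroup.center G := by
      intro h3
      apply hgC
      rw [hCmem]
      exact (Subgroup.mem_center_iff.1 h3 g⁻¹)
    have hJ : ¬ (thompsonSubgroupAOf (S : Subgroup G)).Normal := by
      intro h
      apply hCtop
      have : N = ⊤ := Subgroup.normalizer_eq_top_iff.2 h
      exact top_le_iff.1 (this.ge.trans hNC)
    by_cases hp2 : p = 2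
    · subst hp2
      exact (hfree.resolve_left (by simp)) (wc_two S hSC hmax hz0 hz0M hz0c hJ)
    · obtain ⟨u, hu, huQ, hquad⟩ := quad_of_J S hJ
      refine wc_final S hSC hmax (z0 := z) hz0 hz0M hz0c hu huQ ?_
      intro U V hUV hU
      have h3 : iterCommutator (H6.zc (pCore p G)) (Subgroup.zpowers u) (p - 1) = ⊥ := by
        apply iterComm_bot hquad
        have := hp.out.two_le
        omega
      exact ((iterComm_mono hU (p - 1)).trans h3.le).trans bot_le

end Cfsg.Agent.H2
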