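import Cfsg.Agent.H6.NormArg
import Cfsg.Agent.H1.Basic

set_option autoImplicit false
set_option linter.unusedSectionVars false
set_option linter.unusedSimpArgs false
set_option linter.unusedVariables false
set_option linter.style.haveILetI false
open Finset

/-! Products over orbits of a 2-group generated by quadratically acting abelian subgroups (helper2). -/

namespace Cfsg.Agent.H2

section
variable {E : Type*} [Group E] [Finite E] {Ω : Type*} [MulAction E Ω] [Fintype Ω] {W : Type*} [CommGroup W]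

/-- a function constant on the orbits of a fixed point free 2-group -/
theorem prod_const_orbits (A : Subgroup E) (hA : IsPGroup 2 A) [DecidableEq Ω] (s : Finset Ω) (F : Ω → W) (hF2 : ∀ q ∈ s, F q ^ 2 = 1)
    (hs : ∀ b ∈ A, ∀ x ∈ s, b • x ∈ s) (hF : ∀ b ∈ A, ∀ x ∈ s, F (b • x) = F x) (hfp : ∀ x ∈ s, ∃ b ∈ A, b • x ≠ x) :
    ∏ x ∈ s, F x = 1 := by
  classical
  rw [Finset.prod_comp (fun y : W => y) F]
  refine Finset.prod_eq_one ?_
  intro y hy
  obtain ⟨x0, hx0, hxy⟩ := Finset.mem_image.1 hy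
  have hy2 : y ^ 2 = 1 := by rw [← hxy]; exact hF2 x0 hx0
  letI : MulAction A {x : Ω // x ∈ s ∧ F x = y} :=
    { smul := fun g x => ⟨(g : E) • (x : Ω), hs g g.2 x x.2.1, by rw [hF g g.2 x x.2.1]; exact x.2.2⟩
      one_smul := fun x => Subtype.ext (one_smul E (x : Ω))
      mul_smul := fun a b x => Subtype.ext (mul_smul (a : E) (b : E) (x : Ω)) }
  have h1 := hA.card_modEq_card_fixedPoints {x : Ω // x ∈ s ∧ F x = y}
  have h2 : IsEmpty (MulAction.fixedPoints A {x : Ω // x ∈ s ∧ F x = y}) := by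
    constructor
    rintro ⟨x, hx⟩
    obtain ⟨b, hb, hbx⟩ := hfp x x.2.1
    exact hbx (congrArg Subtype.val (hx ⟨b, hb⟩))
  have h0 : Nat.card (MulAction.fixedPoints A {x : Ω // x ∈ s ∧ F x = y}) = 0 := Nat.card_of_isEmpty
  rw [h0] at h1
  have h3 : Nat.card {x : Ω // x ∈ s ∧ F x = y} = (s.filter (fun a => F a = y)).card := by
    rw [Nat.card_eq_fintype_card, Fintype.card_subtype]
    congr 1
    ext x
    simp
  rw [h3] at h1
  obtain ⟨c, hc⟩ := (Nat.modEq_zero_iff_dvd).1 h1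
  rw [hc, pow_mul, hy2, one_pow]

theorem orbit_prod_two (hE : IsPGroup 2 E) [DecidableEq Ω] (F : Ω → W) (hF2 : ∀ q, F q ^ 2 = 1) (𝓕 : Set (Subgroup E))
    (h𝓕 : ∀ H : Subgroup E, (∀ A ∈ 𝓕, A ≤ H) → H = ⊤)
    (h4 : ∀ A ∈ 𝓕, ∀ a ∈ A, ∀ b ∈ A, ∀ q, F q * F (a • q) * (F (b • q) * F (a • b • q)) = 1)
    (hidx : ∀ A ∈ 𝓕, ∀ A1 ≤ A, A1.relIndex A = 2 → ∀ q : Ω, (∀ x ∈ A, x • q = q → x ∈ A1) → ∃ b ∈ A1, b • q ≠ q)
    (q : Ω) (hq : ¬ ∀ e : E, e • q = q) (s : Finset Ω) (hs : ∀ x, x ∈ s ↔ ∃ e : E, e • q = x) : ∏ x ∈ s, F x = 1 := by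
  classical
  have hst : MulAction.stabilizer E q ≠ ⊤ := by
    intro h
    apply hq
    intro e
    have : e ∈ MulAction.stabilizer E q := by rw [h]; exact Subgroup.mem_top _
    exact this
  obtain ⟨E0, hE0, hle⟩ := (eq_top_or_exists_le_coatom (MulAction.stabilizer E q)).resolve_left hst
  haveI : Group.IsNilpotent E := hE.isNilpotent
  haveI hE0n : E0.Normal := Subgroup.NormalizerCondition.normal_of_coatom E0
    Group.normalizerCondition_of_isNilpotent hE0
  have hidx2 : E0.index = 2 := H1.index_of_isCoatom_pgroup hE hE0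
  obtain ⟨A, hA, hAE0⟩ : ∃ A ∈ 𝓕, ¬ A ≤ E0 := by
    by_contra hcon
    push Not at hcon
    exact hE0.1 (h𝓕 E0 hcon)
  obtain ⟨a, ha, haE0⟩ := SetLike.not_le_iff_exists.1 hAE0
  have hmul : ∀ x y : E, x * y ∈ E0 ↔ (x ∈ E0 ↔ y ∈ E0) := fun x y => Subgroup.mul_mem_iff_of_index_two hidx2
  set s0 : Finset Ω := univ.filter (fun x => ∃ e ∈ E0, e • q = x) with hs0
  have hms0 : ∀ x, x ∈ s0 ↔ ∃ e ∈ E0, e • q = x := fun x => by simp [hs0]
  have hstab : ∀ g : E, ∀ x ∈ s0, g • x = x → g ∈ E0 := by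
    intro g x hx hgx
    obtain ⟨e, he, rfl⟩ := (hms0 x).1 hx
    have h1 : (e⁻¹ * g * e) • q = q := by rw [mul_smul, mul_smul, hgx, inv_smul_smul]
    have h2 : e⁻¹ * g * e ∈ E0 := hle h1
    have h3 := hE0n.conj_mem _ h2 e
    have e3 : e * (e⁻¹ * g * e) * e⁻¹ = g := by group
    rwa [e3] at h3
  have hinv : ∀ g ∈ E0, ∀ x ∈ s0, g • x ∈ s0 := by
    intro g hg x hx
    obtain ⟨e, he, rfl⟩ := (hms0 x).1 hx
    exact (hms0 _).2 ⟨g * e, E0.mul_mem hg he, mul_smul _ _ _⟩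
  have hsplit : s = s0 ∪ s0.image (fun x => a • x) := by
    ext x
    rw [hs, Finset.mem_union, Finset.mem_image, hms0]
    constructor
    · rintro ⟨e, rfl⟩
      by_cases he : e ∈ E0
      · exact Or.inl ⟨e, he, rfl⟩
      · refine Or.inr ⟨(a⁻¹ * e) • q, (hms0 _).2 ⟨a⁻¹ * e, ?_, rfl⟩, by rw [mul_smul, smul_inv_smul]⟩
        rw [hmul]
        constructor
        · intro h; exact absurd (by simpa using E0.inv_mem h) haE0
        · intro h; exact absurd h he
    · rintro (⟨e, -, rfl⟩ | ⟨y, hy, rfl⟩)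
      · exact ⟨e, rfl⟩
      · obtain ⟨e, -, rfl⟩ := (hms0 y).1 hy
        exact ⟨a * e, mul_smul _ _ _⟩
  have hdisj : Disjoint s0 (s0.image (fun x => a • x)) := by
    rw [Finset.disjoint_left]
    intro x hx hx'
    obtain ⟨y, hy, hyx⟩ := Finset.mem_image.1 hx'
    obtain ⟨e, he, rfl⟩ := (hms0 x).1 hx
    obtain ⟨e', he', rfl⟩ := (hms0 y).1 hy
    change a • e' • q = e • q at hyx
    have h1 : (e⁻¹ * a * e') • q = q := by rw [mul_smul, mul_smul, hyx, inv_smul_smul]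
    have h2 : e⁻¹ * a * e' ∈ E0 := hle h1
    apply haE0
    have h3 := E0.mul_mem (E0.mul_mem he h2) (E0.inv_mem he')
    have e3 : e * (e⁻¹ * a * e') * e'⁻¹ = a := by group
    rwa [e3] at h3
  rw [hsplit, Finset.prod_union hdisj, Finset.prod_image (fun x _ y _ h => smul_left_cancel a h), ← Finset.prod_mul_distrib]
  have hrel : (A ⊓ E0).relIndex A = 2 := by
    rw [Subgroup.inf_relIndex_left]
    have h1 : E0.relIndex A ∣ E0.index := Subgroup.relIndex_dvd_index_of_normal E0 A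
    rw [hidx2] at h1
    rcases (Nat.dvd_prime Nat.prime_two).1 h1 with h | h
    · rw [Subgroup.relIndex_eq_one] at h
      exact absurd h hAE0
    · exact h
  refine prod_const_orbits (A ⊓ E0) (hE.to_subgroup _) s0 (fun x => F x * F (a • x)) ?_ ?_ ?_ ?_
  · intro x _
    rw [mul_pow, hF2, hF2, one_mul]
  · intro b hb x hx
    exact hinv b hb.2 x hx
  · intro b hb x hx
    have h1 := h4 A hA a ha b hb.1 x
    change F (b • x) * F (a • b • x) = F x * F (a • x)
    have h2 : (F x * F (a • x)) * (F x * F (a • x)) = 1 := by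
      rw [← pow_two, mul_pow, hF2, hF2, one_mul]
    exact mul_left_cancel (h1.trans h2.symm)
  · intro x hx
    exact hidx A hA (A ⊓ E0) inf_le_left hrel x (fun y hy hyx => ⟨hy, hstab y x hx hyx⟩)

theorem prod_eq_fixed_two (hE : IsPGroup 2 E) (F : Ω → W) (hF2 : ∀ q, F q ^ 2 = 1) (𝓕 : Set (Subgroup E))
    (h𝓕 : ∀ H : Subgroup E, (∀ A ∈ 𝓕, A ≤ H) → H = ⊤)
    (h4 : ∀ A ∈ 𝓕, ∀ a ∈ A, ∀ b ∈ A, ∀ q, F q * F (a • q) * (F (b • q) * F (a • b • q)) = 1)
    (hidx : ∀ A ∈ 𝓕, ∀ A1 ≤ A, A1.relIndex A = 2 → ∀ q : Ω, (∀ x ∈ A, x • q = q → x ∈ A1) → ∃ b ∈ A1, b • q ≠ q)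
    (q0 : Ω) (hq0 : ∀ e : E, e • q0 = q0) (hq : ∀ q : Ω, (∀ e : E, e • q = q) → q = q0) : ∏ q : Ω, F q = F q0 := by
  classical
  haveI : Fintype (MulAction.orbitRel.Quotient E Ω) := Fintype.ofFinite _
  rw [← prod_fiberwise univ (fun q => (Quotient.mk'' q : MulAction.orbitRel.Quotient E Ω)) F]
  rw [prod_eq_single (Quotient.mk'' q0 : MulAction.orbitRel.Quotient E Ω)]
  · have : (univ.filter fun q : Ω => (Quotient.mk'' q : MulAction.orbitRel.Quotient E Ω) = Quotient.mk'' q0) = {q0} := by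
      ext q
      simp only [mem_filter, mem_univ, true_and, mem_singleton]
      rw [Quotient.eq'', MulAction.orbitRel_apply, MulAction.mem_orbit_iff]
      constructor
      · rintro ⟨e, rfl⟩; exact hq0 e
      · rintro rfl; exact ⟨1, one_smul _ _⟩
    rw [this, prod_singleton]
  · intro ω _ hω
    induction ω using Quotient.inductionOn' with
    | h q =>
    refine orbit_prod_two hE F hF2 𝓕 h𝓕 h4 hidx q ?_ _ ?_
    · intro h
      apply hω
      rw [hq q h]
    · intro x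
      simp only [mem_filter, mem_univ, true_and]
      rw [Quotient.eq'', MulAction.orbitRel_apply, MulAction.mem_orbit_iff]
  · intro h; exact absurd (mem_univ _) h

end
end Cfsg.Agent.H2
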