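import Cfsg.Agent.L0.GenFit
import Cfsg.Agent.L0.Coprime2
import Cfsg.Agent.H2.Fpf
import Cfsg.Agent.H1.Basic
import Mathlib

set_option linter.all false
set_option autoImplicit false

/-! Cores of centralizers of elements. -/

namespace Cfsg.Agent.H2

open Cfsg.Agent.L0
open scoped commutatorElement

universe u

section
variable {H : Type u} [Group H] [Finite H]

theorem map_subtype_le_sup {p : ℕ} [hp : Fact p.Prime] : fittingSubgroup H ≤ pCore p H ⊔ pPrimeCore p H := by
  set F := fittingSubgroup H with hF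
  have hnil : Group.IsNilpotent F := fittingSubgroup_isNilpotent H
  have h1 : (pCore p F ⊔ pPrimeCore p F : Subgroup F) = ⊤ := by
    apply H1.eq_top_of_forall_sylow_le
    intro q hq
    obtain ⟨Q⟩ : Nonempty (Sylow q F) := inferInstance
    refine ⟨Q, ?_⟩
    have hQn : (Q : Subgroup F).Normal := isNilpotent_iff_sylow_normal.1 hnil q Q
    by_cases h : q = p
    · subst h
      exact le_trans (le_pCore Q.isPGroup') le_sup_left
    · refine le_trans (le_pPrimeCore ?_) le_sup_right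
      obtain ⟨k, hk⟩ := IsPGroup.iff_card.1 Q.isPGroup'
      have : Nat.card (Q : Subgroup F) = q ^ k := hk
      rw [this]
      exact Nat.Coprime.pow_left k ((Nat.coprime_primes hq.out hp.out).2 h)
  intro x hx
  have h2 : (⟨x, hx⟩ : F) ∈ (pCore p F ⊔ pPrimeCore p F : Subgroup F) := by rw [h1]; trivial
  have h3 : x ∈ (pCore p F ⊔ pPrimeCore p F : Subgroup F).map F.subtype := ⟨_, h2, rfl⟩
  rw [Subgroup.map_sup] at h3
  exact (sup_le_sup (pCore_subgroup_le p F) (pPrimeCore_subgroup_le p F)) h3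

theorem le_pPrimeCore_of_le_fitting {p : ℕ} [hp : Fact p.Prime] {D : Subgroup H} (hD : D ≤ fittingSubgroup H)
    (hc : (Nat.card D).Coprime p) : D ≤ pPrimeCore p H := by
  intro d hd
  have h1 := map_subtype_le_sup (p := p) (hD hd)
  have h2 : QuotientGroup.mk' (pPrimeCore p H) d ∈ (pCore p H).map (QuotientGroup.mk' (pPrimeCore p H)) := by
    have h3 : QuotientGroup.mk' (pPrimeCore p H) d ∈ (pCore p H ⊔ pPrimeCore p H).map (QuotientGroup.mk' (pPrimeCore p H)) :=
      ⟨d, h1, rfl⟩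
    rw [Subgroup.map_sup] at h3
    have h4 : (pPrimeCore p H).map (QuotientGroup.mk' (pPrimeCore p H)) = ⊥ := by
      rw [Subgroup.map_eq_bot_iff, QuotientGroup.ker_mk']
    rwa [h4, sup_bot_eq] at h3
  have h5 : IsPGroup p ((pCore p H).map (QuotientGroup.mk' (pPrimeCore p H))) := IsPGroup.map (pCore_isPGroup p H) _
  obtain ⟨k, hk⟩ := h5 ⟨_, h2⟩
  have h6 : (QuotientGroup.mk' (pPrimeCore p H) d) ^ p ^ k = 1 := congrArg Subtype.val hk
  have h7 : orderOf (QuotientGroup.mk' (pPrimeCore p H) d) ∣ p ^ k := orderOf_dvd_of_pow_eq_one h6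
  have h8 : orderOf (QuotientGroup.mk' (pPrimeCore p H) d) ∣ Nat.card D := by
    refine dvd_trans (orderOf_map_dvd _ d) ?_
    have := orderOf_dvd_natCard (⟨d, hd⟩ : D)
    rwa [Subgroup.orderOf_mk] at this
  have h9 : orderOf (QuotientGroup.mk' (pPrimeCore p H) d) = 1 :=
    Nat.eq_one_of_dvd_coprimes (Nat.Coprime.pow_right k hc) h8 h7
  rw [orderOf_eq_one_iff] at h9
  exact (QuotientGroup.eq_one_iff d).1 h9

/-- A `p'`-subgroup centralized by a `p`-element `y` and normalized by `C(y)` centralizes `O_p(H)`. -/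
theorem comm_pCore_of_centralizer {p : ℕ} [hp : Fact p.Prime] (y : H) (k : ℕ) (hy : y ^ p ^ k = 1) (D : Subgroup H)
    (hD : (Nat.card D).Coprime p) (hDy : ∀ d ∈ D, d * y = y * d)
    (hn : ∀ c, c * y = y * c → ∀ d ∈ D, c * d * c⁻¹ ∈ D) : ⁅pCore p H, D⁆ = ⊥ := by
  have hnorm : Subgroup.normalizer (pCore p H : Set H) = ⊤ := Subgroup.normalizer_eq_top_iff.2 inferInstance
  apply axb_lemma (B := Subgroup.zpowers y) (p := p)
  · rw [hnorm]; exact le_top
  · rw [hnorm]; exact le_top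
  · exact pCore_isPGroup p H
  · rw [IsPGroup.iff_card]
    obtain ⟨j, _, hj⟩ := (Nat.dvd_prime_pow hp.out).1 (orderOf_dvd_of_pow_eq_one hy)
    exact ⟨j, by rw [Nat.card_zpowers]; exact hj⟩
  · exact hD
  · intro a ha b hb
    obtain ⟨i, rfl⟩ := Subgroup.mem_zpowers_iff.1 hb
    exact (Commute.zpow_right (hDy a ha) i)
  · intro t ht
    rw [Subgroup.mem_centralizer_iff]
    intro d hd
    have htc : t * y = y * t := (Subgroup.mem_centralizer_iff.1 ht.2 y (Subgroup.mem_zpowers y)).symm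
    have h1 : t * d * t⁻¹ * d⁻¹ ∈ D := D.mul_mem (hn t htc d hd) (D.inv_mem hd)
    have h2 : t * d * t⁻¹ * d⁻¹ ∈ pCore p H := by
      have : t * d * t⁻¹ * d⁻¹ = t * (d * t⁻¹ * d⁻¹) := by group
      rw [this]
      exact (pCore p H).mul_mem ht.1 (Subgroup.Normal.conj_mem inferInstance _ ((pCore p H).inv_mem ht.1) d)
    have h3 : D ⊓ pCore p H = ⊥ := by
      apply Subgroup.inf_eq_bot_of_coprime
      obtain ⟨j, hj⟩ := IsPGroup.iff_card.1 (pCore_isPGroup p H)
      rw [hj]; exact Nat.Coprime.pow_right j hD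
    have h4 : t * d * t⁻¹ * d⁻¹ ∈ D ⊓ pCore p H := ⟨h1, h2⟩
    rw [h3, Subgroup.mem_bot] at h4
    have h5 : t * d = d * t := by
      rw [mul_inv_eq_one, mul_inv_eq_iff_eq_mul] at h4
      exact h4
    exact h5.symm

end

end Cfsg.Agent.H2
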