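import Cfsg.Agent.H2.PStabQ2

set_option autoImplicit false
set_option linter.unusedSectionVars false
set_option linter.unusedVariables false
set_option linter.style.haveILetI false
open Cfsg
open scoped commutatorElement

/-! `p`-stability (normalizer form) passes to quotients by normal `p`-subgroups centralized by all `p'`-elements,
for all odd `p` (helper2). -/

namespace Cfsg.Agent.H2
open Cfsg.Agent.H6 Matrix

universe u

section
variable {p : ℕ} [hp : Fact p.Prime]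

set_option maxHeartbeats 1000000 in
/-- **the configuration excluded by `p`-stability** -/
theorem no_config' (hp2 : p ≠ 2) {G : Type*} [Group G] [Finite G] (hst : IsNormalizerPStable p G)
    (Q X : Subgroup G) (hQ : IsPGroup p ↥Q)
    (φ : X →* SpecialLinearGroup (Fin 2) (ZMod p)) (hφ : Function.Surjective φ)
    (π : Q →* Multiplicative (Fin 2 → ZMod p)) (hπ : Function.Surjective π)
    (hact : ∀ (l : X) (w : Q), ∃ hw : (l : G) * w * (l : G)⁻¹ ∈ Q, π ⟨(l : G) * w * (l : G)⁻¹, hw⟩ =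
      Multiplicative.ofAdd ((φ l : Matrix (Fin 2) (Fin 2) (ZMod p)).mulVec (Multiplicative.toAdd (π w))))
    (hcent : ∀ x ∈ X, (orderOf x).Coprime p → ∀ q : Q, π q = 1 → x * q = q * x) : False := by
  classical
  have h2 := two_ne_zero' (p := p) hp2
  have hpodd : Odd p := hp.out.odd_of_ne_two hp2
  have hXQ : X ≤ Subgroup.normalizer (Q : Set G) := by
    intro x hx
    apply mem_norm_of_conj
    intro q hq
    exact (hact ⟨x, hx⟩ ⟨q, hq⟩).1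
  set Q1 : Subgroup G := π.ker.map Q.subtype with hQ1
  have mQ1 : ∀ n, n ∈ Q1 ↔ ∃ h : n ∈ Q, π ⟨n, h⟩ = 1 := by
    intro n
    constructor
    · rintro ⟨w, hw, rfl⟩
      exact ⟨w.2, hw⟩
    · rintro ⟨h, h1⟩
      exact ⟨⟨n, h⟩, h1, rfl⟩
  have hQ1Q : Q1 ≤ Q := Subgroup.map_subtype_le _
  have hXQ1 : ∀ x ∈ X, (orderOf x).Coprime p → ∀ c ∈ Q1, x * c = c * x := by
    intro x hx hxp c hc
    obtain ⟨h, h1⟩ := (mQ1 c).1 hc
    exact hcent x hx hxp ⟨c, h⟩ h1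
  have hXQ1n : X ≤ Subgroup.normalizer (Q1 : Set G) := by
    intro x hx
    apply mem_norm_of_conj
    intro c hc
    obtain ⟨h, h1⟩ := (mQ1 c).1 hc
    obtain ⟨hw, he⟩ := hact ⟨x, hx⟩ ⟨c, h⟩
    refine (mQ1 _).2 ⟨hw, ?_⟩
    rw [he, h1]; simp
  have hQ1n : ∀ q ∈ Q, ∀ c ∈ Q1, q⁻¹ * c * q ∈ Q1 := by
    intro q hq c hc
    obtain ⟨h, h1⟩ := (mQ1 c).1 hc
    refine (mQ1 _).2 ⟨Q.mul_mem (Q.mul_mem (Q.inv_mem hq) h) hq, ?_⟩
    have : (⟨q⁻¹ * c * q, Q.mul_mem (Q.mul_mem (Q.inv_mem hq) h) hq⟩ : Q) = (⟨q, hq⟩ : Q)⁻¹ * ⟨c, h⟩ * ⟨q, hq⟩ := rfl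
    rw [this, map_mul, map_mul, h1, map_inv, mul_one, inv_mul_cancel]
  set Q0 : Subgroup G := Q ⊓ Subgroup.centralizer (Q1 : Set G) with hQ0
  have hQ0Q : Q0 ≤ Q := inf_le_left
  have hQ0c : ∀ a ∈ Q0, ∀ c ∈ Q1, a * c = c * a := by
    intro a ha c hc
    exact (Subgroup.mem_centralizer_iff.1 ha.2 c hc).symm
  have hXQ0 : X ≤ Subgroup.normalizer (Q0 : Set G) := le_norm_inf hXQ (le_norm_centralizer hXQ1n)
  -- commutators lie in `Q0`
  have hcomm : ∀ x ∈ X, (orderOf x).Coprime p → ∀ q ∈ Q, x * q * x⁻¹ * q⁻¹ ∈ Q0 := by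
    intro x hx hxp q hq
    refine ⟨Q.mul_mem ((Subgroup.mem_normalizer_iff.1 (hXQ hx) q).1 hq) (Q.inv_mem hq), Subgroup.mem_centralizer_iff.2 ?_⟩
    intro c hc
    have h7 : x * (q⁻¹ * c * q) * x⁻¹ = q⁻¹ * c * q := by
      have := hXQ1 x hx hxp _ (hQ1n q hq c hc)
      rw [this]; group
    have h8 : x * c * x⁻¹ = c := by rw [hXQ1 x hx hxp c hc]; group
    calc c * (x * q * x⁻¹ * q⁻¹) = (x * c * x⁻¹) * (x * q * x⁻¹ * q⁻¹) := by rw [h8]
      _ = x * q * (q⁻¹ * c * q) * x⁻¹ * q⁻¹ := by group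
      _ = x * q * (x⁻¹ * (x * (q⁻¹ * c * q) * x⁻¹)) * q⁻¹ := by group
      _ = x * q * (x⁻¹ * (q⁻¹ * c * q)) * q⁻¹ := by rw [h7]
      _ = x * q * x⁻¹ * q⁻¹ * c := by group
  -- action in additive form
  have hpi : ∀ (x : G) (hx : x ∈ X) (q : G) (hq : q ∈ Q) (h : x * q * x⁻¹ ∈ Q),
      Multiplicative.toAdd (π ⟨x * q * x⁻¹, h⟩) = (φ ⟨x, hx⟩ : Matrix (Fin 2) (Fin 2) (ZMod p)).mulVec
        (Multiplicative.toAdd (π ⟨q, hq⟩)) := by
    intro x hx q hq h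
    obtain ⟨hw, he⟩ := hact ⟨x, hx⟩ ⟨q, hq⟩
    exact congrArg Multiplicative.toAdd he
  -- a Sylow `2`-subgroup of the preimage of the centre
  have hm1c : ∀ A : SpecialLinearGroup (Fin 2) (ZMod p), A * (-1) * A⁻¹ = -1 := by
    intro A; simp
  set Z : Subgroup X := (Subgroup.zpowers (-1 : SpecialLinearGroup (Fin 2) (ZMod p))).comap φ with hZ
  have hzp : ∀ A ∈ Subgroup.zpowers (-1 : SpecialLinearGroup (Fin 2) (ZMod p)), A = 1 ∨ A = -1 := by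
    rintro _ ⟨k, rfl⟩
    rcases Int.even_or_odd k with h | h
    · left; simp [h.neg_one_zpow]
    · right; simp [h.neg_one_zpow]
  haveI hZn : Z.Normal := by
    constructor
    intro n hn g
    rw [hZ, Subgroup.mem_comap] at hn ⊢
    rw [map_mul, map_mul, map_inv]
    rcases hzp _ hn with h | h
    · rw [h]; simp
    · rw [h, hm1c]; exact Subgroup.mem_zpowers _
  obtain ⟨t0, ht0, k0, htk⟩ : ∃ t : X, φ t = -1 ∧ ∃ k, t ^ 2 ^ k = 1 := by
    obtain ⟨n, hn⟩ := hφ (-1)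
    obtain ⟨k, m, hm, hkm⟩ := Nat.exists_eq_two_pow_mul_odd (n := Nat.card X) Nat.card_pos.ne'
    refine ⟨n ^ m, ?_, k, ?_⟩
    · rw [map_pow, hn, hm.neg_one_pow]
    · rw [← pow_mul, mul_comm, ← hkm]
      exact pow_card_eq_one'
  have ht0Z : t0 ∈ Z := by rw [hZ, Subgroup.mem_comap, ht0]; exact Subgroup.mem_zpowers _
  obtain ⟨T, hT⟩ : ∃ T : Sylow 2 Z, Subgroup.zpowers (⟨t0, ht0Z⟩ : Z) ≤ T := by
    apply IsPGroup.exists_le_sylow
    rintro ⟨x, j, hx⟩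
    refine ⟨k0, ?_⟩
    apply Subtype.ext
    simp only [SubmonoidClass.coe_pow, Subgroup.coe_one]
    rw [← hx]
    show ((⟨t0, ht0Z⟩ : Z) ^ j) ^ 2 ^ k0 = 1
    rw [← zpow_natCast, ← _root_.zpow_mul, mul_comm, _root_.zpow_mul, zpow_natCast]
    have : (⟨t0, ht0Z⟩ : Z) ^ 2 ^ k0 = 1 := Subtype.ext htk
    rw [this, _root_.one_zpow]
  have htT : t0 ∈ (T : Subgroup Z).map Z.subtype :=
    ⟨⟨t0, ht0Z⟩, hT (Subgroup.mem_zpowers _), rfl⟩
  have hFr := Sylow.normalizer_sup_eq_top T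
  set M1 := Subgroup.normalizer ((T : Subgroup Z).map Z.subtype : Set X) with hM1
  have hM1s : ∀ A, ∃ y ∈ M1, φ y = A := by
    intro A
    obtain ⟨n, hn⟩ := hφ A
    have h1 : n ∈ Subgroup.normalizer ((T : Subgroup Z).map Z.subtype : Set X) ⊔ Z := by rw [hFr]; trivial
    obtain ⟨a, ha, z, hz, haz⟩ := Subgroup.mem_sup_of_normal_right.mp h1
    have h3 : A = φ a * φ z := by rw [← hn, ← haz, map_mul]
    rcases hzp _ hz with h | h
    · exact ⟨a, ha, by rw [h3, h, mul_one]⟩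
    · refine ⟨a * t0, Subgroup.mul_mem _ ha (Subgroup.le_normalizer htT), ?_⟩
      rw [map_mul, h3, h, ht0]
  -- an element over the transvection normalizing `T`
  obtain ⟨y, hyN, hyu⟩ := hM1s (uz 1)
  have hTp : ∀ s ∈ (T : Subgroup Z).map Z.subtype, ∃ k, s ^ 2 ^ k = 1 := by
    intro s hsT
    obtain ⟨s', hs', hs2⟩ := hsT
    obtain ⟨k, hk⟩ := T.2 ⟨s', hs'⟩
    refine ⟨k, ?_⟩
    rw [← hs2, ← map_pow]
    have := congrArg Subtype.val hk
    simp only [SubmonoidClass.coe_pow, Subgroup.coe_one] at this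
    rw [this, map_one]
  have htwo : ∀ s : X, (∃ k, s ^ 2 ^ k = 1) → (orderOf (s : G)).Coprime p := by
    rintro s ⟨k, hk⟩
    have h1 : orderOf (s : G) ∣ 2 ^ k := by
      rw [Subgroup.orderOf_coe]; exact orderOf_dvd_of_pow_eq_one hk
    exact Nat.Coprime.coprime_dvd_left h1 (Nat.Coprime.pow_left _ (Nat.coprime_two_left.mpr hpodd))
  -- odd order elements
  have hodd : ∀ z ∈ Q, ∀ k : ℕ, z ^ 2 ^ k = 1 → z = 1 := by
    intro z hz k hk
    obtain ⟨j, hj⟩ := hQ ⟨z, hz⟩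
    have hj' : z ^ p ^ j = 1 := congrArg Subtype.val hj
    rw [← orderOf_eq_one_iff]
    apply Nat.eq_one_of_dvd_coprimes (a := p ^ j) (b := 2 ^ k)
    · exact Nat.Coprime.pow _ _ (Nat.coprime_two_right.mpr hpodd)
    · exact orderOf_dvd_of_pow_eq_one hj'
    · exact orderOf_dvd_of_pow_eq_one hk
  -- elements of `T` in the kernel centralize `Q`
  have hsQ : ∀ s ∈ (T : Subgroup Z).map Z.subtype, φ s = 1 → ∀ a ∈ Q, (s : G) * a * (s : G)⁻¹ = a := by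
    intro s hsT hφs a ha
    have hsp := htwo s (hTp s hsT)
    have h1 : (s : G) * a * (s : G)⁻¹ ∈ Q := (Subgroup.mem_normalizer_iff.1 (hXQ s.2) a).1 ha
    set z : G := (s : G) * a * (s : G)⁻¹ * a⁻¹ with hz
    have hzQ : z ∈ Q := Q.mul_mem h1 (Q.inv_mem ha)
    have hz1 : z ∈ Q1 := by
      refine (mQ1 z).2 ⟨hzQ, ?_⟩
      have h3 : (⟨z, hzQ⟩ : Q) = ⟨_, h1⟩ * (⟨a, ha⟩ : Q)⁻¹ := rfl
      have h4 := hpi s s.2 a ha h1
      have h5 : φ ⟨(s : G), s.2⟩ = 1 := hφs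
      rw [h5, slm_one] at h4
      rw [h3, map_mul, map_inv, mul_inv_eq_one]
      exact Multiplicative.toAdd.injective h4
    have h6 := centralizes_of_chain hQ hsp hzQ (hXQ1 s s.2 hsp z hz1)
    rw [h6]; group
  -- abbreviations
  have ht0X := t0.2
  set t : G := (t0 : G) with ht
  have htp : (orderOf t).Coprime p := htwo t0 ⟨k0, htk⟩
  set u : G := (y : G) with hu
  have huX : u ∈ X := y.2
  have hnt : ∀ n ∈ M1, ∀ a ∈ Q, t * (n * a * (n : G)⁻¹) * t⁻¹ = n * (t * a * t⁻¹) * (n : G)⁻¹ := by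
    intro n hn a ha
    set s : X := n * t0 * n⁻¹ * t0⁻¹ with hs
    have hsT : s ∈ (T : Subgroup Z).map Z.subtype :=
      Subgroup.mul_mem _ ((Subgroup.mem_normalizer_iff.mp hn t0).mp htT) (Subgroup.inv_mem _ htT)
    have hφs : φ s = 1 := by
      rw [hs, map_mul, map_mul, map_mul, map_inv, map_inv, ht0, hm1c]; simp
    have h1 : t * a * t⁻¹ ∈ Q := (Subgroup.mem_normalizer_iff.1 (hXQ ht0X) a).1 ha
    have h4 : (n : G) * t = s * (t * n) := by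
      have : (s : G) = n * t * (n : G)⁻¹ * t⁻¹ := by rw [hs]; rfl
      rw [this]; group
    have h5 : t * (n * a * (n : G)⁻¹) * t⁻¹ ∈ Q :=
      (Subgroup.mem_normalizer_iff.1 (hXQ ht0X) _).1 ((Subgroup.mem_normalizer_iff.1 (hXQ n.2) a).1 ha)
    have h6 := hsQ s hsT hφs _ h5
    calc t * (n * a * (n : G)⁻¹) * t⁻¹ = s * (t * (n * a * (n : G)⁻¹) * t⁻¹) * (s : G)⁻¹ := h6.symm
      _ = (s * (t * n)) * a * (s * (t * n))⁻¹ := by group
      _ = n * (t * a * t⁻¹) * (n : G)⁻¹ := by rw [← h4]; group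
  have hut : ∀ a ∈ Q, t * (u * a * u⁻¹) * t⁻¹ = u * (t * a * t⁻¹) * u⁻¹ := hnt y hyN
  -- uniqueness of inverted elements
  have huniq : ∀ e ∈ Q0, ∀ f ∈ Q0, t * e * t⁻¹ = e⁻¹ → t * f * t⁻¹ = f⁻¹ →
      (∀ (he : e ∈ Q) (hf : f ∈ Q), π ⟨e, he⟩ = π ⟨f, hf⟩) → e = f := by
    intro e he f hf h1 h3 h4
    set z := e⁻¹ * f with hz
    have hz1 : z ∈ Q1 := by
      refine (mQ1 z).2 ⟨Q.mul_mem (Q.inv_mem he.1) hf.1, ?_⟩
      have : (⟨z, Q.mul_mem (Q.inv_mem he.1) hf.1⟩ : Q) = (⟨e, he.1⟩ : Q)⁻¹ * ⟨f, hf.1⟩ := rfl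
      rw [this, map_mul, map_inv, h4 he.1 hf.1, inv_mul_cancel]
    have hf' : f = e * z := by rw [hz]; group
    have h5 := hXQ1 t ht0X htp z hz1
    have h6 : e * z = z * e := hQ0c e he z hz1
    have h7 : t * f * t⁻¹ = e⁻¹ * z := by
      rw [hf']
      calc t * (e * z) * t⁻¹ = (t * e * t⁻¹) * (t * z * t⁻¹) := by group
        _ = e⁻¹ * z := by rw [h1, h5]; group
    rw [h3, hf', _root_.mul_inv_rev] at h7
    have h8 : z * z = 1 := by
      have h9 : z⁻¹ * e⁻¹ = e⁻¹ * z⁻¹ := by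
        have := congrArg Inv.inv h6
        simpa [_root_.mul_inv_rev] using this
      rw [h9] at h7
      have h10 : z⁻¹ = z := mul_left_cancel h7
      calc z * z = z⁻¹ * z := by rw [h10]
        _ = 1 := inv_mul_cancel z
    have h11 := hodd z (hQ1Q hz1) 1 (by rw [pow_one, pow_two]; exact h8)
    rw [hf', h11, mul_one]
  -- `Q0` maps onto the natural module
  have hcen : ∀ a ∈ Q0, ∀ z ∈ Q1, a * z = z * a := hQ0c
  have hsur0 : ∀ v : Fin 2 → ZMod p, ∃ q, ∃ h : q ∈ Q0, Multiplicative.toAdd (π ⟨q, h.1⟩) = v := by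
    intro v
    obtain ⟨q, hq⟩ := hπ (Multiplicative.ofAdd (-(2⁻¹ : ZMod p) • v))
    have hcQ := hcomm t ht0X htp q q.2
    have htq : t * q * t⁻¹ ∈ Q := (Subgroup.mem_normalizer_iff.1 (hXQ ht0X) q).1 q.2
    refine ⟨t * q * t⁻¹ * (q : G)⁻¹, hcQ, ?_⟩
    have e1 : (⟨t * q * t⁻¹ * (q : G)⁻¹, hcQ.1⟩ : Q) = ⟨t * q * t⁻¹, htq⟩ * (q : Q)⁻¹ := rfl
    have e2 := hpi t ht0X q q.2 htq
    have e3 : φ ⟨t, ht0X⟩ = -1 := ht0
    rw [e3, slm_neg_one] at e2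
    have e4 : (⟨(q : G), q.2⟩ : Q) = q := rfl
    rw [e4, hq] at e2
    rw [e1, map_mul, map_inv, toAdd_mul, toAdd_inv, e2, hq, toAdd_ofAdd]
    ext i
    simp only [Pi.add_apply, Pi.neg_apply, Pi.smul_apply, smul_eq_mul]
    field_simp
    ring
  obtain ⟨b0, hb0, hπ0⟩ := hsur0 ![1, 0]
  obtain ⟨b1, hb1, hπ1⟩ := hsur0 ![0, 1]
  have hmem1 : ∀ a ∈ Q0, ∀ b ∈ Q0, (∀ (h1 : a ∈ Q) (h2 : b ∈ Q), π ⟨a, h1⟩ = π ⟨b, h2⟩) → ∃ z ∈ Q1, z ∈ Q0 ∧ a = b * z := by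
    intro a ha b hb h
    refine ⟨b⁻¹ * a, (mQ1 _).2 ⟨Q.mul_mem (Q.inv_mem hb.1) ha.1, ?_⟩, Q0.mul_mem (Q0.inv_mem hb) ha, by group⟩
    have : (⟨b⁻¹ * a, Q.mul_mem (Q.inv_mem hb.1) ha.1⟩ : Q) = (⟨b, hb.1⟩ : Q)⁻¹ * ⟨a, ha.1⟩ := rfl
    rw [this, map_mul, map_inv, h ha.1 hb.1, inv_mul_cancel]
  have hgen : ∀ (A : Subgroup G), b0 ∈ A → b1 ∈ A → (∀ z ∈ Q0, z ∈ Q1 → z ∈ A) → Q0 ≤ A := by
    intro A h0 h1 hz a ha
    set v := Multiplicative.toAdd (π ⟨a, ha.1⟩) with hv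
    obtain ⟨z, hz1, hz0, hab⟩ := hmem1 a ha (b0 ^ (v 0).val * b1 ^ (v 1).val)
      (Q0.mul_mem (Q0.pow_mem hb0 _) (Q0.pow_mem hb1 _)) (by
        intro h2 h3
        apply Multiplicative.toAdd.injective
        have e1 : (⟨b0 ^ (v 0).val * b1 ^ (v 1).val, h3⟩ : Q) = ⟨b0, hb0.1⟩ ^ (v 0).val * ⟨b1, hb1.1⟩ ^ (v 1).val := rfl
        rw [e1, map_mul, map_pow, map_pow, toAdd_mul, toAdd_pow, toAdd_pow, hπ0, hπ1, ← hv]
        ext i
        fin_cases i <;> simp)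
    rw [hab]
    exact A.mul_mem (A.mul_mem (A.pow_mem h0 _) (A.pow_mem h1 _)) (hz z hz0 hz1)
  have hcmem : ∀ a ∈ Q0, ∀ b ∈ Q0, ⁅a, b⁆ ∈ Q1 := by
    intro a ha b hb
    refine (mQ1 _).2 ⟨?_, ?_⟩
    · rw [_root_.commutatorElement_def]
      exact Q.mul_mem (Q.mul_mem (Q.mul_mem ha.1 hb.1) (Q.inv_mem ha.1)) (Q.inv_mem hb.1)
    · have : ∀ h : ⁅a, b⁆ ∈ Q, (⟨⁅a, b⁆, h⟩ : Q) = ⁅(⟨a, ha.1⟩ : Q), ⟨b, hb.1⟩⁆ := fun h => rfl
      rw [this, map_commutatorElement, commutatorElement_eq_one_iff_mul_comm, mul_comm]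
  set Fx : Subgroup G := Subgroup.centralizer {u} with hFx
  have mFx : ∀ g : G, g ∈ Fx ↔ u * g * u⁻¹ = g := by
    intro g
    rw [hFx, Subgroup.mem_centralizer_iff]
    constructor
    · intro h
      have := h u rfl
      rw [this]; group
    · intro h z hz
      rw [Set.mem_singleton_iff] at hz
      rw [hz]
      calc u * g = (u * g * u⁻¹) * u := by group
        _ = g * u := by rw [h]
  -- bilinearity of central commutators
  have hmulr : ∀ a ∈ Q0, ∀ b ∈ Q0, ∀ c ∈ Q0, ⁅a, b * c⁆ = ⁅a, b⁆ * ⁅a, c⁆ := by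
    intro a ha b hb c hc
    have h1 := hcen b hb _ (hcmem a ha c hc)
    calc ⁅a, b * c⁆ = ⁅a, b⁆ * (b * ⁅a, c⁆ * b⁻¹) := by
          simp only [_root_.commutatorElement_def]; group
      _ = ⁅a, b⁆ * ⁅a, c⁆ := by rw [h1]; group
  have hinvr : ∀ a ∈ Q0, ∀ b ∈ Q0, ⁅a, b⁻¹⁆ = ⁅a, b⁆⁻¹ := by
    intro a ha b hb
    have h1 := hmulr a ha b hb b⁻¹ (Q0.inv_mem hb)
    rw [mul_inv_cancel, _root_.commutatorElement_one_right] at h1
    exact (inv_eq_of_mul_eq_one_right h1.symm).symm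
  let Aa : ∀ a : G, a ∈ Q0 → Subgroup G := fun a ha =>
    { carrier := {b | b ∈ Q0 ∧ ⁅a, b⁆ ∈ Fx}
      mul_mem' := by
        rintro b c ⟨hb, hb'⟩ ⟨hc, hc'⟩
        refine ⟨Q0.mul_mem hb hc, ?_⟩
        rw [hmulr a ha b hb c hc]
        exact Fx.mul_mem hb' hc'
      one_mem' := ⟨Q0.one_mem, by rw [_root_.commutatorElement_one_right]; exact Fx.one_mem⟩
      inv_mem' := by
        rintro b ⟨hb, hb'⟩
        refine ⟨Q0.inv_mem hb, ?_⟩
        rw [hinvr a ha b hb]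
        exact Fx.inv_mem hb' }
  have mAa : ∀ a (ha : a ∈ Q0) b, b ∈ Aa a ha ↔ b ∈ Q0 ∧ ⁅a, b⁆ ∈ Fx := fun a ha b => Iff.rfl
  have hsymm : ∀ a b : G, ⁅a, b⁆ ∈ Fx → ⁅b, a⁆ ∈ Fx := by
    intro a b h
    rw [← _root_.commutatorElement_inv]; exact Fx.inv_mem h
  have hzA : ∀ a (ha : a ∈ Q0), ∀ z ∈ Q0, z ∈ Q1 → z ∈ Aa a ha := by
    intro a ha z hz hz1
    refine ⟨hz, ?_⟩
    have : ⁅a, z⁆ = 1 := commutatorElement_eq_one_iff_mul_comm.2 (hcen a ha z hz1)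
    rw [this]; exact Fx.one_mem
  have hselfA : ∀ a (ha : a ∈ Q0), a ∈ Aa a ha := by
    intro a ha
    refine ⟨ha, ?_⟩
    have : ⁅a, a⁆ = 1 := commutatorElement_eq_one_iff_mul_comm.2 rfl
    rw [this]; exact Fx.one_mem
  have hb01 : ⁅b0, b1⁆ ∈ Fx := by
    have hu0 : u * b0 * u⁻¹ ∈ Q0 := (Subgroup.mem_normalizer_iff.1 (hXQ0 huX) b0).1 hb0
    have hu1 : u * b1 * u⁻¹ ∈ Q0 := (Subgroup.mem_normalizer_iff.1 (hXQ0 huX) b1).1 hb1
    have e4 : φ ⟨u, huX⟩ = uz 1 := hyu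
    obtain ⟨z0, hz0, hz00, e0⟩ := hmem1 _ hu0 b0 hb0 (by
      intro h1 h2
      apply Multiplicative.toAdd.injective
      have := hpi u huX b0 hb0.1 h1
      rw [e4, uz_mulVec, hπ0] at this
      rw [this]
      have h3 : Multiplicative.toAdd (π ⟨b0, h2⟩) = ![1, 0] := hπ0
      rw [h3]; ext i; fin_cases i <;> simp)
    obtain ⟨z1, hz1, hz10, e1⟩ := hmem1 _ hu1 (b0 * b1) (Q0.mul_mem hb0 hb1) (by
      intro h1 h2
      apply Multiplicative.toAdd.injective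
      have := hpi u huX b1 hb1.1 h1
      rw [e4, uz_mulVec, hπ1] at this
      rw [this]
      have h3 : (⟨b0 * b1, h2⟩ : Q) = ⟨b0, hb0.1⟩ * ⟨b1, hb1.1⟩ := rfl
      rw [h3, map_mul, toAdd_mul, hπ0, hπ1]; ext i; fin_cases i <;> simp)
    rw [mFx]
    have h1 : u * ⁅b0, b1⁆ * u⁻¹ = ⁅u * b0 * u⁻¹, u * b1 * u⁻¹⁆ := by
      simp only [_root_.commutatorElement_def]; group
    rw [h1, e0, e1]
    have hz0c : ∀ a ∈ Q0, a * z0 = z0 * a := fun a ha => hcen a ha z0 hz0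
    have h2 : ⁅b0 * z0, b0 * b1 * z1⁆ = ⁅b0, b0 * b1 * z1⁆ := by
      have h3 := hz0c _ (Q0.mul_mem (Q0.mul_mem hb0 hb1) hz10)
      have h4 : ⁅z0, b0 * b1 * z1⁆ = 1 := commutatorElement_eq_one_iff_mul_comm.2 h3.symm
      calc ⁅b0 * z0, b0 * b1 * z1⁆ = b0 * ⁅z0, b0 * b1 * z1⁆ * b0⁻¹ * ⁅b0, b0 * b1 * z1⁆ := by
            simp only [_root_.commutatorElement_def]; group
        _ = _ := by rw [h4]; group
    rw [h2, hmulr b0 hb0 _ (Q0.mul_mem hb0 hb1) z1 hz10, hmulr b0 hb0 b0 hb0 b1 hb1]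
    have h3 : ⁅b0, b0⁆ = 1 := commutatorElement_eq_one_iff_mul_comm.2 rfl
    have h4 : ⁅b0, z1⁆ = 1 := commutatorElement_eq_one_iff_mul_comm.2 (hcen b0 hb0 z1 hz1)
    rw [h3, h4, one_mul, mul_one]
  have hA0 : Q0 ≤ Aa b0 hb0 := hgen _ (hselfA b0 hb0) ⟨hb1, hb01⟩ (hzA b0 hb0)
  have hA1 : Q0 ≤ Aa b1 hb1 := hgen _ ⟨hb0, hsymm _ _ hb01⟩ (hselfA b1 hb1) (hzA b1 hb1)
  have hAfix : ∀ a ∈ Q0, ∀ b ∈ Q0, ⁅a, b⁆ ∈ Fx := by
    intro a ha b hb
    have h1 : Q0 ≤ Aa a ha := hgen _ ⟨hb0, hsymm _ _ (hA0 ha).2⟩ ⟨hb1, hsymm _ _ (hA1 ha).2⟩ (hzA a ha)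
    exact (h1 hb).2
  -- quadratic action on inverted elements
  have hquad : ∀ b ∈ Q0, t * b * t⁻¹ = b⁻¹ → ⁅u, b⁆ ∈ Fx := by
    intro b hb hbt
    set b' := u * b * u⁻¹ with hb'
    set b'' := u * b' * u⁻¹ with hb''
    have hb'0 : b' ∈ Q0 := (Subgroup.mem_normalizer_iff.1 (hXQ0 huX) b).1 hb
    have hb''0 : b'' ∈ Q0 := (Subgroup.mem_normalizer_iff.1 (hXQ0 huX) b').1 hb'0
    have hb't : t * b' * t⁻¹ = b'⁻¹ := by
      rw [hb', hut b hb.1, hbt]; group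
    have hb''t : t * b'' * t⁻¹ = b''⁻¹ := by
      rw [hb'', hut b' hb'0.1, hb't]; group
    have hc : ⁅u, b⁆ = b' * b⁻¹ := by rw [_root_.commutatorElement_def, hb']
    rw [hc]
    set e := b' * b⁻¹ * b' with he
    have he0 : e ∈ Q0 := Q0.mul_mem (Q0.mul_mem hb'0 (Q0.inv_mem hb)) hb'0
    have het : t * e * t⁻¹ = e⁻¹ := by
      calc t * e * t⁻¹ = (t * b' * t⁻¹) * (t * b * t⁻¹)⁻¹ * (t * b' * t⁻¹) := by rw [he]; group
        _ = e⁻¹ := by rw [hb't, hbt, he]; group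
    have heq : e = b'' := by
      refine huniq e he0 b'' hb''0 het hb''t ?_
      intro h3 h4
      apply Multiplicative.toAdd.injective
      have e1 : π ⟨e, h3⟩ = π ⟨b', hb'0.1⟩ * (π ⟨b, hb.1⟩)⁻¹ * π ⟨b', hb'0.1⟩ := by
        rw [← map_inv, ← map_mul, ← map_mul]; rfl
      have e2 := hpi u huX b hb.1 hb'0.1
      have e3 := hpi u huX b' hb'0.1 h4
      have e4 : φ ⟨u, huX⟩ = uz 1 := hyu
      rw [e4] at e2 e3
      rw [e1, toAdd_mul, toAdd_mul, toAdd_inv]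
      have e3' : Multiplicative.toAdd (π ⟨b'', h4⟩) = _ := e3
      have e2' : Multiplicative.toAdd (π ⟨b', hb'0.1⟩) = _ := e2
      rw [e3', e2']
      generalize Multiplicative.toAdd (π ⟨b, hb.1⟩) = v
      rw [uz_mulVec, uz_mulVec]
      ext i
      fin_cases i
      · show (v 0 + v 1) + -(v 0) + (v 0 + v 1) = (v 0 + v 1) + v 1
        ring
      · show v 1 + -(v 1) + v 1 = v 1
        ring
    rw [mFx]
    calc u * (b' * b⁻¹) * u⁻¹ = b'' * (u * b * u⁻¹)⁻¹ := by rw [hb'']; group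
      _ = b' * b⁻¹ := by rw [← heq, ← hb', he]; group
  -- the subgroup generated by the inverted elements
  set I : Set G := {a | a ∈ Q0 ∧ t * a * t⁻¹ = a⁻¹} with hI
  set Q00 : Subgroup G := Subgroup.closure I with hQ00
  have hQ00Q0 : Q00 ≤ Q0 := by
    rw [hQ00, Subgroup.closure_le]; exact fun a ha => ha.1
  let Dq : Subgroup G :=
    { carrier := {a | a ∈ Q0 ∧ ⁅u, a⁆ ∈ Fx}
      mul_mem' := by
        rintro a b ⟨ha, ha'⟩ ⟨hb, hb'⟩
        refine ⟨Q0.mul_mem ha hb, ?_⟩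
        have hub : ⁅u, b⁆ ∈ Q0 := by
          rw [_root_.commutatorElement_def]
          exact Q0.mul_mem ((Subgroup.mem_normalizer_iff.1 (hXQ0 huX) b).1 hb) (Q0.inv_mem hb)
        have e : ⁅u, a * b⁆ = ⁅u, a⁆ * (⁅a, ⁅u, b⁆⁆ * ⁅u, b⁆) := by
          simp only [_root_.commutatorElement_def]; group
        rw [e]
        exact Fx.mul_mem ha' (Fx.mul_mem (hAfix a ha _ hub) hb')
      one_mem' := ⟨Q0.one_mem, by rw [_root_.commutatorElement_one_right]; exact Fx.one_mem⟩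
      inv_mem' := by
        rintro a ⟨ha, ha'⟩
        refine ⟨Q0.inv_mem ha, ?_⟩
        have hua : ⁅u, a⁆ ∈ Q0 := by
          rw [_root_.commutatorElement_def]
          exact Q0.mul_mem ((Subgroup.mem_normalizer_iff.1 (hXQ0 huX) a).1 ha) (Q0.inv_mem ha)
        have e : ⁅u, a⁻¹⁆ = ⁅a⁻¹, ⁅u, a⁆⁻¹⁆ * ⁅u, a⁆⁻¹ := by
          simp only [_root_.commutatorElement_def]; group
        rw [e]
        exact Fx.mul_mem (hAfix _ (Q0.inv_mem ha) _ (Q0.inv_mem hua)) (Fx.inv_mem ha') }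
  have hQ00D : Q00 ≤ Dq := by
    rw [hQ00, Subgroup.closure_le]
    exact fun a ha => ⟨ha.1, hquad a ha.1 ha.2⟩
  -- `M1` normalizes `Q00`
  have hM1N : ∀ n ∈ M1, (n : G) ∈ Subgroup.normalizer (Q00 : Set G) := by
    intro n hn
    apply mem_norm_of_conj
    intro a ha
    have h1 : Q00 ≤ Q00.comap (MulAut.conj (n : G)).toMonoidHom := by
      conv_lhs => rw [hQ00]
      rw [Subgroup.closure_le]
      rintro b ⟨hb, hbt⟩
      refine Subgroup.subset_closure ⟨?_, ?_⟩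
      · exact (Subgroup.mem_normalizer_iff.1 (hXQ0 n.2) b).1 hb
      · show t * (n * b * (n : G)⁻¹) * t⁻¹ = (n * b * (n : G)⁻¹)⁻¹
        rw [hnt n hn b hb.1, hbt]; group
    exact h1 ha
  have hq00 : ∀ a ∈ Q00, (u * a * u⁻¹ * a⁻¹) * u = u * (u * a * u⁻¹ * a⁻¹) := by
    intro a ha
    have h1 := (mFx _).1 (hQ00D ha).2
    rw [_root_.commutatorElement_def] at h1
    calc (u * a * u⁻¹ * a⁻¹) * u = (u * (u * a * u⁻¹ * a⁻¹) * u⁻¹) * u := by rw [h1]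
      _ = u * (u * a * u⁻¹ * a⁻¹) := by group
  have huN := hM1N y hyN
  have hst' := (normalizerPStable_iff.1 hst) Q00 (hQ.to_le (hQ00Q0.trans hQ0Q)) u huN (quad_of_elem huN hq00)
  obtain ⟨D, hD1, hD2, hD3, hD4, hD5⟩ := hst'
  -- the image in `SL(2, p)`
  let φ1 : M1 →* SpecialLinearGroup (Fin 2) (ZMod p) := φ.comp M1.subtype
  have hφ1 : Function.Surjective φ1 := by
    intro A
    obtain ⟨m, hm, hA⟩ := hM1s A
    exact ⟨⟨m, hm⟩, hA⟩
  set D1 : Subgroup M1 := (D.subgroupOf X).subgroupOf M1 with hD1'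
  have hD1n : D1.Normal := by
    constructor
    intro d hd x
    change ((x * d * x⁻¹ : M1) : X).1 ∈ D
    exact (Subgroup.mem_normalizer_iff.1 (hD3 (hM1N x x.2)) _).1 hd
  haveI hEn : (D1.map φ1).Normal := hD1n.map φ1 hφ1
  have hE1 : uz 1 ∈ D1.map φ1 := ⟨⟨y, hyN⟩, hD5, hyu⟩
  obtain ⟨d, hd, hdm⟩ := neg_one_mem_of_normal _ hE1
  obtain ⟨k, hk⟩ := hD4 (d : X) hd
  have hφd : φ ((d : X) ^ p ^ k) = -1 := by
    have : φ (d : X) = -1 := hdm
    rw [map_pow, this, (hpodd.pow : Odd (p ^ k)).neg_one_pow]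
  -- an inverted element outside `Q1`
  obtain ⟨c, hcI, hπc⟩ : ∃ c, ∃ h : c ∈ I, Multiplicative.toAdd (π ⟨c, h.1.1⟩) = fun _ => 1 := by
    obtain ⟨a, ha, hπa⟩ := hsur0 (fun _ => 1)
    have hta : t * a * t⁻¹ ∈ Q0 := (Subgroup.mem_normalizer_iff.1 (hXQ0 ht0X) a).1 ha
    set w := a * (t * a * t⁻¹) with hw
    have hwQ0 : w ∈ Q0 := Q0.mul_mem ha hta
    have hwQ : w ∈ Q := hQ0Q hwQ0
    have hw1 : w ∈ Q1 := by
      refine (mQ1 w).2 ⟨hwQ, ?_⟩
      have h3 : (⟨w, hwQ⟩ : Q) = (⟨a, ha.1⟩ : Q) * ⟨t * a * t⁻¹, hta.1⟩ := rfl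
      have h4 := hpi t ht0X a ha.1 hta.1
      have h5 : φ ⟨t, ht0X⟩ = -1 := ht0
      rw [h5, slm_neg_one] at h4
      rw [h3, map_mul]
      apply Multiplicative.toAdd.injective
      rw [toAdd_mul, h4, toAdd_one, add_neg_cancel]
    obtain ⟨j, hj⟩ := hQ ⟨w, hwQ⟩
    have hj' : w ^ p ^ j = 1 := congrArg Subtype.val hj
    obtain ⟨m, hm⟩ : Odd (p ^ j) := hpodd.pow
    set r := w ^ (m + 1) with hr
    have hrr : r * r = w := by
      rw [hr, ← pow_add]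
      have : m + 1 + (m + 1) = p ^ j + 1 := by omega
      rw [this, pow_succ, hj', one_mul]
    have hr1 : r ∈ Q1 := Q1.pow_mem hw1 _
    have hr0 : r ∈ Q0 := Q0.pow_mem hwQ0 _
    have h5 := hXQ1 t ht0X htp r hr1
    have h6 : a * r = r * a := hQ0c a ha r hr1
    have h7 : t * r⁻¹ * t⁻¹ = r⁻¹ := by
      have : t * r * t⁻¹ = r := by rw [h5]; group
      calc t * r⁻¹ * t⁻¹ = (t * r * t⁻¹)⁻¹ := by group
        _ = r⁻¹ := by rw [this]
    refine ⟨a * r⁻¹, ⟨Q0.mul_mem ha (Q0.inv_mem hr0), ?_⟩, ?_⟩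
    · calc t * (a * r⁻¹) * t⁻¹ = (t * a * t⁻¹) * (t * r⁻¹ * t⁻¹) := by group
        _ = a⁻¹ * w * r⁻¹ := by rw [h7, hw]; group
        _ = a⁻¹ * r := by rw [← hrr]; group
        _ = (a * r⁻¹)⁻¹ := by
          have h8 : r * a⁻¹ = a⁻¹ * r := by
            calc r * a⁻¹ = a⁻¹ * (a * r) * a⁻¹ := by group
              _ = a⁻¹ * r := by rw [h6]; group
          rw [_root_.mul_inv_rev, inv_inv, h8]
    · rw [← hπa]
      congr 1
      obtain ⟨h8, h9⟩ := (mQ1 r).1 hr1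
      have e1 : ∀ h : a * r⁻¹ ∈ Q, (⟨a * r⁻¹, h⟩ : Q) = ⟨a, ha.1⟩ * (⟨r, h8⟩ : Q)⁻¹ := fun h => rfl
      rw [e1, map_mul, map_inv, h9, inv_one, mul_one]
  have hcQ := hcI.1.1
  have h3 : (((d : X) ^ p ^ k : X) : G) * c * (((d : X) ^ p ^ k : X) : G)⁻¹ = c := by
    have := Subgroup.mem_centralizer_iff.1 hk c (Subgroup.subset_closure hcI)
    have e1 : (((d : X) ^ p ^ k : X) : G) = ((d : X) : G) ^ p ^ k := rfl
    rw [e1, ← this]; group
  have h4 := hpi _ ((d : X) ^ p ^ k).2 c hcQ (by rw [h3]; exact hcQ)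
  have h5 : (⟨(((d : X) ^ p ^ k : X) : G) * c * (((d : X) ^ p ^ k : X) : G)⁻¹, by rw [h3]; exact hcQ⟩ : Q) = ⟨c, hcQ⟩ :=
    Subtype.ext h3
  rw [h5, hπc] at h4
  have h6 : φ ⟨(((d : X) ^ p ^ k : X) : G), ((d : X) ^ p ^ k).2⟩ = -1 := hφd
  rw [h6, slm_neg_one] at h4
  have h7 := congrFun h4 0
  simp only [Pi.neg_apply] at h7
  have h9 : (2 : ZMod p) = 0 := by linear_combination h7
  exact h2 h9


set_option maxHeartbeats 1000000 in
/-- there are no bad pairs modulo `T` -/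
theorem no_badT' (hp2 : p ≠ 2) {G : Type u} [Group G] [Finite G] (hst : IsNormalizerPStable p G) (T : Subgroup G)
    (hcen : ∀ w : G, (orderOf w).Coprime p → w ∈ Subgroup.centralizer (T : Set G)) (Q0 : Subgroup G) :
    ¬ BadT p T Q0 := by
  classical
  intro hbad
  obtain ⟨Q, hQbad, hmin⟩ := (Set.toFinite {Q : Subgroup G | BadT p T Q}).exists_minimalFor
    (fun Q : Subgroup G => Nat.card Q) _ ⟨Q0, hbad⟩
  obtain ⟨hTQ, hQp, x, y, hx, hy, hqx, hqy, w, hwM, hwp, hwc⟩ := hQbad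
  set M := Subgroup.closure ({x, y} : Set G) with hM
  have hxM : x ∈ M := Subgroup.subset_closure (by simp)
  have hyM : y ∈ M := Subgroup.subset_closure (by simp)
  have hMQ : M ≤ Subgroup.normalizer (Q : Set G) := by
    rw [hM, Subgroup.closure_le]
    rintro z (rfl | hz)
    · exact hx
    · rw [Set.mem_singleton_iff] at hz; rw [hz]; exact hy
  set E := ppr p M with hE
  have hsmall : ∀ R : Subgroup G, T ≤ R → R ≤ Q → R ≠ Q → M ≤ Subgroup.normalizer (R : Set G) →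
      R ≤ Subgroup.centralizer (E : Set G) := by
    intro R hTR hRQ hRne hMR
    rw [Subgroup.le_centralizer_iff, hE]
    unfold ppr
    rw [Subgroup.closure_le]
    rintro v ⟨hvM, hvp⟩
    by_contra hvc
    have hbadR : BadT p T R := ⟨hTR, hQp.to_le hRQ, x, y, hMR hxM, hMR hyM, fun a ha => hqx a (hRQ ha),
      fun a ha => hqy a (hRQ ha), v, hvM, hvp, hvc⟩
    have h1 := card_lt_of_lt (lt_of_le_of_ne hRQ hRne)
    have h2 := hmin (j := R) hbadR h1.le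
    exact absurd h2 (not_le_of_gt h1)
  set Q1 : Subgroup G := Q ⊓ Subgroup.centralizer (E : Set G) with hQ1
  have hQ1Q : Q1 ≤ Q := inf_le_left
  have hTE : T ≤ Subgroup.centralizer (E : Set G) := by
    rw [Subgroup.le_centralizer_iff, hE]
    unfold ppr
    rw [Subgroup.closure_le]
    exact fun v hv => hcen v hv.2
  have hTQ1 : T ≤ Q1 := le_inf hTQ hTE
  have hMQ1 : M ≤ Subgroup.normalizer (Q1 : Set G) := le_norm_inf hMQ (le_norm_centralizer (le_norm_ppr M))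
  have hwE : w ∈ E := mem_ppr hwM hwp
  have hne : Q1 ≠ Q := by
    intro h
    apply hwc
    have h1 : Q ≤ Subgroup.centralizer (E : Set G) := by rw [← h]; exact inf_le_right
    rw [Subgroup.le_centralizer_iff] at h1
    exact h1 hwE
  have hlt : Q1 < Q := lt_of_le_of_ne hQ1Q hne
  have hQN : Q ≤ Subgroup.normalizer (Q1 : Set G) := by
    have h1 := lt_inf_normalizer hQp hlt
    by_contra hcon
    have h2 : Q ⊓ Subgroup.normalizer (Q1 : Set G) ≠ Q := fun h => hcon (inf_eq_left.1 h)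
    have h4 := hsmall _ (hTQ1.trans h1.le) inf_le_left h2
      (le_norm_inf hMQ (hMQ1.trans Subgroup.le_normalizer))
    exact absurd (le_inf inf_le_left h4 : Q ⊓ Subgroup.normalizer (Q1 : Set G) ≤ Q1) (not_le_of_gt h1)
  set B := Subgroup.normalizer (Q : Set G) ⊓ Subgroup.normalizer (Q1 : Set G) with hB
  have hMB : M ≤ B := le_inf hMQ hMQ1
  have hQB : Q ≤ B := le_inf Subgroup.le_normalizer hQN
  haveI hn1 : (Q1.subgroupOf B).Normal := by
    rw [Subgroup.normal_subgroupOf_iff_le_normalizer (hQ1Q.trans hQB)]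
    exact inf_le_right
  haveI hn2 : (Q.subgroupOf B).Normal := by
    rw [Subgroup.normal_subgroupOf_iff_le_normalizer hQB]
    exact inf_le_left
  set f := QuotientGroup.mk' (Q1.subgroupOf B) with hf
  have hfs : Function.Surjective f := QuotientGroup.mk'_surjective _
  have hf1 : ∀ b : B, f b = 1 ↔ (b : G) ∈ Q1 := fun b => (QuotientGroup.eq_one_iff b).trans Subgroup.mem_subgroupOf
  set V := (Q.subgroupOf B).map f with hV
  haveI hVn : V.Normal := hn2.map f hfs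
  have hVcomap : V.comap f = Q.subgroupOf B := by
    rw [hV, Subgroup.comap_map_eq, hf, QuotientGroup.ker_mk', sup_eq_left]
    exact Subgroup.comap_mono hQ1Q
  have hVmem : ∀ b : B, f b ∈ V ↔ (b : G) ∈ Q := by
    intro b
    rw [← Subgroup.mem_comap, hVcomap, Subgroup.mem_subgroupOf]
  have hVne : V ≠ ⊥ := by
    intro h
    apply hne
    apply le_antisymm hQ1Q
    intro q hq
    have h1 : f ⟨q, hQB hq⟩ ∈ V := (hVmem _).2 hq
    rw [h, Subgroup.mem_bot, hf1] at h1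
    exact h1
  have hVp : IsPGroup p ↥V := (hQp.comap_subtype (K := B) : IsPGroup p (Q.subgroupOf B)).map f
  -- irreducibility
  have hirr0 : ∀ U : Subgroup (B ⧸ Q1.subgroupOf B), U ≤ V →
      (∀ m (hm : m ∈ M), ∀ u ∈ U, f ⟨m, hMB hm⟩ * u * (f ⟨m, hMB hm⟩)⁻¹ ∈ U) → U = ⊥ ∨ U = V := by
    intro U hUV hUM
    set R : Subgroup G := (U.comap f).map B.subtype with hR
    have mR : ∀ g, g ∈ R ↔ ∃ h : g ∈ B, f ⟨g, h⟩ ∈ U := by
      intro g
      constructor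
      · rintro ⟨b, hb, rfl⟩
        exact ⟨b.2, hb⟩
      · rintro ⟨h, h1⟩
        exact ⟨⟨g, h⟩, h1, rfl⟩
    by_cases hRQ : R = Q
    · right
      apply le_antisymm hUV
      intro v hv
      obtain ⟨b, rfl⟩ := hfs v
      have h1 : (b : G) ∈ R := by rw [hRQ]; exact (hVmem b).1 hv
      obtain ⟨h, h2⟩ := (mR _).1 h1
      exact h2
    · left
      have h1 : R ≤ Q := by
        intro g hg
        obtain ⟨h, h2⟩ := (mR g).1 hg
        exact (hVmem ⟨g, h⟩).1 (hUV h2)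
      have h2 : T ≤ R := by
        intro t ht
        have ht1 := hTQ1 ht
        refine (mR t).2 ⟨hQB (hQ1Q ht1), ?_⟩
        rw [(hf1 ⟨t, _⟩).2 ht1]; exact U.one_mem
      have h4 := hsmall R h2 h1 hRQ (by
        intro m hm
        apply mem_norm_of_conj
        intro g hg
        obtain ⟨h, h5⟩ := (mR g).1 hg
        refine (mR _).2 ⟨B.mul_mem (B.mul_mem (hMB hm) h) (B.inv_mem (hMB hm)), ?_⟩
        have := hUM m hm _ h5
        rwa [← map_inv, ← map_mul, ← map_mul] at this)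
      rw [eq_bot_iff]
      intro u hu
      obtain ⟨b, rfl⟩ := hfs u
      have h5 : (b : G) ∈ R := (mR _).2 ⟨b.2, hu⟩
      rw [Subgroup.mem_bot, hf1]
      exact ⟨h1 h5, h4 h5⟩
  -- elementary abelian
  obtain ⟨r, U, hr, hUn, hUV, hU0, hUc, hUr⟩ := exists_elemAb_normal V hVne (by
    haveI : Group.IsNilpotent V := hVp.isNilpotent
    infer_instance)
  have hUeq : U = V := (hirr0 U hUV (fun m hm u hu => hUn.conj_mem u hu _)).resolve_left hU0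
  rw [hUeq] at hUc hUr
  have hrp : r = p := by
    obtain ⟨v, hv⟩ := (Subgroup.ne_bot_iff_exists_ne_one.mp hVne)
    have h1 : orderOf (v : B ⧸ Q1.subgroupOf B) ∣ r := by
      apply orderOf_dvd_of_pow_eq_one
      exact hUr v v.2
    obtain ⟨k, hk⟩ := hVp v
    have h2 : orderOf (v : B ⧸ Q1.subgroupOf B) ∣ p ^ k := by
      apply orderOf_dvd_of_pow_eq_one
      exact congrArg Subtype.val hk
    have h3 : orderOf (v : B ⧸ Q1.subgroupOf B) ≠ 1 := by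
      rw [Ne, orderOf_eq_one_iff]
      intro h; exact hv (Subtype.ext h)
    have h4 : orderOf (v : B ⧸ Q1.subgroupOf B) = r := (Nat.dvd_prime hr).mp h1 |>.resolve_left h3
    rw [h4] at h2
    exact (Nat.prime_dvd_prime_iff_eq hr hp.out).mp (hr.dvd_of_dvd_pow h2)
  rw [hrp] at hUr
  -- the action of `M` on `V`
  have hfne : ∀ m (hm : m ∈ M), ∀ b : B, f (⟨m, hMB hm⟩ * b * ⟨m, hMB hm⟩⁻¹) = f ⟨m, hMB hm⟩ * f b * (f ⟨m, hMB hm⟩)⁻¹ := by
    intro m hm b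
    rw [map_mul, map_mul, map_inv]
  let α : M →* MulAut V := (MulAut.conjNormal).comp (f.comp (Subgroup.inclusion hMB))
  have hα : ∀ (m : M) (v : V), ((α m v : V) : B ⧸ Q1.subgroupOf B) =
      f ⟨m, hMB m.2⟩ * v * (f ⟨m, hMB m.2⟩)⁻¹ := fun m v => rfl
  have hgen : Subgroup.closure {(⟨x, hxM⟩ : M), ⟨y, hyM⟩} = ⊤ := by
    rw [← Subgroup.closure_closure_coe_preimage (k := ({x, y} : Set G))]
    congr 1
    ext z
    simp only [Set.mem_insert_iff, Set.mem_singleton_iff, Set.mem_preimage, Subtype.ext_iff]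
  have hquad : ∀ (z : G) (hz : z ∈ M), (∀ a ∈ Q, z * (z * a * z⁻¹ * a⁻¹) * z⁻¹ * (z * a * z⁻¹ * a⁻¹)⁻¹ ∈ T) →
      ∀ v : V, α ⟨z, hz⟩ (α ⟨z, hz⟩ v * v⁻¹) = α ⟨z, hz⟩ v * v⁻¹ := by
    intro z hz h v
    obtain ⟨b, hb⟩ := hfs v
    have hbQ : (b : G) ∈ Q := (hVmem b).1 (by rw [hb]; exact v.2)
    apply Subtype.ext
    rw [hα]
    have e1 : ((α ⟨z, hz⟩ v * v⁻¹ : V) : B ⧸ Q1.subgroupOf B) =
        f (⟨z, hMB hz⟩ * b * ⟨z, hMB hz⟩⁻¹ * b⁻¹) := by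
      rw [Subgroup.coe_mul, hα, Subgroup.coe_inv, ← hb, map_mul, map_mul, map_mul, map_inv, map_inv]
    rw [e1, ← map_inv, ← map_mul, ← map_mul, ← mul_inv_eq_one, ← map_inv, ← map_mul, hf1]
    exact hTQ1 (h b hbQ)
  have hnp : ∃ g : M, ∀ k : ℕ, α g ^ (p ^ k) ≠ 1 := by
    refine ⟨⟨w, hwM⟩, fun k hk => hwc ?_⟩
    apply mem_of_pow_mem hwp (k := k)
    rw [← map_pow] at hk
    rw [Subgroup.mem_centralizer_iff]
    intro a ha
    have hwk : w ^ p ^ k ∈ M := M.pow_mem hwM _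
    have hwkE : w ^ p ^ k ∈ E := E.pow_mem hwE _
    have hwkp : (orderOf (w ^ p ^ k)).Coprime p :=
      Nat.Coprime.coprime_dvd_left (orderOf_pow_dvd _) hwp
    have h1 := congrArg (fun g : MulAut V => ((g ⟨f ⟨a, hQB ha⟩, (hVmem _).2 ha⟩ : V) : B ⧸ Q1.subgroupOf B)) hk
    have h2 : f ⟨w ^ p ^ k, hMB hwk⟩ * f ⟨a, hQB ha⟩ * (f ⟨w ^ p ^ k, hMB hwk⟩)⁻¹ = f ⟨a, hQB ha⟩ := h1
    rw [← map_inv, ← map_mul, ← map_mul, ← mul_inv_eq_one, ← map_inv, ← map_mul, hf1] at h2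
    have h4 : w ^ p ^ k * a * (w ^ p ^ k)⁻¹ * a⁻¹ ∈ Q1 := h2
    exact (centralizes_of_chain hQp hwkp h4.1 ((Subgroup.mem_centralizer_iff.1 h4.2 _ hwkE))).symm
  obtain ⟨L, φ, j, hφ, hj, hact⟩ := qp_group_irr (p := p) hp2 (V := V)
    (fun x y => Subtype.ext (hUc x x.2 y y.2)) (fun x => Subtype.ext (hUr x x.2)) α ⟨x, hxM⟩ ⟨y, hyM⟩ hgen
    (hquad x hxM hqx) (hquad y hyM hqy) hnp (by
      intro U1 hU1
      rcases hirr0 (U1.map V.subtype) (Subgroup.map_subtype_le _) (by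
        rintro m hm _ ⟨u, hu, rfl⟩
        exact ⟨_, hU1 ⟨m, hm⟩ u hu, rfl⟩) with h | h
      · left
        rwa [Subgroup.map_eq_bot_iff_of_injective _ (Subgroup.subtype_injective V)] at h
      · right
        apply Subgroup.map_injective (Subgroup.subtype_injective V)
        rw [h, ← MonoidHom.range_eq_map, Subgroup.range_subtype])
  -- the group `X`
  set LG : Subgroup G := L.map M.subtype with hLG
  have hLGM : LG ≤ M := Subgroup.map_subtype_le _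
  let e : L ≃* LG := L.equivMapOfInjective M.subtype (Subgroup.subtype_injective M)
  let ψ : LG →* SpecialLinearGroup (Fin 2) (ZMod p) := φ.comp e.symm.toMonoidHom
  have hψ : Function.Surjective ψ := hφ.comp e.symm.surjective
  -- the group `Q''`
  set W : Subgroup (B ⧸ Q1.subgroupOf B) := j.range.map V.subtype with hW
  set Q2 : Subgroup G := (W.comap f).map B.subtype with hQ2
  have mQ2 : ∀ g, g ∈ Q2 ↔ ∃ h : g ∈ B, f ⟨g, h⟩ ∈ W := by
    intro g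
    constructor
    · rintro ⟨b, hb, rfl⟩
      exact ⟨b.2, hb⟩
    · rintro ⟨h, h1⟩
      exact ⟨⟨g, h⟩, h1, rfl⟩
  have hWV : W ≤ V := Subgroup.map_subtype_le _
  have hQ2B : Q2 ≤ B := Subgroup.map_subtype_le _
  have hQ2Q : Q2 ≤ Q := by
    intro g hg
    obtain ⟨h, h2⟩ := (mQ2 g).1 hg
    exact (hVmem ⟨g, h⟩).1 (hWV h2)
  let g1 : Q2 →* W := (f.comp (Subgroup.inclusion hQ2B)).codRestrict W (fun q => by
    obtain ⟨h, h2⟩ := (mQ2 q).1 q.2
    exact h2)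
  let g2 : W ≃* j.range := (j.range.equivMapOfInjective V.subtype (Subgroup.subtype_injective V)).symm
  let g3 : j.range ≃* Multiplicative (Fin 2 → ZMod p) := (MonoidHom.ofInjective hj).symm
  let π : Q2 →* Multiplicative (Fin 2 → ZMod p) := g3.toMonoidHom.comp (g2.toMonoidHom.comp g1)
  have hπ : ∀ q : Q2, ((j (π q) : V) : B ⧸ Q1.subgroupOf B) = f ⟨q, hQ2B q.2⟩ := by
    intro q
    have e1 : (g3.symm (π q)) = g2 (g1 q) := by
      show g3.symm (g3 (g2 (g1 q))) = _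
      rw [MulEquiv.symm_apply_apply]
    have e2 : g2.symm (g2 (g1 q)) = g1 q := MulEquiv.symm_apply_apply _ _
    have e3 : ((g2.symm (g2 (g1 q)) : W) : B ⧸ Q1.subgroupOf B) = f ⟨q, hQ2B q.2⟩ := by rw [e2]; rfl
    rw [← e1] at e3
    exact e3
  have hπs : Function.Surjective π := by
    intro v
    obtain ⟨b, hb⟩ := hfs ((j v : V) : B ⧸ Q1.subgroupOf B)
    have hb2 : (b : G) ∈ Q2 := (mQ2 _).2 ⟨b.2, by rw [hb]; exact ⟨j v, ⟨v, rfl⟩, rfl⟩⟩
    refine ⟨⟨b, hb2⟩, ?_⟩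
    apply hj
    apply Subtype.ext
    rw [hπ]
    exact hb
  refine no_config' hp2 hst Q2 LG (hQp.to_le hQ2Q) ψ hψ π hπs ?_ ?_
  · intro l q
    obtain ⟨m, hm⟩ := e.surjective l
    have hml : ((m : M) : G) = l := congrArg Subtype.val hm
    have hφl : ψ l = φ m := by
      show φ (e.symm l) = φ m
      rw [← hm, MulEquiv.symm_apply_apply]
    have hlB : (l : G) ∈ B := hMB (hLGM l.2)
    have h1 := hact m (π q)
    have h2 := congrArg Subtype.val h1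
    rw [hα, hπ] at h2
    have h4 : f ⟨((m : M) : G), hMB (m : M).2⟩ = f ⟨l, hlB⟩ := by congr 1; exact Subtype.ext hml
    rw [h4, ← map_inv, ← map_mul, ← map_mul] at h2
    have h5 : (l : G) * q * (l : G)⁻¹ ∈ Q2 := by
      refine (mQ2 _).2 ⟨B.mul_mem (B.mul_mem hlB (hQ2B q.2)) (B.inv_mem hlB), ?_⟩
      have h6 : f ⟨(l : G) * q * (l : G)⁻¹, B.mul_mem (B.mul_mem hlB (hQ2B q.2)) (B.inv_mem hlB)⟩ = _ := h2
      rw [h6]
      exact ⟨_, ⟨_, rfl⟩, rfl⟩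
    refine ⟨h5, ?_⟩
    apply hj
    apply Subtype.ext
    rw [hπ, hφl]
    exact h2
  · intro z hz hzp q hq
    have h1 := hπ q
    rw [hq, map_one, Subgroup.coe_one] at h1
    have h2 := (hf1 _).1 h1.symm
    exact (Subgroup.mem_centralizer_iff.1 h2.2 z (mem_ppr (hLGM hz) hzp))

/-- **`p`-stability (normalizer form) passes to quotients by normal `p`-subgroups centralized by all
`p'`-elements**, `p` odd. -/
theorem nps_quotient' (hp2 : p ≠ 2) {G : Type u} [Group G] [Finite G] (hst : IsNormalizerPStable p G) (T : Subgroup G)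
    [T.Normal] (hT : IsPGroup p ↥T)
    (hcen : ∀ w : G, (orderOf w).Coprime p → w ∈ Subgroup.centralizer (T : Set G)) :
    IsNormalizerPStable p (G ⧸ T) := by
  by_contra hn
  obtain ⟨Q, hQ⟩ := badT_of_quotient T hT hn
  exact no_badT' hp2 hst T hcen Q hQ

end
end Cfsg.Agent.H2
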