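import Cfsg.Agent.H2.QW
import Cfsg.Agent.H2.FusZJ

set_option autoImplicit false
set_option linter.unusedSectionVars false
set_option linter.unusedSimpArgs false
set_option linter.unusedVariables false
set_option linter.style.haveILetI false
open Cfsg
open scoped commutatorElement

/-! `S₄`-sections from `S₃`-actions on 2-groups (helper2). -/

namespace Cfsg.Agent.H2
open Cfsg.Agent.H6

section
variable {G : Type*} [Group G] [Finite G]

/-- the case of an inverted element of order three -/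
theorem s4_of_inv3 (T0 : Subgroup G) (hT0 : IsPGroup 2 T0) {r t : G} (hr0 : r ∈ Subgroup.normalizer (T0 : Set G))
    (ht0 : t ∈ Subgroup.normalizer (T0 : Set G)) {k : ℕ} (ht2 : t ^ 2 ^ k = 1) (hr3 : r ^ 3 = 1)
    (hrt : t * r * t⁻¹ = r⁻¹) (hrT0 : ¬ T0 ≤ Subgroup.centralizer {r}) : Sec (Equiv.Perm (Fin 4)) G := by
  classical
  -- minimal `T`
  obtain ⟨T, hTm⟩ := (Set.toFinite {T : Subgroup G | T ≤ T0 ∧ r ∈ Subgroup.normalizer (T : Set G) ∧
    t ∈ Subgroup.normalizer (T : Set G) ∧ ¬ T ≤ Subgroup.centralizer {r}}).exists_minimal ⟨T0, le_rfl, hr0, ht0, hrT0⟩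
  obtain ⟨⟨hTT, hr, ht, hrT⟩, hmin'⟩ := hTm
  have hT : IsPGroup 2 T := hT0.to_le hTT
  have hmin : ∀ U : Subgroup G, U ≤ T → r ∈ Subgroup.normalizer (U : Set G) → t ∈ Subgroup.normalizer (U : Set G) →
      U ≠ T → U ≤ Subgroup.centralizer {r} := by
    intro U hU h1 h2 h3
    by_contra h4
    exact h3 (le_antisymm hU (hmin' ⟨hU.trans hTT, h1, h2, h4⟩ hU))
  set T1 := T ⊓ Subgroup.centralizer {r} with hT1
  have hT1T : T1 ≤ T := inf_le_left
  have hmemT1 : ∀ x, x ∈ T1 ↔ x ∈ T ∧ x * r = r * x := fun x => by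
    rw [hT1, Subgroup.mem_inf, Subgroup.mem_centralizer_singleton_iff]
  have hT1ne : T1 ≠ T := fun h => hrT (by rw [← h]; exact inf_le_right)
  have hrt' : t⁻¹ * r * t = r⁻¹ := by
    have h1 : r = t⁻¹ * r⁻¹ * t := by rw [← hrt]; group
    calc t⁻¹ * r * t = (t⁻¹ * r⁻¹ * t)⁻¹ := by group
      _ = r⁻¹ := by rw [← h1]
  have hrT1 : r ∈ Subgroup.normalizer (T1 : Set G) := by
    apply H2.mem_norm_of_conj
    intro x hx
    obtain ⟨h1, h2⟩ := (hmemT1 x).1 hx
    have : r * x * r⁻¹ = x := by rw [← h2]; group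
    rw [this]; exact hx
  have htT1 : t ∈ Subgroup.normalizer (T1 : Set G) := by
    apply H2.mem_norm_of_conj
    intro x hx
    obtain ⟨h1, h2⟩ := (hmemT1 x).1 hx
    refine (hmemT1 _).2 ⟨(Subgroup.mem_normalizer_iff.1 ht x).1 h1, ?_⟩
    have h3 : x * r⁻¹ = r⁻¹ * x := by
      calc x * r⁻¹ = r⁻¹ * (r * x) * r⁻¹ := by group
        _ = r⁻¹ * (x * r) * r⁻¹ := by rw [h2]
        _ = r⁻¹ * x := by group
    calc t * x * t⁻¹ * r = t * (x * (t⁻¹ * r * t)) * t⁻¹ := by group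
      _ = t * (r⁻¹ * x) * t⁻¹ := by rw [hrt', h3]
      _ = t * r⁻¹ * t⁻¹ * (t * x * t⁻¹) := by group
      _ = (t * r * t⁻¹)⁻¹ * (t * x * t⁻¹) := by group
      _ = r * (t * x * t⁻¹) := by rw [hrt, inv_inv]
  have hnn : ∀ g : G, g ∈ Subgroup.normalizer (T1 : Set G) →
      g ∈ Subgroup.normalizer ((Subgroup.normalizer (T1 : Set G) : Subgroup G) : Set G) := fun g hg => Subgroup.le_normalizer hg
  have hTN1 : T ≤ Subgroup.normalizer (T1 : Set G) := by
    by_contra hcon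
    have h1 : T ⊓ Subgroup.normalizer (T1 : Set G) ≠ T := fun h => hcon (inf_eq_left.1 h)
    have h2 := hmin (T ⊓ Subgroup.normalizer (T1 : Set G)) inf_le_left
      (H2.mem_norm_of_conj (fun x hx => ⟨(Subgroup.mem_normalizer_iff.1 hr x).1 hx.1, Subgroup.mul_mem _ (Subgroup.mul_mem _ hrT1 hx.2) (Subgroup.inv_mem _ hrT1)⟩))
      (H2.mem_norm_of_conj (fun x hx => ⟨(Subgroup.mem_normalizer_iff.1 ht x).1 hx.1, Subgroup.mul_mem _ (Subgroup.mul_mem _ htT1 hx.2) (Subgroup.inv_mem _ htT1)⟩)) h1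
    have h3 : T ⊓ Subgroup.normalizer (T1 : Set G) ≤ T1 := le_inf inf_le_left h2
    haveI : Group.IsNilpotent T := hT.isNilpotent
    have hlt2 : T1.subgroupOf T < ⊤ := by
      rw [lt_top_iff_ne_top]
      intro h
      rw [Subgroup.subgroupOf_eq_top] at h
      exact hT1ne (le_antisymm hT1T h)
    obtain ⟨y, hyN, hyR⟩ := SetLike.exists_of_lt ((Group.normalizerCondition_of_isNilpotent (G := ↥T)) _ hlt2)
    apply hyR
    show (y : G) ∈ T1
    apply h3
    refine ⟨y.2, ?_⟩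
    apply H2.mem_norm_of_conj
    intro x hx
    exact (Subgroup.mem_normalizer_iff.mp hyN ⟨x, hT1T hx⟩).1 hx
  have hr33 : r * r * r = 1 := by rw [← pow_three']; exact hr3
  -- fixed points of `r` modulo `T1`
  have hfix : ∀ n ∈ T, n⁻¹ * (r * n * r⁻¹) ∈ T1 → n ∈ T1 := by
    intro n hn hs
    set s := n⁻¹ * (r * n * r⁻¹) with hsd
    have e1 : r * n * r⁻¹ = n * s := by rw [hsd]; group
    have hsr := ((hmemT1 s).1 hs).2
    have e0 : r * s * r⁻¹ = s := by rw [← hsr]; group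
    have e2 : (r * r * r) * n * (r * r * r)⁻¹ = n * (s * s * s) := by
      calc (r * r * r) * n * (r * r * r)⁻¹ = r * (r * (r * n * r⁻¹) * r⁻¹) * r⁻¹ := by group
        _ = r * (r * (n * s) * r⁻¹) * r⁻¹ := by rw [e1]
        _ = r * ((r * n * r⁻¹) * (r * s * r⁻¹)) * r⁻¹ := by group
        _ = r * (n * s * s) * r⁻¹ := by rw [e1, e0]
        _ = (r * n * r⁻¹) * (r * s * r⁻¹) * (r * s * r⁻¹) := by group
        _ = n * s * s * s := by rw [e1, e0]
        _ = n * (s * s * s) := by group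
    rw [hr33] at e2
    have e3 : s ^ 3 = 1 := by
      have : n = n * (s * s * s) := by simpa using e2
      rw [pow_three']
      exact (mul_eq_left.1 this.symm)
    obtain ⟨j, hj⟩ := hT ⟨s, hT1T hs⟩
    have hj' : s ^ 2 ^ j = 1 := congrArg Subtype.val hj
    have h9 : s = 1 := by
      rw [← orderOf_eq_one_iff]
      exact Nat.eq_one_of_dvd_coprimes (Nat.Coprime.pow_right j (by norm_num : Nat.Coprime 3 2))
        (orderOf_dvd_of_pow_eq_one e3) (orderOf_dvd_of_pow_eq_one hj')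
    rw [h9, mul_one] at e1
    refine (hmemT1 n).2 ⟨hn, ?_⟩
    calc n * r = (r * n * r⁻¹) * r := by rw [e1]
      _ = r * n := by group
  -- the element `w`
  obtain ⟨w, hwT, hwT1, hw2, hwc, hwt⟩ : ∃ w ∈ T, w ∉ T1 ∧ w ^ 2 ∈ T1 ∧ (∀ x ∈ T, x * w * x⁻¹ * w⁻¹ ∈ T1) ∧
      t * w * t⁻¹ * w⁻¹ ∈ T1 := by
    set P := T ⊔ Subgroup.zpowers t with hP
    have htz : Subgroup.zpowers t ≤ Subgroup.normalizer (T : Set G) := by rwa [Subgroup.zpowers_le]
    have htp : IsPGroup 2 ↥(Subgroup.zpowers t) := by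
      rintro ⟨x, hx⟩
      obtain ⟨i, rfl⟩ := hx
      refine ⟨k, Subtype.ext ?_⟩
      change (t ^ i) ^ 2 ^ k = 1
      rw [← zpow_natCast, ← zpow_mul, mul_comm, zpow_mul, zpow_natCast, ht2, one_zpow]
    have hPp : IsPGroup 2 P := hT.to_sup_of_normal_left' htp htz
    have hPN : P ≤ Subgroup.normalizer (T1 : Set G) := sup_le hTN1 (by rwa [Subgroup.zpowers_le])
    have hPT : P ≤ Subgroup.normalizer (T : Set G) := sup_le Subgroup.le_normalizer htz
    have hTP : T ≤ P := le_sup_left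
    haveI hT1n : (T1.subgroupOf P).Normal := Subgroup.normal_subgroupOf_of_le_normalizer hPN
    haveI hTn : (T.subgroupOf P).Normal := Subgroup.normal_subgroupOf_of_le_normalizer hPT
    set q := QuotientGroup.mk' (T1.subgroupOf P) with hq
    have hqs : Function.Surjective q := QuotientGroup.mk'_surjective _
    have hq1 : ∀ x : P, q x = 1 ↔ (x : G) ∈ T1 := fun x => by
      rw [hq, QuotientGroup.mk'_apply, QuotientGroup.eq_one_iff, Subgroup.mem_subgroupOf]
    have hQp : IsPGroup 2 (P ⧸ T1.subgroupOf P) := hPp.to_quotient _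
    have hne : (T.subgroupOf P).map q ≠ ⊥ := by
      intro h
      apply hT1ne
      refine le_antisymm hT1T ?_
      intro x hx
      have : q ⟨x, hTP hx⟩ ∈ (T.subgroupOf P).map q := ⟨_, hx, rfl⟩
      rw [h, Subgroup.mem_bot, hq1] at this
      exact this
    haveI : ((T.subgroupOf P).map q).Normal := Subgroup.Normal.map inferInstance q hqs
    have h1 := inf_cent_ne_bot (S := (⊤ : Subgroup (P ⧸ T1.subgroupOf P))) (hQp.to_subgroup ⊤)
      (D := (T.subgroupOf P).map q) le_top (by rw [Subgroup.normalizer_eq_top_iff.2 inferInstance]) hne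
    obtain ⟨z, hz⟩ := exists_prime_orderOf_dvd_card' (G := ↥((T.subgroupOf P).map q ⊓ Subgroup.centralizer ((⊤ : Subgroup (P ⧸ T1.subgroupOf P)) : Set _))) 2 (by
      have h2 := (hQp.to_subgroup ((T.subgroupOf P).map q ⊓ Subgroup.centralizer ((⊤ : Subgroup (P ⧸ T1.subgroupOf P)) : Set _)))
      obtain ⟨n, hn⟩ := (IsPGroup.iff_card).1 h2
      rw [hn]
      apply dvd_pow_self
      rintro rfl
      rw [pow_zero] at hn
      exact h1 (Subgroup.card_eq_one.1 hn))
    obtain ⟨⟨w, hw, hwz⟩, hzc⟩ := z.2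
    have hz2 : (z : P ⧸ T1.subgroupOf P) ^ 2 = 1 := by
      have h3 : z ^ 2 = 1 := by rw [← hz]; exact pow_orderOf_eq_one z
      exact congrArg Subtype.val h3
    have hz1 : (z : P ⧸ T1.subgroupOf P) ≠ 1 := by
      intro h3
      have : z = 1 := Subtype.ext h3
      rw [this, orderOf_one] at hz
      norm_num at hz
    have hcz : ∀ x : P, (x : G) * w * (x : G)⁻¹ * (w : G)⁻¹ ∈ T1 := by
      intro x
      have h4 := Subgroup.mem_centralizer_iff.1 hzc (q x) (Subgroup.mem_top _)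
      rw [← hwz] at h4
      have : (q (x * w * x⁻¹ * w⁻¹)) = 1 := by
        simp only [map_mul, map_inv]; rw [h4]; group
      rw [hq1] at this
      exact this
    refine ⟨w, hw, ?_, ?_, ?_, ?_⟩
    · intro h3; exact hz1 (by rw [← hwz, hq1]; exact h3)
    · have : q (w ^ 2) = 1 := by rw [map_pow, hwz]; exact hz2
      rw [hq1] at this; exact this
    · intro x hx; exact hcz ⟨x, hTP hx⟩
    · exact hcz ⟨t, (le_sup_right : Subgroup.zpowers t ≤ P) (Subgroup.mem_zpowers t)⟩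
  set w1 := r * w * r⁻¹ with hw1
  set w2 := r * w1 * r⁻¹ with hw2'
  have hconjT : ∀ x ∈ T, r * x * r⁻¹ ∈ T := fun x hx => (Subgroup.mem_normalizer_iff.1 hr x).1 hx
  have hconjT1 : ∀ x ∈ T1, r * x * r⁻¹ ∈ T1 := fun x hx => (Subgroup.mem_normalizer_iff.1 hrT1 x).1 hx
  have hconjT1' : ∀ x ∈ T1, r⁻¹ * x * r ∈ T1 := fun x hx => by
    have := (Subgroup.mem_normalizer_iff.1 (Subgroup.inv_mem _ hrT1) x).1 hx
    rwa [inv_inv] at this
  have hwT' : w1 ∈ T := hconjT _ hwT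
  have hw2T : w2 ∈ T := hconjT _ hwT'
  have hTconj : ∀ x ∈ T, ∀ s ∈ T1, x * s * x⁻¹ ∈ T1 := fun x hx s hs => (Subgroup.mem_normalizer_iff.1 (hTN1 hx) s).1 hs
  have hw1c : ∀ x ∈ T, x * w1 * x⁻¹ * w1⁻¹ ∈ T1 := by
    intro x hx
    have h1 : r⁻¹ * x * r ∈ T := by
      have := (Subgroup.mem_normalizer_iff.1 (Subgroup.inv_mem _ hr) x).1 hx
      rwa [inv_inv] at this
    have h2 := hconjT1 _ (hwc _ h1)
    have e : r * (r⁻¹ * x * r * w * (r⁻¹ * x * r)⁻¹ * w⁻¹) * r⁻¹ = x * w1 * x⁻¹ * w1⁻¹ := by rw [hw1]; group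
    rwa [e] at h2
  have hw12 : w1 ^ 2 ∈ T1 := by
    have h2 := hconjT1 _ hw2
    have e : r * w ^ 2 * r⁻¹ = w1 ^ 2 := by rw [hw1, conj_pow]
    rwa [e] at h2
  -- the product
  have hn : w * w1 * w2 ∈ T1 := by
    refine hfix _ (T.mul_mem (T.mul_mem hwT hwT') hw2T) ?_
    have e1 : r * (w * w1 * w2) * r⁻¹ = w1 * w2 * w := by
      have e3 : r * w2 * r⁻¹ = w := by
        calc r * w2 * r⁻¹ = (r * r * r) * w * (r * r * r)⁻¹ := by rw [hw2', hw1]; group
          _ = w := by rw [hr33]; simp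
      calc r * (w * w1 * w2) * r⁻¹ = (r * w * r⁻¹) * (r * w1 * r⁻¹) * (r * w2 * r⁻¹) := by group
        _ = w1 * w2 * w := by rw [e3]
    rw [e1]
    have h2 := hwc (w1 * w2) (T.mul_mem hwT' hw2T)
    have h3 := hTconj _ (T.inv_mem (T.mul_mem hwT (T.mul_mem hwT' hw2T))) _ h2
    have e2 : (w * (w1 * w2))⁻¹ * (w1 * w2 * w * (w1 * w2)⁻¹ * w⁻¹) * ((w * (w1 * w2))⁻¹)⁻¹ = (w * w1 * w2)⁻¹ * (w1 * w2 * w) := by group
    rwa [e2] at h3
  set U := T1 ⊔ Subgroup.zpowers w ⊔ Subgroup.zpowers w1 with hU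
  have hUT1 : T1 ≤ U := le_sup_left.trans le_sup_left
  have hUw : w ∈ U := (le_sup_right.trans le_sup_left : Subgroup.zpowers w ≤ U) (Subgroup.mem_zpowers w)
  have hUw1 : w1 ∈ U := (le_sup_right : Subgroup.zpowers w1 ≤ U) (Subgroup.mem_zpowers w1)
  have hUT : U ≤ T := sup_le (sup_le hT1T (by rwa [Subgroup.zpowers_le])) (by rwa [Subgroup.zpowers_le])
  have hUw2 : w2 ∈ U := by
    have : w2 = (w * w1)⁻¹ * (w * w1 * w2) := by group
    rw [this]; exact U.mul_mem (U.inv_mem (U.mul_mem hUw hUw1)) (hUT1 hn)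
  have hconjU : ∀ g : G, g ∈ Subgroup.normalizer (T1 : Set G) → g * w * g⁻¹ ∈ U → g * w1 * g⁻¹ ∈ U →
      g ∈ Subgroup.normalizer (U : Set G) := by
    intro g h1 h2 h3
    apply H2.mem_norm_of_conj
    have h4 : U.map (MulAut.conj g).toMonoidHom ≤ U := by
      rw [hU, Subgroup.map_sup, Subgroup.map_sup, MonoidHom.map_zpowers, MonoidHom.map_zpowers]
      refine sup_le (sup_le ?_ ?_) ?_
      · rintro _ ⟨x, hx, rfl⟩
        exact hUT1 ((Subgroup.mem_normalizer_iff.1 h1 x).1 hx)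
      · rw [Subgroup.zpowers_le]; exact h2
      · rw [Subgroup.zpowers_le]; exact h3
    intro x hx
    exact h4 ⟨x, hx, rfl⟩
  have hUeq : U = T := by
    by_contra hne
    have h1 := hmin U hUT (hconjU r hrT1 hUw1 hUw2) (hconjU t htT1 ?_ ?_) hne
    · exact hwT1 ⟨hwT, h1 hUw⟩
    · have : t * w * t⁻¹ = (t * w * t⁻¹ * w⁻¹) * w := by group
      rw [this]; exact U.mul_mem (hUT1 hwt) hUw
    · -- `t w1 t⁻¹ = r⁻¹ (t w t⁻¹) r`
      have e0 : t * r = r⁻¹ * t := by rw [← hrt]; group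
      have e1 : t * w1 * t⁻¹ = r⁻¹ * (t * w * t⁻¹ * w⁻¹) * r * (r⁻¹ * w * r) := by
        calc t * w1 * t⁻¹ = (t * r) * w * (t * r)⁻¹ := by rw [hw1]; group
          _ = (r⁻¹ * t) * w * (r⁻¹ * t)⁻¹ := by rw [e0]
          _ = _ := by group
      have e2 : r⁻¹ * w * r = w2 := by
        have e4 : r * r = r⁻¹ := eq_inv_of_mul_eq_one_left hr33
        calc r⁻¹ * w * r = r⁻¹ * w * (r⁻¹)⁻¹ := by group
          _ = (r * r) * w * (r * r)⁻¹ := by rw [e4]
          _ = w2 := by rw [hw2', hw1]; group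
      rw [e1, e2]
      exact U.mul_mem (hUT1 (hconjT1' _ hwt)) hUw2
  -- the index
  haveI hT1nT : (T1.subgroupOf T).Normal := Subgroup.normal_subgroupOf_of_le_normalizer hTN1
  set q := QuotientGroup.mk' (T1.subgroupOf T) with hq
  have hq1 : ∀ x : T, q x = 1 ↔ (x : G) ∈ T1 := fun x => by
    rw [hq, QuotientGroup.mk'_apply, QuotientGroup.eq_one_iff, Subgroup.mem_subgroupOf]
  have hidx : T1.relIndex T = Nat.card (T ⧸ T1.subgroupOf T) := by
    rw [← Subgroup.index_eq_card]; rfl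
  have hle4 : Nat.card (T ⧸ T1.subgroupOf T) ≤ 4 := by
    set a := q ⟨w, hwT⟩ with ha
    set b := q ⟨w1, hwT'⟩ with hb
    have ha2 : a ^ 2 = 1 := by rw [ha, ← map_pow, hq1]; exact hw2
    have hb2 : b ^ 2 = 1 := by rw [hb, ← map_pow, hq1]; exact hw12
    have hbc : b ∈ Subgroup.center (T ⧸ T1.subgroupOf T) := by
      rw [Subgroup.mem_center_iff]
      intro g
      obtain ⟨g, rfl⟩ := QuotientGroup.mk'_surjective _ g
      have h1 := (hq1 (g * ⟨w1, hwT'⟩ * g⁻¹ * (⟨w1, hwT'⟩ : T)⁻¹)).2 (hw1c g g.2)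
      rw [map_mul, map_mul, map_mul, map_inv, map_inv, mul_inv_eq_one, mul_inv_eq_iff_eq_mul] at h1
      exact h1
    haveI hbn : (Subgroup.zpowers b).Normal := by
      constructor
      intro n hn g
      have hn' : n ∈ Subgroup.center (T ⧸ T1.subgroupOf T) := by
        have : Subgroup.zpowers b ≤ Subgroup.center _ := by rwa [Subgroup.zpowers_le]
        exact this hn
      rw [Subgroup.mem_center_iff.1 hn' g, mul_inv_cancel_right]
      exact hn
    have htop : Subgroup.zpowers a ⊔ Subgroup.zpowers b = ⊤ := by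
      have h1 : (T1.subgroupOf T ⊔ Subgroup.zpowers (⟨w, hwT⟩ : T) ⊔ Subgroup.zpowers (⟨w1, hwT'⟩ : T)) = ⊤ := by
        apply Subgroup.map_injective T.subtype_injective
        rw [Subgroup.map_sup, Subgroup.map_sup, MonoidHom.map_zpowers, MonoidHom.map_zpowers,
          Subgroup.map_subgroupOf_eq_of_le hT1T, ← MonoidHom.range_eq_map, Subgroup.range_subtype]
        exact hUeq
      have h2 := congrArg (Subgroup.map q) h1
      rw [Subgroup.map_sup, Subgroup.map_sup, MonoidHom.map_zpowers, MonoidHom.map_zpowers,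
        Subgroup.map_top_of_surjective q (QuotientGroup.mk'_surjective _)] at h2
      have h3 : (T1.subgroupOf T).map q = ⊥ := by
        rw [eq_bot_iff]
        rintro _ ⟨x, hx, rfl⟩
        rw [Subgroup.mem_bot, hq1]; exact hx
      rw [h3, bot_sup_eq] at h2
      exact h2
    have hsurj : Function.Surjective (fun x : Subgroup.zpowers a × Subgroup.zpowers b => (x.1 : T ⧸ T1.subgroupOf T) * x.2) := by
      intro y
      have hy : y ∈ Subgroup.zpowers a ⊔ Subgroup.zpowers b := by rw [htop]; exact Subgroup.mem_top _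
      obtain ⟨u, hu, v, hv, huv⟩ := Subgroup.mem_sup_of_normal_right.1 hy
      exact ⟨⟨⟨u, hu⟩, ⟨v, hv⟩⟩, huv⟩
    have h5 := Nat.card_le_card_of_surjective _ hsurj
    rw [Nat.card_prod, Nat.card_zpowers, Nat.card_zpowers] at h5
    have h6 : orderOf a ≤ 2 := Nat.le_of_dvd (by norm_num) (orderOf_dvd_of_pow_eq_one ha2)
    have h7 : orderOf b ≤ 2 := Nat.le_of_dvd (by norm_num) (orderOf_dvd_of_pow_eq_one hb2)
    calc _ ≤ _ := h5
      _ ≤ 2 * 2 := Nat.mul_le_mul h6 h7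
  have h4 : T1.relIndex T = 4 := by
    rw [hidx]
    obtain ⟨n, hn'⟩ := (IsPGroup.iff_card).1 (hT.to_quotient (T1.subgroupOf T))
    have hn0 : n ≠ 0 := by
      rintro rfl
      rw [pow_zero, ← hidx] at hn'
      rw [Subgroup.relIndex_eq_one] at hn'
      exact hT1ne (le_antisymm hT1T hn')
    have hn1 : n ≠ 1 := by
      rintro rfl
      rw [pow_one] at hn'
      -- only one nontrivial coset
      have h1 : q ⟨w, hwT⟩ ≠ 1 := fun h => hwT1 ((hq1 _).1 h)
      have hw1T1 : w1 ∉ T1 := by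
        intro h
        apply hwT1
        have := hconjT1' _ h
        have e : r⁻¹ * w1 * r = w := by rw [hw1]; group
        rwa [e] at this
      have h2 : q ⟨w1, hwT'⟩ ≠ 1 := fun h => hw1T1 ((hq1 _).1 h)
      have h3 : q ⟨w, hwT⟩ = q ⟨w1, hwT'⟩ := by
        haveI : Fintype (T ⧸ T1.subgroupOf T) := Fintype.ofFinite _
        by_contra hne
        have h4 : ({1, q ⟨w, hwT⟩, q ⟨w1, hwT'⟩} : Finset (T ⧸ T1.subgroupOf T)).card ≤ 2 := by
          rw [← hn', Nat.card_eq_fintype_card]; exact Finset.card_le_univ _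
        rw [Finset.card_eq_three.2 ⟨1, q ⟨w, hwT⟩, q ⟨w1, hwT'⟩, h1.symm, h2.symm, hne, rfl⟩] at h4
        omega
      apply hwT1
      apply hfix w hwT
      have h4 : q ((⟨w, hwT⟩ : T)⁻¹ * ⟨w1, hwT'⟩) = 1 := by rw [map_mul, map_inv, h3]; group
      rw [hq1] at h4
      exact h4
    have hn2 : n ≤ 2 := by
      by_contra h
      push Not at h
      have : 2 ^ 3 ≤ 2 ^ n := Nat.pow_le_pow_right (by norm_num) h
      rw [← hn'] at this
      omega
    have : n = 2 := by omega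
    rw [hn', this]; norm_num
  -- pass to the normalizer of `T`
  set X := Subgroup.normalizer (T : Set G) with hX
  have hTX : T ≤ X := Subgroup.le_normalizer
  haveI hTnX : (T.subgroupOf X).Normal := Subgroup.normal_subgroupOf_of_le_normalizer le_rfl
  have hsec := s4_sec2 (G := ↥X) (T.subgroupOf X) (hT.comap_subtype) (r := ⟨r, hr⟩) (t := ⟨t, ht⟩) (Subtype.ext hr3) (k := k)
    (Subtype.ext ht2) (Subtype.ext hrt) (by
      have e1 : (T.subgroupOf X ⊓ Subgroup.centralizer {(⟨r, hr⟩ : ↥X)}) = T1.subgroupOf X := by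
        ext x
        rw [Subgroup.mem_inf, Subgroup.mem_subgroupOf, Subgroup.mem_subgroupOf, Subgroup.mem_centralizer_singleton_iff, hmemT1]
        constructor
        · rintro ⟨h1, h2⟩; exact ⟨h1, congrArg Subtype.val h2⟩
        · rintro ⟨h1, h2⟩; exact ⟨h1, Subtype.ext h2⟩
      rw [e1, Subgroup.relIndex_subgroupOf hTX, h4])
  exact hsec.trans ⟨X, MonoidHom.id _, Function.surjective_id⟩

end
end Cfsg.Agent.H2
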