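import Cfsg.Agent.H2.S4Lem
import Cfsg.Agent.H6.WeakClosure3

set_option autoImplicit false
set_option linter.unusedSectionVars false
set_option linter.unusedSimpArgs false
set_option linter.unusedVariables false
set_option linter.style.haveILetI false
open Cfsg
open scoped commutatorElement

/-! `S₄`-sections from `S₃`-actions on 2-groups, continued (helper2). -/

namespace Cfsg.Agent.H2
open Cfsg.Agent.H6

section
variable {G : Type*} [Group G] [Finite G]

/-- the case of an inverted 3-element -/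
theorem s4_of_inv (T : Subgroup G) (hT : IsPGroup 2 T) {r t : G} (hr : r ∈ Subgroup.normalizer (T : Set G))
    (ht : t ∈ Subgroup.normalizer (T : Set G)) {k m : ℕ} (ht2 : t ^ 2 ^ k = 1) (hr3 : r ^ 3 ^ m = 1)
    (hrt : t * r * t⁻¹ = r⁻¹) (hrT : ¬ T ≤ Subgroup.centralizer {r}) : Sec (Equiv.Perm (Fin 4)) G := by
  classical
  haveI : Fact (Nat.Prime 3) := ⟨by norm_num⟩
  have hzp : IsPGroup 3 ↥(Subgroup.zpowers r) := by
    rintro ⟨x, hx⟩
    obtain ⟨i, rfl⟩ := hx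
    refine ⟨m, Subtype.ext ?_⟩
    change (r ^ i) ^ 3 ^ m = 1
    rw [← zpow_natCast, ← zpow_mul, mul_comm, zpow_mul, zpow_natCast, hr3, one_zpow]
  have hrQ : r ∉ Subgroup.centralizer (T : Set G) := by
    intro h
    apply hrT
    intro x hx
    rw [Subgroup.mem_centralizer_singleton_iff]
    exact Subgroup.mem_centralizer_iff.1 h x hx
  obtain ⟨j, hj1, hj2⟩ := exists_pow_not_mem (p := 3) hzp (Subgroup.mem_zpowers r) hrQ
  set s := r ^ 3 ^ j with hs
  have hsN : s ∈ Subgroup.normalizer (T : Set G) := Subgroup.pow_mem _ hr _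
  have hst : t * s * t⁻¹ = s⁻¹ := by
    rw [hs, ← conj_pow, hrt, inv_pow]
  have hsz : s ∈ Subgroup.zpowers r := Subgroup.pow_mem _ (Subgroup.mem_zpowers r) _
  set R := Subgroup.zpowers (s ^ 3) with hR
  set K := Subgroup.normalizer (T : Set G) ⊓ Subgroup.normalizer (R : Set G) with hK
  have hRzp : R ≤ Subgroup.zpowers r := by rw [hR, Subgroup.zpowers_le]; exact Subgroup.pow_mem _ hsz 3
  have hTcR : ∀ x ∈ T, ∀ y ∈ R, x * y = y * x := by
    rintro x hx _ ⟨i, rfl⟩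
    have h1 : Commute x (s ^ 3) := Subgroup.mem_centralizer_iff.1 hj2 x hx
    exact (h1.zpow_right i).eq
  have hTK : T ≤ K := by
    refine le_inf Subgroup.le_normalizer ?_
    intro x hx
    apply H2.mem_norm_of_conj
    intro y hy
    rw [hTcR x hx y hy, mul_inv_cancel_right]; exact hy
  have hRK : R ≤ K := by
    refine le_inf ?_ Subgroup.le_normalizer
    rw [hR, Subgroup.zpowers_le]; exact Subgroup.pow_mem _ hsN 3
  have hsK : s ∈ K := by
    refine ⟨hsN, ?_⟩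
    apply H2.mem_norm_of_conj
    rintro _ ⟨i, rfl⟩
    have : s * (s ^ 3) ^ i * s⁻¹ = (s ^ 3) ^ i := by
      rw [(show Commute s ((s ^ 3) ^ i) from ((Commute.refl s).pow_right 3).zpow_right i).eq]; group
    change s * (s ^ 3) ^ i * s⁻¹ ∈ R
    rw [this]; exact ⟨i, rfl⟩
  have htK : t ∈ K := by
    refine ⟨ht, ?_⟩
    apply H2.mem_norm_of_conj
    rintro _ ⟨i, rfl⟩
    change t * (s ^ 3) ^ i * t⁻¹ ∈ R
    rw [← conj_zpow, ← conj_pow, hst]
    exact Subgroup.zpow_mem _ (by rw [inv_pow]; exact R.inv_mem (Subgroup.mem_zpowers _)) i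
  haveI hRn : (R.subgroupOf K).Normal := Subgroup.normal_subgroupOf_of_le_normalizer inf_le_right
  haveI hTn : (T.subgroupOf K).Normal := Subgroup.normal_subgroupOf_of_le_normalizer inf_le_left
  set q := QuotientGroup.mk' (R.subgroupOf K) with hq
  have hq1 : ∀ x : K, q x = 1 ↔ (x : G) ∈ R := fun x => by
    rw [hq, QuotientGroup.mk'_apply, QuotientGroup.eq_one_iff, Subgroup.mem_subgroupOf]
  haveI hTqn : ((T.subgroupOf K).map q).Normal := Subgroup.Normal.map inferInstance q (QuotientGroup.mk'_surjective _)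
  have hntop : Subgroup.normalizer (((T.subgroupOf K).map q : Subgroup _) : Set (K ⧸ R.subgroupOf K)) = ⊤ :=
    Subgroup.normalizer_eq_top_iff.2 inferInstance
  have hsec := s4_of_inv3 ((T.subgroupOf K).map q) ((hT.comap_subtype (K := K)).map q) (r := q ⟨s, hsK⟩) (t := q ⟨t, htK⟩)
    (by rw [hntop]; exact Subgroup.mem_top _) (by rw [hntop]; exact Subgroup.mem_top _) (k := k)
    (by rw [← map_pow, hq1]; change t ^ 2 ^ k ∈ R; rw [ht2]; exact R.one_mem)
    (by rw [← map_pow, hq1]; exact Subgroup.mem_zpowers _)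
    (by rw [← map_inv, ← map_mul, ← map_mul, ← map_inv]; congr 1; exact Subtype.ext hst) (by
      intro hcon
      apply hj1
      rw [Subgroup.mem_centralizer_iff]
      intro x hx
      have h1 := Subgroup.mem_centralizer_singleton_iff.1 (hcon ⟨⟨x, hTK hx⟩, hx, rfl⟩)
      have h2 : q (⟨x, hTK hx⟩ * ⟨s, hsK⟩ * (⟨x, hTK hx⟩ : K)⁻¹ * (⟨s, hsK⟩ : K)⁻¹) = 1 := by
        simp only [map_mul, map_inv]; rw [h1]; group
      rw [hq1] at h2
      have h3 : x * s * x⁻¹ * s⁻¹ ∈ R := h2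
      have h4 : x * s * x⁻¹ * s⁻¹ ∈ T := by
        have e : x * s * x⁻¹ * s⁻¹ = x * (s * x⁻¹ * s⁻¹) := by group
        rw [e]
        exact T.mul_mem hx ((Subgroup.mem_normalizer_iff.1 hsN _).1 (T.inv_mem hx))
      obtain ⟨i, hi⟩ := hT ⟨_, h4⟩
      obtain ⟨i', hi'⟩ := hzp ⟨_, hRzp h3⟩
      have e1 := congrArg Subtype.val hi
      have e2 := congrArg Subtype.val hi'
      have e3 : x * s * x⁻¹ * s⁻¹ = 1 := by
        rw [← orderOf_eq_one_iff]
        exact Nat.eq_one_of_dvd_coprimes (Nat.Coprime.pow _ _ (by norm_num : Nat.Coprime 3 2))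
          (orderOf_dvd_of_pow_eq_one e2) (orderOf_dvd_of_pow_eq_one e1)
      rw [mul_inv_eq_one, mul_inv_eq_iff_eq_mul] at e3
      exact e3)
  exact hsec.trans (Sec.section K R)

/-- fixed points of a 2-group in a coset of odd order -/
theorem exists_fix_coset {t : G} {k : ℕ} (ht : t ^ 2 ^ k = 1) {P D : Subgroup G} (hD : Odd (Nat.card D)) (hDP : D ≤ P)
    (htP : t ∈ Subgroup.normalizer (P : Set G)) (htD : t ∈ Subgroup.normalizer (D : Set G)) {x : G} (hx : x ∈ P)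
    (hxt : x⁻¹ * (t * x * t⁻¹) ∈ D) : ∃ y ∈ P, x⁻¹ * y ∈ D ∧ t * y * t⁻¹ = y := by
  classical
  set Z := Subgroup.zpowers t with hZ
  have hZp : IsPGroup 2 ↥Z := by
    rintro ⟨x, hx⟩
    obtain ⟨i, rfl⟩ := hx
    refine ⟨k, Subtype.ext ?_⟩
    change (t ^ i) ^ 2 ^ k = 1
    rw [← zpow_natCast, ← zpow_mul, mul_comm, zpow_mul, zpow_natCast, ht, one_zpow]
  -- the stabilizer property
  have hst : ∀ g ∈ Z, ∀ y ∈ P, x⁻¹ * y ∈ D → g * y * g⁻¹ ∈ P ∧ x⁻¹ * (g * y * g⁻¹) ∈ D := by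
    set N : Subgroup G := Subgroup.normalizer (P : Set G) ⊓ Subgroup.normalizer (D : Set G) with hN
    have htN : t ∈ N := ⟨htP, htD⟩
    have key : ∀ g ∈ Z, g ∈ N ∧ x⁻¹ * (g * x * g⁻¹) ∈ D := by
      intro g hg
      have hclo : Z = Subgroup.closure {t} := Subgroup.zpowers_eq_closure t
      rw [hclo] at hg
      induction hg using Subgroup.closure_induction with
      | mem y hy =>
        rw [Set.mem_singleton_iff] at hy
        subst hy
        exact ⟨htN, hxt⟩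
      | one => exact ⟨N.one_mem, by simpa using D.one_mem⟩
      | mul a b _ _ ha hb =>
        refine ⟨N.mul_mem ha.1 hb.1, ?_⟩
        have h1 := (Subgroup.mem_normalizer_iff.1 ha.1.2 _).1 hb.2
        have e : x⁻¹ * (a * b * x * (a * b)⁻¹) = x⁻¹ * (a * x * a⁻¹) * (a * (x⁻¹ * (b * x * b⁻¹)) * a⁻¹) := by group
        rw [e]; exact D.mul_mem ha.2 h1
      | inv a _ ha =>
        refine ⟨N.inv_mem ha.1, ?_⟩
        have h1 := (Subgroup.mem_normalizer_iff.1 (N.inv_mem ha.1).2 _).1 (D.inv_mem ha.2)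
        have e : x⁻¹ * (a⁻¹ * x * a⁻¹⁻¹) = a⁻¹ * (x⁻¹ * (a * x * a⁻¹))⁻¹ * a⁻¹⁻¹ := by group
        rw [e]; exact h1
    intro g hg y hy hxy
    obtain ⟨h1, h2⟩ := key g hg
    refine ⟨(Subgroup.mem_normalizer_iff.1 h1.1 _).1 hy, ?_⟩
    have h3 := (Subgroup.mem_normalizer_iff.1 h1.2 _).1 hxy
    have e : x⁻¹ * (g * y * g⁻¹) = x⁻¹ * (g * x * g⁻¹) * (g * (x⁻¹ * y) * g⁻¹) := by group
    rw [e]; exact D.mul_mem h2 h3
  letI : MulAction Z {y : G // y ∈ P ∧ x⁻¹ * y ∈ D} :=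
    { smul := fun g y => ⟨g * y * (g : G)⁻¹, hst g g.2 y y.2.1 y.2.2⟩
      one_smul := fun y => Subtype.ext (by change (1 : G) * y * (1 : G)⁻¹ = y; group)
      mul_smul := fun a b y => Subtype.ext (by
        change (a * b : G) * y * (a * b : G)⁻¹ = a * (b * y * (b : G)⁻¹) * (a : G)⁻¹; group) }
  have hcard : Nat.card {y : G // y ∈ P ∧ x⁻¹ * y ∈ D} = Nat.card D := by
    refine Nat.card_congr
      { toFun := fun y => ⟨x⁻¹ * y, y.2.2⟩
        invFun := fun d => ⟨x * d, P.mul_mem hx (hDP d.2), by rw [inv_mul_cancel_left]; exact d.2⟩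
        left_inv := fun y => Subtype.ext (by simp)
        right_inv := fun d => Subtype.ext (by simp) }
  obtain ⟨y, hy⟩ := hZp.nonempty_fixed_point_of_prime_not_dvd_card {y : G // y ∈ P ∧ x⁻¹ * y ∈ D} (by
    rw [hcard]; intro h
    exact (Nat.not_even_iff_odd.2 hD) (even_iff_two_dvd.2 h))
  refine ⟨y, y.2.1, y.2.2, ?_⟩
  exact congrArg Subtype.val (hy ⟨t, Subgroup.mem_zpowers t⟩)

/-- the case of an action through a group with `S₃` as a quotient -/
theorem s4_of_mod (T N0 : Subgroup G) [hTn : T.Normal] [hNn : N0.Normal] (hT : IsPGroup 2 T)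
    (hC : Subgroup.centralizer (T : Set G) ≤ N0) {a c : G} (hc : c ∉ N0) (hc3 : c ^ 3 ∈ N0)
    (hac : a * c * a⁻¹ * c ∈ N0) : Sec (Equiv.Perm (Fin 4)) G := by
  classical
  haveI : Fact (Nat.Prime 3) := ⟨by norm_num⟩
  set q := QuotientGroup.mk' N0 with hq
  have hq1 : ∀ x : G, q x = 1 ↔ x ∈ N0 := fun x => QuotientGroup.eq_one_iff x
  set K1 := N0 ⊔ Subgroup.zpowers c with hK1
  have hcK : c ∈ K1 := (le_sup_right : Subgroup.zpowers c ≤ K1) (Subgroup.mem_zpowers c)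
  have hNK : N0 ≤ K1 := le_sup_left
  have hqK : ∀ x ∈ K1, ∃ i : ℤ, q x = q c ^ i := by
    intro x hx
    have h1 : q x ∈ K1.map q := ⟨x, hx, rfl⟩
    have h2 : K1.map q = Subgroup.zpowers (q c) := by
      rw [hK1, Subgroup.map_sup, MonoidHom.map_zpowers]
      have h3 : N0.map q = ⊥ := by
        rw [eq_bot_iff]
        rintro _ ⟨x, hx, rfl⟩
        rw [Subgroup.mem_bot, hq1]; exact hx
      rw [h3, bot_sup_eq]
    rw [h2] at h1
    obtain ⟨i, hi⟩ := h1
    exact ⟨i, hi.symm⟩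
  -- the 3-part of `c`
  obtain ⟨e, m', hm', hn⟩ := Nat.exists_eq_pow_mul_and_not_dvd (orderOf_pos c).ne' 3 (by norm_num)
  set c3 := c ^ m' with hc3d
  have hc3N : c3 ∉ N0 := by
    intro h
    apply hc
    have h1 : (q c) ^ m' = 1 := by rw [← map_pow, hq1]; exact h
    have h2 : (q c) ^ 3 = 1 := by rw [← map_pow, hq1]; exact hc3
    rw [← hq1, ← orderOf_eq_one_iff]
    exact Nat.eq_one_of_dvd_coprimes ((Nat.Prime.coprime_iff_not_dvd (by norm_num)).2 hm')
      (orderOf_dvd_of_pow_eq_one h2) (orderOf_dvd_of_pow_eq_one h1)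
  have hc3p : c3 ^ 3 ^ e = 1 := by rw [hc3d, ← pow_mul, mul_comm, ← hn, pow_orderOf_eq_one]
  have hzp : ∀ (x : G) (i : ℕ), x ^ 3 ^ i = 1 → IsPGroup 3 ↥(Subgroup.zpowers x) := by
    rintro x i hx ⟨y, hy⟩
    obtain ⟨j, rfl⟩ := hy
    refine ⟨i, Subtype.ext ?_⟩
    change (x ^ j) ^ 3 ^ i = 1
    rw [← zpow_natCast, ← zpow_mul, mul_comm, zpow_mul, zpow_natCast, hx, one_zpow]
  obtain ⟨P, hP⟩ := exists_sylIn (p := 3) K1
  have hPp : IsPGroup 3 P := hP.2.1
  obtain ⟨h, hh, hhP⟩ := hP.exists_conj_le (hzp c3 e hc3p) (by rw [Subgroup.zpowers_le]; exact K1.pow_mem hcK _)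
  set x := h * c3 * h⁻¹ with hx
  have hxP : x ∈ P := hhP (by
    rw [mem_cj, hx]
    have : h⁻¹ * (h * c3 * h⁻¹) * h = c3 := by group
    rw [this]; exact Subgroup.mem_zpowers _)
  have hxN : x ∉ N0 := by
    intro h1
    apply hc3N
    have h2 := hNn.conj_mem _ h1 h⁻¹
    have : h⁻¹ * x * h⁻¹⁻¹ = c3 := by rw [hx]; group
    rwa [this] at h2
  have hqac : q a * q c * (q a)⁻¹ = (q c)⁻¹ := by
    have h1 := (hq1 _).2 hac
    rw [map_mul, map_mul, map_mul, map_inv] at h1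
    exact eq_inv_of_mul_eq_one_left h1
  -- the element `n`
  have haK : cj a P ≤ K1 := by
    have h1 : K1.map (MulAut.conj a).toMonoidHom ≤ K1 := by
      rw [hK1, Subgroup.map_sup, MonoidHom.map_zpowers]
      refine sup_le ?_ ?_
      · rintro _ ⟨y, hy, rfl⟩
        exact hNK (hNn.conj_mem y hy a)
      · rw [Subgroup.zpowers_le]
        change a * c * a⁻¹ ∈ _
        have : a * c * a⁻¹ = (a * c * a⁻¹ * c) * c⁻¹ := by group
        rw [this]; exact K1.mul_mem (hNK hac) (K1.inv_mem hcK)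
    exact (cj_mono hP.1).trans h1
  obtain ⟨k1, hk1, hk1P⟩ := hP.exists_conj_le (isPGroup_cj (g := a) hPp) haK
  set n := k1 * a with hnd
  have hnP : n ∈ Subgroup.normalizer (P : Set G) := by
    rw [mem_norm]
    change cj n P = P
    apply Subgroup.eq_of_le_of_card_ge
    · rw [hnd, cj_mul]; exact hk1P
    · rw [card_cj]
  have hinv : ∀ y ∈ K1, q n * q y * (q n)⁻¹ = (q y)⁻¹ := by
    intro y hy
    obtain ⟨i, hi⟩ := hqK y hy
    obtain ⟨j, hj⟩ := hqK k1 hk1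
    have e1 : q a * (q c ^ i) * (q a)⁻¹ = (q c ^ i)⁻¹ := by
      rw [← conj_zpow, hqac, inv_zpow]
    rw [hnd, map_mul, hi, hj]
    calc (q c ^ j * q a) * q c ^ i * (q c ^ j * q a)⁻¹ = q c ^ j * (q a * (q c ^ i) * (q a)⁻¹) * (q c ^ j)⁻¹ := by group
      _ = q c ^ j * (q c ^ i)⁻¹ * (q c ^ j)⁻¹ := by rw [e1]
      _ = (q c ^ i)⁻¹ := by group
  obtain ⟨k, m, hm, hkm⟩ := Nat.exists_eq_pow_mul_and_not_dvd (orderOf_pos n).ne' 2 (by norm_num)
  set t := n ^ m with ht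
  have ht2 : t ^ 2 ^ k = 1 := by rw [ht, ← pow_mul, mul_comm, ← hkm, pow_orderOf_eq_one]
  have htP : t ∈ Subgroup.normalizer (P : Set G) := Subgroup.pow_mem _ hnP _
  have htinv : ∀ y ∈ K1, q t * q y * (q t)⁻¹ = (q y)⁻¹ := by
    obtain ⟨l, hl⟩ : Odd m := by
      rw [← Nat.not_even_iff_odd, even_iff_two_dvd]; exact hm
    intro y hy
    have h2 : ∀ l : ℕ, (q n) ^ (2 * l) * q y * ((q n) ^ (2 * l))⁻¹ = q y := by
      intro l
      induction l with
      | zero => simp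
      | succ l ih =>
        have e2 : q n * q n * q y * (q n * q n)⁻¹ = q y := by
          have h3 := hinv y hy
          have h4 := hinv y⁻¹ (K1.inv_mem hy)
          rw [map_inv, inv_inv] at h4
          calc q n * q n * q y * (q n * q n)⁻¹ = q n * (q n * q y * (q n)⁻¹) * (q n)⁻¹ := by group
            _ = q y := by rw [h3, h4]
        calc (q n) ^ (2 * (l + 1)) * q y * ((q n) ^ (2 * (l + 1)))⁻¹
            = (q n) ^ (2 * l) * (q n * q n * q y * (q n * q n)⁻¹) * ((q n) ^ (2 * l))⁻¹ := by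
              rw [mul_add, mul_one, pow_add, pow_two]; group
          _ = q y := by rw [e2, ih]
    rw [ht, map_pow, hl, pow_succ']
    calc q n * q n ^ (2 * l) * q y * (q n * q n ^ (2 * l))⁻¹ = q n * (q n ^ (2 * l) * q y * (q n ^ (2 * l))⁻¹) * (q n)⁻¹ := by group
      _ = (q y)⁻¹ := by rw [h2, hinv y hy]
  set D := P ⊓ N0 with hD
  have hDodd : Odd (Nat.card D) := by
    obtain ⟨i, hi⟩ := (IsPGroup.iff_card).1 (hPp.to_le (inf_le_left : D ≤ P))
    rw [hi]; exact Odd.pow (by decide)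
  have htD : t ^ 2 ∈ Subgroup.normalizer (D : Set G) := by
    apply H2.mem_norm_of_conj
    intro y hy
    exact ⟨(Subgroup.mem_normalizer_iff.1 (Subgroup.pow_mem _ htP 2) y).1 hy.1, hNn.conj_mem y hy.2 _⟩
  obtain ⟨y, hyP, hyD, hyt⟩ := exists_fix_coset (t := t ^ 2) (k := k) (by rw [← pow_mul, mul_comm, pow_mul, ht2, one_pow]) hDodd
    inf_le_left (Subgroup.pow_mem _ htP 2) htD hxP (by
      refine ⟨P.mul_mem (P.inv_mem hxP) ((Subgroup.mem_normalizer_iff.1 (Subgroup.pow_mem _ htP 2) x).1 hxP), ?_⟩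
      change x⁻¹ * (t ^ 2 * x * (t ^ 2)⁻¹) ∈ N0
      rw [← hq1]
      have h3 := htinv x (hP.1 hxP)
      have h4 := htinv x⁻¹ (K1.inv_mem (hP.1 hxP))
      rw [map_inv, inv_inv] at h4
      simp only [map_mul, map_inv, map_pow]
      calc (q x)⁻¹ * (q t ^ 2 * q x * (q t ^ 2)⁻¹) = (q x)⁻¹ * (q t * (q t * q x * (q t)⁻¹) * (q t)⁻¹) := by
            rw [pow_two]; group
        _ = 1 := by rw [h3, h4]; group)
  have hyK : y ∈ K1 := hP.1 hyP
  have hyt' : t * (t * y * t⁻¹) * t⁻¹ = y := by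
    have : t * (t * y * t⁻¹) * t⁻¹ = t ^ 2 * y * (t ^ 2)⁻¹ := by rw [pow_two]; group
    rw [this, hyt]
  set r := y⁻¹ * (t * y * t⁻¹) with hr
  have hrP : r ∈ P := P.mul_mem (P.inv_mem hyP) ((Subgroup.mem_normalizer_iff.1 htP y).1 hyP)
  obtain ⟨j, hj⟩ := hPp ⟨r, hrP⟩
  have hrt : t * r * t⁻¹ = r⁻¹ := by
    calc t * r * t⁻¹ = (t * y * t⁻¹)⁻¹ * (t * (t * y * t⁻¹) * t⁻¹) := by rw [hr]; group
      _ = (t * y * t⁻¹)⁻¹ * y := by rw [hyt']
      _ = r⁻¹ := by rw [hr]; group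
  have hqy : q y ≠ 1 := by
    intro h1
    apply hxN
    have h2 := N0.mul_mem ((hq1 y).1 h1) (N0.inv_mem (hyD.2))
    have : y * (x⁻¹ * y)⁻¹ = x := by group
    rwa [this] at h2
  have hrN : r ∉ N0 := by
    intro h1
    apply hqy
    have h2 : q r = (q y)⁻¹ * (q y)⁻¹ := by
      rw [hr]; simp only [map_mul, map_inv]; rw [htinv y hyK]
    rw [(hq1 r).2 h1] at h2
    have h3 : q y ^ 2 = 1 := by
      rw [pow_two, ← inv_inj, mul_inv_rev, ← h2, inv_one]
    obtain ⟨i, hi⟩ := hPp ⟨y, hyP⟩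
    have hi' : y ^ 3 ^ i = 1 := congrArg Subtype.val hi
    have h4 : q y ^ 3 ^ i = 1 := by rw [← map_pow, hi', map_one]
    rw [← orderOf_eq_one_iff]
    exact Nat.eq_one_of_dvd_coprimes (Nat.Coprime.pow_right i (by norm_num : Nat.Coprime 2 3))
      (orderOf_dvd_of_pow_eq_one h3) (orderOf_dvd_of_pow_eq_one h4)
  have hntop : Subgroup.normalizer (T : Set G) = ⊤ := Subgroup.normalizer_eq_top_iff.2 inferInstance
  refine s4_of_inv T hT (r := r) (t := t) (by rw [hntop]; exact Subgroup.mem_top _) (by rw [hntop]; exact Subgroup.mem_top _)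
    (k := k) (m := j) ht2 (congrArg Subtype.val hj) hrt ?_
  intro h1
  apply hrN
  apply hC
  rw [Subgroup.mem_centralizer_iff]
  intro v hv
  exact Subgroup.mem_centralizer_singleton_iff.1 (h1 hv)

end
end Cfsg.Agent.H2
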