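import Mathlib
import Cfsg.Agent.H2.ClassSize

/-! Sylow subgroups of normal subgroups etc., helper2. -/

set_option autoImplicit false

namespace Cfsg.Agent.H2

open Subgroup

variable {G : Type*} [Group G]

theorem exists_sylow_inf [Finite G] {p : ℕ} [Fact p.Prime] (P : Sylow p G) (N : Subgroup G) [N.Normal] :
    ∃ S : Sylow p N, (S : Subgroup N) = (P : Subgroup G).subgroupOf N ∧
      (S : Subgroup N).map N.subtype = (P : Subgroup G) ⊓ N := by
  have h1 : IsPGroup p ((P : Subgroup G).subgroupOf N) := P.2.comap_subtype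
  have h2 : ¬ p ∣ ((P : Subgroup G).subgroupOf N).index := by
    intro h
    exact P.not_dvd_index (h.trans (relIndex_dvd_index_of_normal_right (P : Subgroup G) N))
  exact ⟨h1.toSylow h2, rfl, subgroupOf_map_subtype _ _⟩

/-- Frattini argument with `P ⊓ N`. -/
theorem normalizer_inf_sup_eq_top [Finite G] {p : ℕ} [Fact p.Prime] (P : Sylow p G) (N : Subgroup G) [N.Normal] :
    normalizer (((P : Subgroup G) ⊓ N : Subgroup G) : Set G) ⊔ N = ⊤ := by
  obtain ⟨S, -, hS⟩ := exists_sylow_inf P N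
  rw [← hS]
  exact Sylow.normalizer_sup_eq_top S

theorem le_normalizer_inf (P N : Subgroup G) [hN : N.Normal] : P ≤ normalizer ((P ⊓ N : Subgroup G) : Set G) := by
  intro x hx
  rw [mem_normalizer_iff]
  intro y
  constructor
  · rintro ⟨h1, h2⟩
    exact ⟨P.mul_mem (P.mul_mem hx h1) (P.inv_mem hx), hN.conj_mem y h2 x⟩
  · rintro ⟨h1, h2⟩
    have e : y = x⁻¹ * (x * y * x⁻¹) * x⁻¹⁻¹ := by group
    rw [e]
    exact ⟨P.mul_mem (P.mul_mem (P.inv_mem hx) h1) (P.inv_mem (P.inv_mem hx)), hN.conj_mem _ h2 x⁻¹⟩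

theorem isPGroup_quotient_of_sup_eq_top {p : ℕ} {P N : Subgroup G} [N.Normal] (hP : IsPGroup p P) (h : P ⊔ N = ⊤) :
    IsPGroup p (G ⧸ N) := by
  intro y
  obtain ⟨g, rfl⟩ := QuotientGroup.mk'_surjective N y
  have hg : g ∈ P ⊔ N := by rw [h]; trivial
  obtain ⟨a, ha, n, hn, rfl⟩ := Subgroup.mem_sup_of_normal_right.1 hg
  obtain ⟨k, hk⟩ := hP ⟨a, ha⟩
  have hk' : a ^ p ^ k = 1 := congrArg Subtype.val hk
  refine ⟨k, ?_⟩
  have hn1 : QuotientGroup.mk' N n = 1 := (QuotientGroup.eq_one_iff n).2 hn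
  rw [map_mul, hn1, mul_one, ← map_pow, hk', map_one]

end Cfsg.Agent.H2
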