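import Cfsg.Agent.H2.S4Lem2
import Cfsg.Agent.H2.BaerSuzuki

set_option autoImplicit false
set_option linter.unusedSectionVars false
set_option linter.unusedSimpArgs false
set_option linter.unusedVariables false
set_option linter.style.haveILetI false
open Cfsg
open scoped commutatorElement

/-! Transvections on abelian 2-groups and `S₄`-sections (helper2). -/

namespace Cfsg.Agent.H2
open Cfsg.Agent.H6

section
variable {G : Type*} [Group G]

/-- `a` acts on `V` as a transvection with centre `e` -/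
structure Tv (V : Subgroup G) (a e : G) : Prop where
  mem : e ∈ V
  ne : e ≠ 1
  sq : e * e = 1
  fix : a * e * a⁻¹ = e
  act : ∀ v ∈ V, a * v * a⁻¹ = v ∨ a * v * a⁻¹ = v * e

theorem Tv.conj {V : Subgroup G} [hVn : V.Normal] {a e : G} (h : Tv V a e) (g : G) : Tv V (g * a * g⁻¹) (g * e * g⁻¹) := by
  refine ⟨hVn.conj_mem _ h.mem g, ?_, ?_, ?_, ?_⟩
  · intro h1
    apply h.ne
    calc e = g⁻¹ * (g * e * g⁻¹) * g := by group
      _ = 1 := by rw [h1]; group
  · calc g * e * g⁻¹ * (g * e * g⁻¹) = g * (e * e) * g⁻¹ := by group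
      _ = 1 := by rw [h.sq]; group
  · calc g * a * g⁻¹ * (g * e * g⁻¹) * (g * a * g⁻¹)⁻¹ = g * (a * e * a⁻¹) * g⁻¹ := by group
      _ = _ := by rw [h.fix]
  · intro v hv
    have h1 := h.act (g⁻¹ * v * g) (by
      have := hVn.conj_mem _ hv g⁻¹
      rwa [inv_inv] at this)
    have e1 : g * a * g⁻¹ * v * (g * a * g⁻¹)⁻¹ = g * (a * (g⁻¹ * v * g) * a⁻¹) * g⁻¹ := by group
    rw [e1]
    rcases h1 with h1 | h1
    · left; rw [h1]; group
    · right; rw [h1]; group

/-- the subgroup `{1, e, e', ee'}` -/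
def four (e e' : G) (h : e * e' = e' * e) (h1 : e * e = 1) (h2 : e' * e' = 1) : Subgroup G where
  carrier := {x | ∃ i j : ℕ, x = e ^ i * e' ^ j}
  one_mem' := ⟨0, 0, by simp⟩
  mul_mem' := by
    rintro _ _ ⟨i, j, rfl⟩ ⟨k, l, rfl⟩
    refine ⟨i + k, j + l, ?_⟩
    have hc : Commute e e' := h
    calc e ^ i * e' ^ j * (e ^ k * e' ^ l) = e ^ i * (e' ^ j * e ^ k) * e' ^ l := by group
      _ = e ^ i * (e ^ k * e' ^ j) * e' ^ l := by rw [(hc.pow_pow k j).eq]
      _ = e ^ (i + k) * e' ^ (j + l) := by rw [pow_add, pow_add]; group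
  inv_mem' := by
    rintro _ ⟨i, j, rfl⟩
    refine ⟨i, j, ?_⟩
    have hc : Commute e e' := h
    rw [mul_inv_rev, ← inv_pow, ← inv_pow, inv_eq_of_mul_eq_one_left h1, inv_eq_of_mul_eq_one_left h2, (hc.pow_pow i j).eq]

theorem mem_four {e e' : G} {h : e * e' = e' * e} {h1 : e * e = 1} {h2 : e' * e' = 1} {x : G} :
    x ∈ four e e' h h1 h2 ↔ ∃ i j : ℕ, x = e ^ i * e' ^ j := Iff.rfl

theorem left_mem_four {e e' : G} {h : e * e' = e' * e} {h1 : e * e = 1} {h2 : e' * e' = 1} : e ∈ four e e' h h1 h2 :=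
  ⟨1, 0, by simp⟩

theorem right_mem_four {e e' : G} {h : e * e' = e' * e} {h1 : e * e = 1} {h2 : e' * e' = 1} : e' ∈ four e e' h h1 h2 :=
  ⟨0, 1, by simp⟩

theorem four_sq {e e' : G} {h : e * e' = e' * e} {h1 : e * e = 1} {h2 : e' * e' = 1} {x : G} (hx : x ∈ four e e' h h1 h2) :
    x * x = 1 := by
  obtain ⟨i, j, rfl⟩ := hx
  have hc : Commute e e' := h
  calc e ^ i * e' ^ j * (e ^ i * e' ^ j) = e ^ i * (e' ^ j * e ^ i) * e' ^ j := by group
    _ = (e ^ i * e ^ i) * (e' ^ j * e' ^ j) := by rw [← (hc.pow_pow i j).eq]; group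
    _ = 1 := by rw [← pow_add, ← pow_add, ← two_mul, ← two_mul, pow_mul, pow_mul, pow_two, pow_two, h1, h2, one_pow, one_pow, one_mul]

theorem four_le {V : Subgroup G} {e e' : G} {h : e * e' = e' * e} {h1 : e * e = 1} {h2 : e' * e' = 1} (he : e ∈ V) (he' : e' ∈ V) :
    four e e' h h1 h2 ≤ V := by
  rintro _ ⟨i, j, rfl⟩
  exact V.mul_mem (V.pow_mem he _) (V.pow_mem he' _)

/-- nearly commuting transvections generate a 2-group -/
theorem pow_four_of_tv {V : Subgroup G} [hVn : V.Normal] (hVc : ∀ v ∈ V, ∀ w ∈ V, v * w = w * v) {a b e e' : G}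
    (ha : Tv V a e) (hb : Tv V b e') (hbe : b * e * b⁻¹ = e) {d : G} (hd : d ∈ Subgroup.closure ({a, b} : Set G)) :
    d ^ 4 ∈ Subgroup.centralizer (V : Set G) := by
  set F := four e e' (hVc _ ha.mem _ hb.mem) ha.sq hb.sq with hF
  set F0 := Subgroup.zpowers e with hF0
  have hF0F : F0 ≤ F := by rw [hF0, Subgroup.zpowers_le]; exact left_mem_four
  have hFV : F ≤ V := four_le ha.mem hb.mem
  have hconjV : ∀ (g : G), ∀ v ∈ V, g * v * g⁻¹ ∈ V := fun g v hv => hVn.conj_mem v hv g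
  let D : Subgroup G :=
    { carrier := {d | (∀ v ∈ V, v⁻¹ * (d * v * d⁻¹) ∈ F) ∧ (∀ f ∈ F, f⁻¹ * (d * f * d⁻¹) ∈ F0) ∧ ∀ f ∈ F0, d * f * d⁻¹ = f}
      one_mem' := ⟨fun v _ => by simpa using F.one_mem, fun v _ => by simpa using F0.one_mem, fun f _ => by simp⟩
      mul_mem' := by
        rintro x y ⟨hx1, hx2, hx3⟩ ⟨hy1, hy2, hy3⟩
        have hyF : ∀ f ∈ F, y * f * y⁻¹ ∈ F := fun f hf => by
          have := F.mul_mem hf (hF0F (hy2 f hf))
          rwa [mul_inv_cancel_left] at this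
        refine ⟨fun v hv => ?_, fun f hf => ?_, fun f hf => ?_⟩
        · have e1 : v⁻¹ * (x * y * v * (x * y)⁻¹) = (v⁻¹ * (y * v * y⁻¹)) * ((y * v * y⁻¹)⁻¹ * (x * (y * v * y⁻¹) * x⁻¹)) := by group
          rw [e1]; exact F.mul_mem (hy1 v hv) (hx1 _ (hconjV y v hv))
        · have e1 : f⁻¹ * (x * y * f * (x * y)⁻¹) = (f⁻¹ * (y * f * y⁻¹)) * ((y * f * y⁻¹)⁻¹ * (x * (y * f * y⁻¹) * x⁻¹)) := by group
          rw [e1]; exact F0.mul_mem (hy2 f hf) (hx2 _ (hyF f hf))
        · have e1 : x * y * f * (x * y)⁻¹ = x * (y * f * y⁻¹) * x⁻¹ := by group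
          rw [e1, hy3 f hf, hx3 f hf]
      inv_mem' := by
        rintro x ⟨hx1, hx2, hx3⟩
        have h1 : ∀ v ∈ V, v⁻¹ * (x⁻¹ * v * x⁻¹⁻¹) ∈ F := by
          intro v hv
          have h2 := F.inv_mem (hx1 _ (hconjV x⁻¹ v hv))
          have e1 : ((x⁻¹ * v * x⁻¹⁻¹)⁻¹ * (x * (x⁻¹ * v * x⁻¹⁻¹) * x⁻¹))⁻¹ = v⁻¹ * (x⁻¹ * v * x⁻¹⁻¹) := by group
          rwa [e1] at h2
        refine ⟨h1, fun f hf => ?_, fun f hf => ?_⟩
        · have h3 : x⁻¹ * f * x⁻¹⁻¹ ∈ F := by
            have := F.mul_mem hf (h1 f (hFV hf))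
            rwa [mul_inv_cancel_left] at this
          have h2 := F0.inv_mem (hx2 _ h3)
          have e1 : ((x⁻¹ * f * x⁻¹⁻¹)⁻¹ * (x * (x⁻¹ * f * x⁻¹⁻¹) * x⁻¹))⁻¹ = f⁻¹ * (x⁻¹ * f * x⁻¹⁻¹) := by group
          rwa [e1] at h2
        · have h3 := hx3 f hf
          calc x⁻¹ * f * x⁻¹⁻¹ = x⁻¹ * (x * f * x⁻¹) * x := by rw [h3]; group
            _ = f := by group }
  have hact : ∀ {x u : G}, Tv V x u → u ∈ F → ∀ v ∈ V, v⁻¹ * (x * v * x⁻¹) ∈ F := by
    intro x u hx hu v hv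
    rcases hx.act v hv with h1 | h1
    · rw [h1, inv_mul_cancel]; exact F.one_mem
    · rw [h1, inv_mul_cancel_left]; exact hu
  have haD : a ∈ D := by
    refine ⟨hact ha left_mem_four, fun f hf => ?_, fun f hf => ?_⟩
    · rcases ha.act f (hFV hf) with h1 | h1
      · rw [h1, inv_mul_cancel]; exact F0.one_mem
      · rw [h1, inv_mul_cancel_left]; exact Subgroup.mem_zpowers e
    · obtain ⟨i, rfl⟩ := hf
      change a * e ^ i * a⁻¹ = e ^ i
      rw [← conj_zpow, ha.fix]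
  have hbD : b ∈ D := by
    refine ⟨hact hb right_mem_four, fun f hf => ?_, fun f hf => ?_⟩
    · obtain ⟨i, j, rfl⟩ := hf
      have e1 : b * (e ^ i * e' ^ j) * b⁻¹ = (b * e * b⁻¹) ^ i * (b * e' * b⁻¹) ^ j := by rw [conj_pow, conj_pow]; group
      rw [e1, hbe, hb.fix, inv_mul_cancel]; exact F0.one_mem
    · obtain ⟨i, rfl⟩ := hf
      change b * e ^ i * b⁻¹ = e ^ i
      rw [← conj_zpow, hbe]
  have hdD : d ∈ D := by
    have : Subgroup.closure ({a, b} : Set G) ≤ D := by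
      rw [Subgroup.closure_le]
      rintro x (rfl | rfl)
      · exact haD
      · exact hbD
    exact this hd
  obtain ⟨hd1, hd2, hd3⟩ := hdD
  rw [Subgroup.mem_centralizer_iff]
  intro v hv
  -- `d v d⁻¹ = v f`
  obtain ⟨f, hf, hfe⟩ : ∃ f ∈ F, d * v * d⁻¹ = v * f := ⟨_, hd1 v hv, by group⟩
  obtain ⟨f0, hf0, hf0e⟩ : ∃ f0 ∈ F0, d * f * d⁻¹ = f * f0 := ⟨_, hd2 f hf, by group⟩
  have hff := four_sq hf
  have hf00 := four_sq (hF0F hf0)
  have e2 : (d * d) * v * (d * d)⁻¹ = v * f0 := by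
    calc (d * d) * v * (d * d)⁻¹ = d * (d * v * d⁻¹) * d⁻¹ := by group
      _ = d * (v * f) * d⁻¹ := by rw [hfe]
      _ = (d * v * d⁻¹) * (d * f * d⁻¹) := by group
      _ = v * (f * f) * f0 := by rw [hfe, hf0e]; group
      _ = v * f0 := by rw [hff, mul_one]
  have e3 : (d * d) * f0 * (d * d)⁻¹ = f0 := by
    calc (d * d) * f0 * (d * d)⁻¹ = d * (d * f0 * d⁻¹) * d⁻¹ := by group
      _ = f0 := by rw [hd3 f0 hf0, hd3 f0 hf0]
  have e4 : (d * d * (d * d)) * v * (d * d * (d * d))⁻¹ = v := by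
    calc (d * d * (d * d)) * v * (d * d * (d * d))⁻¹ = (d * d) * ((d * d) * v * (d * d)⁻¹) * (d * d)⁻¹ := by group
      _ = (d * d) * (v * f0) * (d * d)⁻¹ := by rw [e2]
      _ = ((d * d) * v * (d * d)⁻¹) * ((d * d) * f0 * (d * d)⁻¹) := by group
      _ = v * (f0 * f0) := by rw [e2, e3]; group
      _ = v := by rw [hf00, mul_one]
  have e5 : d ^ 4 = d * d * (d * d) := by rw [show (4 : ℕ) = 2 + 2 from rfl, pow_add, pow_two]
  rw [e5]
  rw [mul_inv_eq_iff_eq_mul] at e4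
  exact e4.symm

theorem conj_pow_pow (x e e' : G) (i j : ℕ) : x * (e ^ i * e' ^ j) * x⁻¹ = (x * e * x⁻¹) ^ i * (x * e' * x⁻¹) ^ j := by
  rw [conj_pow, conj_pow]; group

/-- **an `S₄`-section from a transvection outside the core** -/
theorem sec_of_tv [Finite G] {V : Subgroup G} [hVn : V.Normal] (hVc : ∀ v ∈ V, ∀ w ∈ V, v * w = w * v) {a e : G}
    (h : Tv V a e) (ha : QuotientGroup.mk' (Subgroup.centralizer (V : Set G)) a ∉ pCore 2 (G ⧸ Subgroup.centralizer (V : Set G))) :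
    Sec (Equiv.Perm (Fin 4)) G := by
  classical
  set C := Subgroup.centralizer (V : Set G) with hC
  set q := QuotientGroup.mk' C with hq
  have hqs : Function.Surjective q := QuotientGroup.mk'_surjective C
  have hq1 : ∀ x : G, q x = 1 ↔ x ∈ C := fun x => QuotientGroup.eq_one_iff x
  have h1 : ¬ ∀ g : G ⧸ C, IsPGroup 2 (Subgroup.closure ({q a, g * q a * g⁻¹} : Set (G ⧸ C))) :=
    fun hcon => ha (baer_suzuki _ hcon)
  push Not at h1
  obtain ⟨gb, hgb⟩ := h1
  obtain ⟨g, rfl⟩ := hqs gb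
  set b := g * a * g⁻¹ with hb
  set e' := g * e * g⁻¹ with he'
  have hTb : Tv V b e' := h.conj g
  have hclo : ∀ x y : G, (∀ d ∈ Subgroup.closure ({x, y} : Set G), d ^ 4 ∈ C) →
      IsPGroup 2 (Subgroup.closure ({q x, q y} : Set (G ⧸ C))) := by
    intro x y hxy
    have e1 : (Subgroup.closure ({x, y} : Set G)).map q = Subgroup.closure ({q x, q y} : Set (G ⧸ C)) := by
      rw [MonoidHom.map_closure, Set.image_pair]
    rw [← e1]
    rintro ⟨_, d, hd, rfl⟩
    refine ⟨2, Subtype.ext ?_⟩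
    change (q d) ^ 2 ^ 2 = 1
    rw [← map_pow, hq1]
    exact hxy d hd
  have hbq : q b = q g * q a * (q g)⁻¹ := by rw [hb, map_mul, map_mul, map_inv]
  rw [← hbq] at hgb
  have hbe : b * e * b⁻¹ = e * e' := by
    rcases hTb.act e h.mem with h2 | h2
    · exact absurd (hclo a b (fun d hd => pow_four_of_tv hVc h hTb h2 hd)) hgb
    · exact h2
  have hae : a * e' * a⁻¹ = e' * e := by
    rcases h.act e' hTb.mem with h2 | h2
    · exfalso
      apply hgb
      rw [Set.pair_comm]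
      exact hclo b a (fun d hd => pow_four_of_tv hVc hTb h h2 hd)
    · exact h2
  have hcomm : e * e' = e' * e := hVc _ h.mem _ hTb.mem
  set F := four e e' hcomm h.sq hTb.sq with hF
  have hFp : IsPGroup 2 F := by
    rintro ⟨x, hx⟩
    refine ⟨1, Subtype.ext ?_⟩
    change x ^ 2 ^ 1 = 1
    rw [pow_one, pow_two]; exact four_sq hx
  set X := Subgroup.normalizer (F : Set G) with hX
  have hnorm : ∀ x : G, x * e * x⁻¹ ∈ F → x * e' * x⁻¹ ∈ F → x ∈ X := by
    intro x h2 h3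
    apply H2.mem_norm_of_conj
    rintro _ ⟨i, j, rfl⟩
    rw [conj_pow_pow x e e' i j]; exact F.mul_mem (F.pow_mem h2 i) (F.pow_mem h3 j)
  have hea : e ∈ F := left_mem_four
  have hea' : e' ∈ F := right_mem_four
  have haX : a ∈ X := hnorm a (by rw [h.fix]; exact hea) (by rw [hae]; exact F.mul_mem hea' hea)
  have hbX : b ∈ X := hnorm b (by rw [hbe]; exact F.mul_mem hea hea') (by rw [hTb.fix]; exact hea')
  have hcent : ∀ x : G, x * e * x⁻¹ = e → x * e' * x⁻¹ = e' → x ∈ Subgroup.centralizer (F : Set G) := by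
    intro x h2 h3
    rw [Subgroup.mem_centralizer_iff]
    rintro _ ⟨i, j, rfl⟩
    have e1 : x * (e ^ i * e' ^ j) * x⁻¹ = e ^ i * e' ^ j := by
      rw [conj_pow_pow x e e' i j, h2, h3]
    rw [mul_inv_eq_iff_eq_mul] at e1
    exact e1.symm
  -- the action of `c = ab`
  have hee' : e' * e * e = e' := by rw [mul_assoc, h.sq, mul_one]
  have hce : (a * b) * e * (a * b)⁻¹ = e' := by
    calc (a * b) * e * (a * b)⁻¹ = a * (b * e * b⁻¹) * a⁻¹ := by group
      _ = (a * e * a⁻¹) * (a * e' * a⁻¹) := by rw [hbe]; group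
      _ = e * (e' * e) := by rw [h.fix, hae]
      _ = e' := by rw [← mul_assoc, hcomm, hee']
  have hce' : (a * b) * e' * (a * b)⁻¹ = e' * e := by
    calc (a * b) * e' * (a * b)⁻¹ = a * (b * e' * b⁻¹) * a⁻¹ := by group
      _ = e' * e := by rw [hTb.fix, hae]
  have hcee : (a * b) * (e' * e) * (a * b)⁻¹ = e := by
    calc (a * b) * (e' * e) * (a * b)⁻¹ = ((a * b) * e' * (a * b)⁻¹) * ((a * b) * e * (a * b)⁻¹) := by group
      _ = e' * e * e' := by rw [hce, hce']
      _ = e := by rw [← hcomm, mul_assoc, hTb.sq, mul_one]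
  have hne : e' ≠ e := by
    intro h2
    have := hbe
    rw [← h2] at this
    rw [hTb.fix, hTb.sq] at this
    exact hTb.ne this
  haveI : (F.subgroupOf X).Normal := Subgroup.normal_subgroupOf_of_le_normalizer le_rfl
  haveI : ((Subgroup.centralizer (F : Set G)).subgroupOf X).Normal := by
    refine Subgroup.normal_subgroupOf_of_le_normalizer ?_
    exact le_norm_centralizer le_rfl
  have hsec := s4_of_mod (G := ↥X) (F.subgroupOf X) ((Subgroup.centralizer (F : Set G)).subgroupOf X) (hFp.comap_subtype)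
    (by
      intro x hx
      rw [Subgroup.mem_subgroupOf, Subgroup.mem_centralizer_iff]
      intro f hf
      exact congrArg Subtype.val (Subgroup.mem_centralizer_iff.1 hx ⟨f, Subgroup.le_normalizer hf⟩ hf))
    (a := ⟨a, haX⟩) (c := ⟨a * b, X.mul_mem haX hbX⟩) (by
      intro h2
      have h3 : a * b ∈ Subgroup.centralizer (F : Set G) := h2
      have h4 := Subgroup.mem_centralizer_iff.1 h3 e hea
      apply hne
      rw [← hce, ← h4]; group) (by
      change (a * b) ^ 3 ∈ Subgroup.centralizer (F : Set G)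
      apply hcent
      · calc (a * b) ^ 3 * e * ((a * b) ^ 3)⁻¹ = (a * b) * ((a * b) * ((a * b) * e * (a * b)⁻¹) * (a * b)⁻¹) * (a * b)⁻¹ := by
              rw [pow_three']; group
          _ = e := by rw [hce, hce', hcee]
      · calc (a * b) ^ 3 * e' * ((a * b) ^ 3)⁻¹ = (a * b) * ((a * b) * ((a * b) * e' * (a * b)⁻¹) * (a * b)⁻¹) * (a * b)⁻¹ := by
              rw [pow_three']; group
          _ = e' := by rw [hce', hcee, hce]) (by
      change a * (a * b) * a⁻¹ * (a * b) ∈ Subgroup.centralizer (F : Set G)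
      have e0 : a * (a * b) * a⁻¹ * (a * b) = a * a * (b * b) := by group
      have haa : ∀ x, x ∈ F → a * (a * x * a⁻¹) * a⁻¹ = x := by
        intro x hx
        rcases h.act x (four_le h.mem hTb.mem hx) with h2 | h2
        · rw [h2, h2]
        · have : a * (x * e) * a⁻¹ = (a * x * a⁻¹) * (a * e * a⁻¹) := by group
          rw [h2, this, h2, h.fix, mul_assoc, h.sq, mul_one]
      have hbb : ∀ x, x ∈ F → b * (b * x * b⁻¹) * b⁻¹ = x := by
        intro x hx
        rcases hTb.act x (four_le h.mem hTb.mem hx) with h2 | h2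
        · rw [h2, h2]
        · have : b * (x * e') * b⁻¹ = (b * x * b⁻¹) * (b * e' * b⁻¹) := by group
          rw [h2, this, h2, hTb.fix, mul_assoc, hTb.sq, mul_one]
      have key : ∀ x ∈ F, a * a * (b * b) * x * (a * a * (b * b))⁻¹ = x := by
        intro x hx
        calc a * a * (b * b) * x * (a * a * (b * b))⁻¹ = a * (a * (b * (b * x * b⁻¹) * b⁻¹) * a⁻¹) * a⁻¹ := by group
          _ = x := by rw [hbb x hx, haa x hx]
      rw [e0]
      exact hcent _ (key e hea) (key e' hea'))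
  exact hsec.trans ⟨X, MonoidHom.id _, Function.surjective_id⟩

end
end Cfsg.Agent.H2
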