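import Cfsg.Agent.H2.Tv
import Cfsg.Agent.H2.Norm2
import Cfsg.Agent.H2.ThomAb
import Cfsg.Agent.H6.WeakClosure3

set_option autoImplicit false
set_option linter.unusedSectionVars false
set_option linter.unusedSimpArgs false
set_option linter.unusedVariables false
set_option linter.style.haveILetI false
open Cfsg
open scoped commutatorElement

/-! The final configuration of Glauberman's weak closure theorem for `p = 2` (helper2). -/

namespace Cfsg.Agent.H2
open Cfsg.Agent.H6

section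
variable {G : Type*} [Group G] [Finite G]

theorem card_mul_rel {A B : Subgroup G} (h : A ≤ B) : Nat.card A * A.relIndex B = Nat.card B := by
  have := Subgroup.card_mul_index (A.subgroupOf B)
  rwa [Nat.card_congr (Subgroup.subgroupOfEquivOfLe h).toEquiv] at this

/-- abelian 2-subgroups of the largest order -/
def GG (G : Type*) [Group G] : Set (Subgroup G) :=
  {A | IsPGroup 2 A ∧ (∀ x ∈ A, ∀ y ∈ A, x * y = y * x) ∧
    ∀ B : Subgroup G, IsPGroup 2 B → (∀ x ∈ B, ∀ y ∈ B, x * y = y * x) → Nat.card B ≤ Nat.card A}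

theorem cj_comm {A : Subgroup G} (h : ∀ x ∈ A, ∀ y ∈ A, x * y = y * x) (g : G) : ∀ x ∈ cj g A, ∀ y ∈ cj g A, x * y = y * x := by
  rintro _ ⟨x, hx, rfl⟩ _ ⟨y, hy, rfl⟩
  rw [← map_mul, h x hx y hy, map_mul]

theorem GG_cj {A : Subgroup G} (h : A ∈ GG G) (g : G) : cj g A ∈ GG G := by
  refine ⟨isPGroup_cj h.1, cj_comm h.2.1 g, fun B hB hBc => ?_⟩
  rw [card_cj]; exact h.2.2 B hB hBc

theorem GG_iff (S : Sylow 2 G) {A : Subgroup G} (hA : A ≤ (S : Subgroup G)) : A ∈ GG G ↔ A ∈ AA 0 (S : Subgroup G) := by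
  constructor
  · intro h
    exact ⟨hA, h.2.1, fun _ _ => pow_zero _, fun B hB hBc _ => h.2.2 B (S.2.to_le hB) hBc⟩
  · intro h
    refine ⟨S.2.to_le hA, h.2.1, fun B hB hBc => ?_⟩
    obtain ⟨g, hg, hgB⟩ := (sylow_sylIn_top S).exists_conj_le hB le_top
    have := h.2.2.2 (cj g B) hgB (cj_comm hBc g) (fun _ _ => pow_zero _)
    rwa [card_cj] at this

/-- the members of `GG` that do not centralize `V`, with `A ∩ V` as large as possible -/
def FF (V : Subgroup G) : Set (Subgroup G) :=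
  {A | A ∈ GG G ∧ ¬ A ≤ Subgroup.centralizer (V : Set G) ∧
    ∀ B ∈ GG G, ¬ B ≤ Subgroup.centralizer (V : Set G) → Nat.card ↥(B ⊓ V) ≤ Nat.card ↥(A ⊓ V)}

theorem cj_normal {V : Subgroup G} [hV : V.Normal] (g : G) : cj g V = V :=
  cj_of_mem_norm (norm_of_normal ⊤ (Subgroup.mem_top _))

theorem FF_cj {V : Subgroup G} [hV : V.Normal] {A : Subgroup G} (h : A ∈ FF V) (g : G) : cj g A ∈ FF V := by
  refine ⟨GG_cj h.1 g, ?_, ?_⟩
  · intro h1
    apply h.2.1
    rw [cj_le_iff, cj_normal] at h1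
    exact h1
  · intro B hB hBc
    have e : cj g A ⊓ V = cj g (A ⊓ V) := by rw [cj_inf, cj_normal (V := V)]
    rw [e, card_cj]
    exact h.2.2 B hB hBc

theorem FF_norm (S : Sylow 2 G) {V : Subgroup G} [hV : V.Normal] (hVS : V ≤ (S : Subgroup G))
    (hVc : ∀ v ∈ V, ∀ w ∈ V, v * w = w * v) {A : Subgroup G} (h : A ∈ FF V) (hAS : A ≤ (S : Subgroup G)) :
    V ≤ Subgroup.normalizer (A : Set G) := by
  by_contra hnot
  have hVV : ⁅V, V⁆ = ⊥ := by
    rw [eq_bot_iff, Subgroup.commutator_le]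
    intro x hx y hy
    rw [Subgroup.mem_bot, commutatorElement_eq_one_iff_mul_comm]
    exact hVc x hx y hy
  obtain ⟨A', hA', hA'N, hlt⟩ := exists_replace_ab (p := 2) S.2 hVS Subgroup.le_normalizer le_rfl ((GG_iff S hAS).1 h.1) hVV hnot
  have hA'G : A' ∈ GG G := (GG_iff S hA'.1).2 hA'
  have h1 : Nat.card ↥(A ⊓ V) < Nat.card ↥(A' ⊓ V) := by
    apply lt_of_le_of_ne (Subgroup.card_le_of_le hlt.le)
    intro h
    exact hlt.ne (Subgroup.eq_of_le_of_card_ge hlt.le h.ge)
  have hA'C : A' ≤ Subgroup.centralizer (V : Set G) := by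
    by_contra h2
    exact absurd (h.2.2 A' hA'G h2) (not_le.2 h1)
  apply hnot
  intro v hv
  exact hA'N (mem_of_centralize hA' (hVS hv) (pow_zero v) (fun a ha => (Subgroup.mem_centralizer_iff.1 (hA'C ha) v hv).symm))

/-- the index-two situation produces a transvection -/
theorem FF_idx {V : Subgroup G} [hVn : V.Normal] (hVc : ∀ v ∈ V, ∀ w ∈ V, v * w = w * v) (hVp : IsPGroup 2 V)
    (hV2 : ∀ v ∈ V, v ^ 2 ∈ Subgroup.center G) {A : Subgroup G} (h : A ∈ FF V) (hVA : V ≤ Subgroup.normalizer (A : Set G))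
    {A1 : Subgroup G} (hA1 : A1 ≤ A) (hidx : A1.relIndex A = 2) {y : G} (hy : y ∈ V) (hyA : ∀ x ∈ A, x ∈ A1 ↔ x * y = y * x) :
    ∃ a ∈ A, a ∉ Subgroup.centralizer (V : Set G) ∧ ∃ e, Tv V a e := by
  classical
  have hAc := h.1.2.1
  have hcardA : Nat.card A = Nat.card A1 * 2 := by
    rw [← hidx]
    exact (card_mul_rel hA1).symm
  have hyA' : y ∉ A := by
    intro h1
    have : A ≤ A1 := fun x hx => (hyA x hx).2 (hAc x hx y h1)
    rw [← Subgroup.relIndex_eq_one, hidx] at this
    norm_num at this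
  have hA1c : ∀ x ∈ A1, x * y = y * x := fun x hx => (hyA x (hA1 hx)).1 hx
  have hyp : IsPGroup 2 ↥(Subgroup.zpowers y) := hVp.to_le (by rwa [Subgroup.zpowers_le])
  have hzn : Subgroup.zpowers y ≤ Subgroup.normalizer (A1 : Set G) := by
    rw [Subgroup.zpowers_le]
    apply H2.mem_norm_of_conj
    intro x hx
    rw [← hA1c x hx, mul_inv_cancel_right]; exact hx
  set As := A1 ⊔ Subgroup.zpowers y with hAs
  have hA1As : A1 ≤ As := le_sup_left
  have hyAs : y ∈ As := (le_sup_right : Subgroup.zpowers y ≤ As) (Subgroup.mem_zpowers y)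
  have hAsp : IsPGroup 2 As := (h.1.1.to_le hA1).to_sup_of_normal_left' hyp hzn
  have hAsc : ∀ x ∈ As, ∀ z ∈ As, x * z = z * x := by
    have h1 : As ≤ Subgroup.centralizer (As : Set G) := by
      refine sup_le ?_ ?_
      · intro x hx
        have h2 : As ≤ Subgroup.centralizer {x} := by
          refine sup_le ?_ ?_
          · intro z hz
            rw [Subgroup.mem_centralizer_singleton_iff]
            exact hAc z (hA1 hz) x (hA1 hx)
          · rw [Subgroup.zpowers_le, Subgroup.mem_centralizer_singleton_iff]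
            exact (hA1c x hx).symm
        rw [Subgroup.mem_centralizer_iff]
        intro z hz
        exact Subgroup.mem_centralizer_singleton_iff.1 (h2 hz)
      · rw [Subgroup.zpowers_le]
        have h2 : As ≤ Subgroup.centralizer {y} := by
          refine sup_le ?_ ?_
          · intro z hz
            rw [Subgroup.mem_centralizer_singleton_iff]
            exact hA1c z hz
          · rw [Subgroup.zpowers_le, Subgroup.mem_centralizer_singleton_iff]
        rw [Subgroup.mem_centralizer_iff]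
        intro z hz
        exact Subgroup.mem_centralizer_singleton_iff.1 (h2 hz)
    intro x hx z hz
    exact Subgroup.mem_centralizer_iff.1 (h1 hz) x hx
  -- `|A*| = |A|`
  have hdvd : Nat.card A1 * 2 ≤ Nat.card As := by
    have h1 : Nat.card A1 * A1.relIndex As = Nat.card As := card_mul_rel hA1As
    have h2 : A1.relIndex As ≠ 1 := by
      rw [Ne, Subgroup.relIndex_eq_one]
      intro h3
      exact hyA' (hA1 (h3 hyAs))
    have h3 : A1.relIndex As ≠ 0 := relIndex_ne _ _
    rw [← h1]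
    exact Nat.mul_le_mul_left _ (by omega)
  have hAsG : As ∈ GG G := ⟨hAsp, hAsc, fun B hB hBc => (h.1.2.2 B hB hBc).trans (by rw [hcardA]; exact hdvd)⟩
  have hcAs : Nat.card As = Nat.card A1 * 2 := le_antisymm (by rw [← hcardA]; exact h.1.2.2 As hAsp hAsc) hdvd
  have hAsC : As ≤ Subgroup.centralizer (V : Set G) := by
    by_contra h1
    have h2 := h.2.2 As hAsG h1
    have h3 : A ⊓ V < As ⊓ V := by
      refine lt_of_le_of_ne (le_inf ?_ inf_le_right) ?_
      · intro x hx
        exact hA1As ((hyA x hx.1).2 (hVc x hx.2 y hy))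
      · intro h4
        have : y ∈ As ⊓ V := ⟨hyAs, hy⟩
        rw [← h4] at this
        exact hyA' this.1
    exact absurd h2 (not_le.2 (by
      apply lt_of_le_of_ne (Subgroup.card_le_of_le h3.le)
      intro h
      exact h3.ne (Subgroup.eq_of_le_of_card_ge h3.le h.ge)))
  have hA1C : A1 ≤ Subgroup.centralizer (V : Set G) := hA1As.trans hAsC
  -- `V ≤ A*`
  have hVAs : V ≤ As := by
    have hVn1 : V ≤ Subgroup.normalizer (A1 : Set G) := by
      intro v hv
      apply H2.mem_norm_of_conj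
      intro x hx
      have := Subgroup.mem_centralizer_iff.1 (hA1C hx) v hv
      rw [this, mul_inv_cancel_right]; exact hx
    have hp : IsPGroup 2 ↥(A1 ⊔ V) := (h.1.1.to_le hA1).to_sup_of_normal_left' hVp hVn1
    have hc : ∀ x ∈ A1 ⊔ V, ∀ z ∈ A1 ⊔ V, x * z = z * x := by
      have h1 : A1 ⊔ V ≤ Subgroup.centralizer ((A1 ⊔ V : Subgroup G) : Set G) := by
        have key : ∀ x, (∀ z ∈ A1, z * x = x * z) → (∀ z ∈ V, z * x = x * z) → x ∈ Subgroup.centralizer ((A1 ⊔ V : Subgroup G) : Set G) := by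
          intro x h1 h2
          have h3 : A1 ⊔ V ≤ Subgroup.centralizer {x} :=
            sup_le (fun z hz => Subgroup.mem_centralizer_singleton_iff.2 (h1 z hz)) (fun z hz => Subgroup.mem_centralizer_singleton_iff.2 (h2 z hz))
          rw [Subgroup.mem_centralizer_iff]
          intro z hz
          exact Subgroup.mem_centralizer_singleton_iff.1 (h3 hz)
        refine sup_le ?_ ?_
        · intro x hx
          exact key x (fun z hz => hAc z (hA1 hz) x (hA1 hx)) (fun z hz => Subgroup.mem_centralizer_iff.1 (hA1C hx) z hz)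
        · intro x hx
          exact key x (fun z hz => (Subgroup.mem_centralizer_iff.1 (hA1C hz) x hx).symm) (fun z hz => hVc z hz x hx)
      intro x hx z hz
      exact Subgroup.mem_centralizer_iff.1 (h1 hz) x hx
    have h1 : As ≤ A1 ⊔ V := sup_le le_sup_left ((by rwa [Subgroup.zpowers_le] : Subgroup.zpowers y ≤ V).trans le_sup_right)
    have h2 : As = A1 ⊔ V := Subgroup.eq_of_le_of_card_ge h1 (by rw [hcAs, ← hcardA]; exact h.1.2.2 _ hp hc)
    rw [h2]; exact le_sup_right
  have hidx2 : (A1.subgroupOf As).index = 2 := by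
    have h1 : Nat.card A1 * A1.relIndex As = Nat.card As := card_mul_rel hA1As
    rw [hcAs] at h1
    exact Nat.eq_of_mul_eq_mul_left Nat.card_pos h1
  have hyA1 : y ∉ A1 := fun h1 => hyA' (hA1 h1)
  have hsplit : ∀ v ∈ V, v ∈ A1 ∨ v * y ∈ A1 := by
    intro v hv
    have h1 := Subgroup.mul_mem_iff_of_index_two hidx2 (a := ⟨v, hVAs hv⟩) (b := ⟨y, hyAs⟩)
    have h2 : ((⟨v, hVAs hv⟩ * ⟨y, hyAs⟩ : As) ∈ A1.subgroupOf As) ↔ v * y ∈ A1 := Iff.rfl
    have h3 : ((⟨v, hVAs hv⟩ : As) ∈ A1.subgroupOf As) ↔ v ∈ A1 := Iff.rfl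
    have h4 : ((⟨y, hyAs⟩ : As) ∈ A1.subgroupOf As) ↔ y ∈ A1 := Iff.rfl
    rw [h2, h3, h4] at h1
    tauto
  -- the element `a`
  obtain ⟨a, ha, haA1⟩ : ∃ a ∈ A, a ∉ A1 := by
    by_contra hcon
    push Not at hcon
    have : A ≤ A1 := hcon
    rw [← Subgroup.relIndex_eq_one, hidx] at this
    norm_num at this
  have hay : ¬ a * y = y * a := fun h1 => haA1 ((hyA a ha).2 h1)
  set e := y⁻¹ * (a * y * a⁻¹) with he
  have heV : e ∈ V := V.mul_mem (V.inv_mem hy) (hVn.conj_mem _ hy a)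
  have heA : e ∈ A := by
    have h1 := (Subgroup.mem_normalizer_iff.1 (hVA (V.inv_mem hy)) a).1 ha
    have e1 : e = (y⁻¹ * a * y⁻¹⁻¹) * a⁻¹ := by rw [he]; group
    rw [e1]; exact A.mul_mem h1 (A.inv_mem ha)
  have hae : a * e * a⁻¹ = e := by rw [hAc a ha e heA, mul_inv_cancel_right]
  have haye : a * y * a⁻¹ = y * e := by rw [he]; group
  have hesq : e * e = 1 := by
    have h1 := Subgroup.mem_center_iff.1 (hV2 y hy) a
    have h2 : a * y ^ 2 * a⁻¹ = y ^ 2 := by rw [h1, mul_inv_cancel_right]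
    have h3 : a * y ^ 2 * a⁻¹ = y ^ 2 * (e * e) := by
      calc a * y ^ 2 * a⁻¹ = (a * y * a⁻¹) * (a * y * a⁻¹) := by rw [pow_two]; group
        _ = y * (e * y) * e := by rw [haye]; group
        _ = y ^ 2 * (e * e) := by rw [hVc e heV y hy, pow_two]; group
    rw [h3] at h2
    exact mul_eq_left.1 h2
  refine ⟨a, ha, ?_, e, heV, ?_, hesq, hae, ?_⟩
  · intro h1
    exact hay (Subgroup.mem_centralizer_iff.1 h1 y hy).symm
  · intro h1
    apply hay
    rw [h1, mul_one, mul_inv_eq_iff_eq_mul] at haye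
    exact haye
  · intro v hv
    rcases hsplit v hv with h1 | h1
    · left
      rw [hAc a ha v (hA1 h1), mul_inv_cancel_right]
    · right
      have h2 : a * (v * y) * a⁻¹ = v * y := by rw [hAc a ha _ (hA1 h1), mul_inv_cancel_right]
      have h3 : a * v * a⁻¹ * (y * e) = v * y := by
        rw [← haye, ← h2]; group
      have h4 : a * v * a⁻¹ = v * y * (y * e)⁻¹ := eq_mul_inv_of_mul_eq h3
      rw [h4, mul_inv_rev, inv_eq_of_mul_eq_one_left hesq]
      calc v * y * (e * y⁻¹) = v * (y * e) * y⁻¹ := by group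
        _ = v * e := by rw [hVc y hy e heV]; group

/-- **the final configuration**: `M` is the only maximal subgroup over `S`, it centralizes `z0`, and `J(S)` is not normal -/
theorem wc_two (S : Sylow 2 G) {M : Subgroup G} (hSM : (S : Subgroup G) ≤ M)
    (hmax : ∀ H : Subgroup G, (S : Subgroup G) ≤ H → H ≠ ⊤ → H ≤ M) {z0 : G}
    (hz0 : z0 ∈ zc (pCore 2 G)) (hz0M : z0 ∈ Subgroup.centralizer (M : Set G)) (hz0c : z0 ∉ Subgroup.center G)
    (hJ : ¬ (thompsonSubgroupAOf (S : Subgroup G)).Normal) : Sec (Equiv.Perm (Fin 4)) G := by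
  classical
  by_contra hno
  set Q := pCore 2 G with hQ
  have hQS : Q ≤ (S : Subgroup G) := L0.pCore_le_sylow S
  have hQp : IsPGroup 2 ↥Q := L0.pCore_isPGroup 2 G
  haveI hYn : (zc Q).Normal := normal_of_norm (le_norm_zc (norm_of_normal _))
  -- replace `z0` by a power
  obtain ⟨j, hj1, hj2⟩ := exists_pow_not_mem hQp (Subgroup.mem_inf.1 hz0).1 hz0c
  set z := z0 ^ 2 ^ j with hz
  have hzQ : z ∈ zc Q := Subgroup.pow_mem _ hz0 _
  have hzM : z ∈ Subgroup.centralizer (M : Set G) := Subgroup.pow_mem _ hz0M _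
  have hMz : ∀ x, x ∈ M ↔ x * z = z * x := by
    have h1 : M ≤ Subgroup.centralizer {z} := by
      intro x hx
      rw [Subgroup.mem_centralizer_singleton_iff]
      exact Subgroup.mem_centralizer_iff.1 hzM x hx
    have h2 : Subgroup.centralizer {z} ≤ M := by
      refine hmax _ (hSM.trans h1) ?_
      intro h2
      apply hj1
      rw [Subgroup.mem_center_iff]
      intro x
      have : x ∈ Subgroup.centralizer {z} := by rw [h2]; exact Subgroup.mem_top _
      exact Subgroup.mem_centralizer_singleton_iff.1 this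
    intro x
    rw [le_antisymm h1 h2, Subgroup.mem_centralizer_singleton_iff]
  have hMtop : M ≠ ⊤ := by
    intro h
    apply hj1
    rw [Subgroup.mem_center_iff]
    intro x
    exact (hMz x).1 (by rw [h]; exact Subgroup.mem_top _)
  have hYc : ∀ v ∈ zc Q, ∀ w ∈ zc Q, v * w = w * v := by
    intro a ha b hb
    exact Subgroup.mem_centralizer_iff.1 (Subgroup.mem_inf.1 hb).2 a (Subgroup.mem_inf.1 ha).1
  -- the module `V`
  let V : Subgroup G :=
    { carrier := {v | v ∈ zc Q ∧ v ^ 2 ∈ Subgroup.center G}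
      one_mem' := ⟨Subgroup.one_mem _, by rw [one_pow]; exact Subgroup.one_mem _⟩
      mul_mem' := by
        rintro v w ⟨hv, hv2⟩ ⟨hw, hw2⟩
        refine ⟨Subgroup.mul_mem _ hv hw, ?_⟩
        rw [(show Commute v w from hYc v hv w hw).mul_pow]
        exact Subgroup.mul_mem _ hv2 hw2
      inv_mem' := by
        rintro v ⟨hv, hv2⟩
        exact ⟨Subgroup.inv_mem _ hv, by rw [inv_pow]; exact Subgroup.inv_mem _ hv2⟩ }
  have hVY : V ≤ zc Q := fun v hv => hv.1
  haveI hVn : V.Normal := by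
    constructor
    rintro v ⟨hv, hv2⟩ g
    refine ⟨hYn.conj_mem v hv g, ?_⟩
    rw [conj_pow]
    exact (inferInstance : (Subgroup.center G).Normal).conj_mem _ hv2 g
  have hVc : ∀ v ∈ V, ∀ w ∈ V, v * w = w * v := fun v hv w hw => hYc v (hVY hv) w (hVY hw)
  have hVQ : V ≤ Q := hVY.trans inf_le_left
  have hVS : V ≤ (S : Subgroup G) := hVQ.trans hQS
  have hVp : IsPGroup 2 V := hQp.to_le hVQ
  have hV2 : ∀ v ∈ V, v ^ 2 ∈ Subgroup.center G := fun v hv => hv.2
  have hzV : z ∈ V := ⟨hzQ, hj2⟩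
  set C := Subgroup.centralizer (V : Set G) with hC
  haveI hCn : C.Normal := inferInstance
  have hCM : C ≤ M := by
    intro x hx
    rw [hMz]
    exact (Subgroup.mem_centralizer_iff.1 hx z hzV).symm
  have hQC : Q ≤ C := by
    intro x hx
    rw [hC, Subgroup.mem_centralizer_iff]
    intro v hv
    exact (Subgroup.mem_centralizer_iff.1 (Subgroup.mem_inf.1 (hVY hv)).2 x hx).symm
  -- the Frattini argument
  have hFr : ∀ K : Subgroup G, K.Normal → K ≤ M → (S : Subgroup G) ⊓ K ≤ Q := by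
    intro K hK hKM
    have h1 : Subgroup.normalizer (((S : Subgroup G) ⊓ K : Subgroup G) : Set G) = ⊤ := by
      by_contra h1
      have h2 : Subgroup.normalizer (((S : Subgroup G) ⊓ K : Subgroup G) : Set G) ≤ M := by
        refine hmax _ ?_ h1
        intro s hs
        apply H2.mem_norm_of_conj
        intro x hx
        exact ⟨(S : Subgroup G).mul_mem ((S : Subgroup G).mul_mem hs hx.1) ((S : Subgroup G).inv_mem hs), hK.conj_mem x hx.2 s⟩
      apply hMtop
      rw [eq_top_iff]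
      intro g _
      obtain ⟨d, hd, m, hm, rfl⟩ := frattini' S K g
      exact M.mul_mem (hKM hd) (h2 hm)
    haveI : ((S : Subgroup G) ⊓ K).Normal := Subgroup.normalizer_eq_top_iff.1 h1
    exact L0.le_pCore (S.2.to_le inf_le_left)
  have hSC : (S : Subgroup G) ⊓ C ≤ Q := hFr C hCn hCM
  set q := QuotientGroup.mk' C with hq
  have hqs : Function.Surjective q := QuotientGroup.mk'_surjective C
  have hq1 : ∀ x : G, q x = 1 ↔ x ∈ C := fun x => QuotientGroup.eq_one_iff x
  have hcoreC : ∀ x ∈ (S : Subgroup G), q x ∈ pCore 2 (G ⧸ C) → x ∈ C := by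
    intro x hx hxc
    have hK : (pCore 2 (G ⧸ C)).comap q ≤ M := by
      intro y hy
      have h1 : q y ∈ ((S.mapSurjective hqs : Sylow 2 (G ⧸ C)) : Subgroup (G ⧸ C)) := L0.pCore_le_sylow _ hy
      rw [Sylow.coe_mapSurjective] at h1
      obtain ⟨s, hs, hsy⟩ := h1
      have h2 : s⁻¹ * y ∈ C := by rw [← hq1, map_mul, map_inv, hsy, inv_mul_cancel]
      have h3 : y = s * (s⁻¹ * y) := by group
      rw [h3]; exact M.mul_mem (hSM hs) (hCM h2)
    exact hQC (hFr _ inferInstance hK ⟨hx, hxc⟩)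
  -- the family
  obtain ⟨A0, hA0G, hA0C⟩ : ∃ A ∈ GG G, ¬ A ≤ C := by
    by_contra hcon
    push Not at hcon
    apply hJ
    refine thompsonAOf_normal S hQS (fun A hA => ?_)
    have h1 := hcon A ((GG_iff S hA.1).2 hA)
    exact (le_inf hA.1 h1).trans hSC
  obtain ⟨A1, ⟨hA1G, hA1C⟩, hA1max⟩ := Set.Finite.exists_maximalFor (fun A : Subgroup G => Nat.card ↥(A ⊓ V))
    {A | A ∈ GG G ∧ ¬ A ≤ C} (Set.toFinite _) ⟨A0, hA0G, hA0C⟩
  have hA1F : A1 ∈ FF V := ⟨hA1G, hA1C, fun B hB hBc => by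
    by_contra h
    push Not at h
    exact absurd (hA1max ⟨hB, hBc⟩ h.le) (not_le.2 h)⟩
  obtain ⟨g1, -, hg1⟩ := (sylow_sylIn_top S).exists_conj_le hA1G.1 le_top
  have hA2F := FF_cj hA1F g1
  set A2 := cj g1 A1 with hA2
  set E := sSup {A : Subgroup G | A ∈ FF V ∧ A ≤ (S : Subgroup G)} with hE
  have hES : E ≤ (S : Subgroup G) := sSup_le (fun A hA => hA.2)
  have hEp : IsPGroup 2 ↥E := S.2.to_le hES
  have hEC : ¬ E ≤ C := fun h => hA2F.2.1 ((le_sSup (show A2 ∈ {A : Subgroup G | A ∈ FF V ∧ A ≤ (S : Subgroup G)} from ⟨hA2F, hg1⟩)).trans h)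
  have hwc : ∀ g : G, cj g E ≤ (S : Subgroup G) → cj g E = E := by
    intro g hg
    refine Subgroup.eq_of_le_of_card_ge ?_ (by rw [card_cj])
    unfold cj
    rw [hE, sSup_eq_iSup, Subgroup.map_iSup]
    refine iSup_le fun A => ?_
    rw [Subgroup.map_iSup]
    refine iSup_le fun hA => ?_
    have h1 : cj g A ≤ (S : Subgroup G) := (cj_mono (le_sSup hA)).trans hg
    exact le_iSup₂_of_le (cj g A) ⟨FF_cj hA.1 g, h1⟩ le_rfl
  have hNE : Subgroup.normalizer (E : Set G) ≤ M := by
    apply hmax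
    · intro s hs
      rw [mem_norm]
      apply hwc
      rw [cj_le_iff, cj_of_mem (Subgroup.inv_mem _ hs)]
      exact hES
    · intro htop
      apply hEC
      haveI : E.Normal := normal_of_norm htop.ge
      exact (L0.le_pCore hEp).trans hQC
  -- the target group
  letI : CommGroup ↥V := { (inferInstance : Group ↥V) with mul_comm := fun a b => Subtype.ext (hVc a a.2 b b.2) }
  haveI : Fintype (G ⧸ M) := Fintype.ofFinite _
  have hconj : ∀ g : G, g * z * g⁻¹ ∈ V := fun g => hVn.conj_mem z hzV g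
  set F0 : G ⧸ M → ↥V := fun q => ⟨q.out * z * q.out⁻¹, hconj _⟩ with hF0
  have hF0val : ∀ g : G, F0 (g : G ⧸ M) = ⟨g * z * g⁻¹, hconj g⟩ := by
    intro g
    obtain ⟨m, hm⟩ : ∃ m : M, ((g : G ⧸ M)).out = g * m := by
      have h1 : g⁻¹ * ((g : G ⧸ M)).out ∈ M := by
        rw [← QuotientGroup.eq]; exact (QuotientGroup.out_eq' _).symm
      exact ⟨⟨_, h1⟩, by group⟩
    apply Subtype.ext
    change ((g : G ⧸ M)).out * z * ((g : G ⧸ M)).out⁻¹ = g * z * g⁻¹
    rw [hm]
    have h2 := (hMz m).1 m.2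
    calc g * m * z * (g * m)⁻¹ = g * (m * z) * (m : G)⁻¹ * g⁻¹ := by group
      _ = g * z * g⁻¹ := by rw [h2]; group
  set Nm : ↥V := ∏ q : G ⧸ M, F0 q with hNm
  have hNmc : ∀ h : G, h * (Nm : G) * h⁻¹ = Nm := by
    intro h
    have h1 : MulAut.conjNormal h Nm = Nm := by
      rw [hNm, map_prod]
      have h2 : ∀ q : G ⧸ M, MulAut.conjNormal h (F0 q) = F0 (h • q) := by
        intro q
        obtain ⟨g, rfl⟩ := QuotientGroup.mk_surjective q
        rw [hF0val]
        have e1 : (h • (g : G ⧸ M)) = ((h * g : G) : G ⧸ M) := rfl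
        rw [e1, hF0val]
        apply Subtype.ext
        rw [MulAut.conjNormal_apply]
        change h * (g * z * g⁻¹) * h⁻¹ = h * g * z * (h * g)⁻¹
        group
      rw [Finset.prod_congr rfl (fun q _ => h2 q)]
      exact Equiv.prod_comp (MulAction.toPerm h) F0
    have h3 := congrArg Subtype.val h1
    rwa [MulAut.conjNormal_apply] at h3
  have hNmcen : (Nm : G) ∈ Subgroup.center G := by
    rw [Subgroup.mem_center_iff]
    intro h
    have := hNmc h
    rw [mul_inv_eq_iff_eq_mul] at this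
    exact this
  set Zv : Subgroup V := (Subgroup.center G).subgroupOf V with hZv
  set π := QuotientGroup.mk' Zv with hπ
  have hπ1 : ∀ v : V, π v = 1 ↔ (v : G) ∈ Subgroup.center G := fun v => by
    rw [hπ, QuotientGroup.mk'_apply, QuotientGroup.eq_one_iff, hZv, Subgroup.mem_subgroupOf]
  set F : G ⧸ M → (↥V ⧸ Zv) := fun q => π (F0 q) with hF
  have hsmul : ∀ (x g : G), (x • (g : G ⧸ M)) = ((x * g : G) : G ⧸ M) := fun x g => rfl
  have hfix := prod_eq_fixed_two (E := ↥E) hEp (Ω := G ⧸ M) F ?_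
    {B : Subgroup ↥E | ∃ A : Subgroup G, A ∈ FF V ∧ A ≤ (S : Subgroup G) ∧ B = A.subgroupOf E} ?_ ?_ ?_ (((1 : G)) : G ⧸ M) ?_ ?_
  · -- the conclusion
    have h1 : π Nm = π ⟨z, hzV⟩ := by
      rw [hNm, map_prod]
      change ∏ q, F q = _
      rw [hfix, hF]
      change π (F0 ((1 : G) : G ⧸ M)) = _
      rw [hF0val]
      congr 1
      apply Subtype.ext
      change (1 : G) * z * (1 : G)⁻¹ = z
      group
    rw [(hπ1 Nm).2 hNmcen] at h1
    exact hj1 ((hπ1 _).1 h1.symm)
  · -- exponent two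
    intro q
    rw [hF, ← map_pow, hπ1]
    exact hV2 _ (F0 q).2
  · -- generation
    intro H hH
    rw [eq_top_iff]
    rintro ⟨x, hx⟩ -
    have h1 : E ≤ H.map E.subtype := by
      refine hE.le.trans (sSup_le (fun A hA => ?_))
      have hAE : A ≤ E := le_sSup hA
      have h2 := hH _ ⟨A, hA.1, hA.2, rfl⟩
      have h3 := Subgroup.map_mono (f := E.subtype) h2
      rwa [Subgroup.map_subgroupOf_eq_of_le hAE] at h3
    obtain ⟨y, hy, hyx⟩ := h1 hx
    have : y = ⟨x, hx⟩ := Subtype.ext hyx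
    rw [← this]; exact hy
  · -- the quadratic relation
    rintro _ ⟨A, hA, hAS, rfl⟩ a ha b hb q
    obtain ⟨g, rfl⟩ := QuotientGroup.mk_surjective q
    have hVA := FF_norm S hVS hVc hA hAS
    have haA : (a : G) ∈ A := ha
    have hbA : (b : G) ∈ A := hb
    set v := g * z * g⁻¹ with hv
    have hvV : v ∈ V := hconj g
    have hcomm : ∀ x ∈ A, v⁻¹ * (x * v * x⁻¹) ∈ A ∧ v⁻¹ * (x * v * x⁻¹) ∈ V := by
      intro x hx
      refine ⟨?_, V.mul_mem (V.inv_mem hvV) (hVn.conj_mem _ hvV x)⟩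
      have h1 := (Subgroup.mem_normalizer_iff.1 (hVA (V.inv_mem hvV)) x).1 hx
      have e1 : v⁻¹ * (x * v * x⁻¹) = (v⁻¹ * x * v⁻¹⁻¹) * x⁻¹ := by group
      rw [e1]; exact A.mul_mem h1 (A.inv_mem hx)
    obtain ⟨hcaA, hcaV⟩ := hcomm a haA
    obtain ⟨hcbA, hcbV⟩ := hcomm b hbA
    set ca := v⁻¹ * ((a : G) * v * (a : G)⁻¹) with hca
    set cb := v⁻¹ * ((b : G) * v * (b : G)⁻¹) with hcb
    have ea : (a : G) * v * (a : G)⁻¹ = v * ca := by rw [hca]; group
    have eb : (b : G) * v * (b : G)⁻¹ = v * cb := by rw [hcb]; group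
    have eab : (a : G) * (b * v * (b : G)⁻¹) * (a : G)⁻¹ = v * ca * cb := by
      have h1 : (a : G) * cb * (a : G)⁻¹ = cb := by rw [hA.1.2.1 a haA cb hcbA, mul_inv_cancel_right]
      calc (a : G) * (b * v * (b : G)⁻¹) * (a : G)⁻¹ = (a : G) * (v * cb) * (a : G)⁻¹ := by rw [eb]
        _ = ((a : G) * v * (a : G)⁻¹) * ((a : G) * cb * (a : G)⁻¹) := by group
        _ = v * ca * cb := by rw [ea, h1]
    have e1 : F0 (a • (g : G ⧸ M)) = ⟨v * ca, V.mul_mem hvV hcaV⟩ := by
      change F0 (((a : G) * g : G) : G ⧸ M) = _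
      rw [hF0val]
      apply Subtype.ext
      change (a : G) * g * z * ((a : G) * g)⁻¹ = v * ca
      rw [← ea, hv]; group
    have e2 : F0 (b • (g : G ⧸ M)) = ⟨v * cb, V.mul_mem hvV hcbV⟩ := by
      change F0 (((b : G) * g : G) : G ⧸ M) = _
      rw [hF0val]
      apply Subtype.ext
      change (b : G) * g * z * ((b : G) * g)⁻¹ = v * cb
      rw [← eb, hv]; group
    have e3 : F0 (a • b • (g : G ⧸ M)) = ⟨v * ca * cb, V.mul_mem (V.mul_mem hvV hcaV) hcbV⟩ := by
      change F0 (((a : G) * ((b : G) * g) : G) : G ⧸ M) = _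
      rw [hF0val]
      apply Subtype.ext
      change (a : G) * ((b : G) * g) * z * ((a : G) * ((b : G) * g))⁻¹ = v * ca * cb
      rw [← eab, hv]; group
    have e4 : F0 (g : G ⧸ M) = ⟨v, hvV⟩ := hF0val g
    change π (F0 (g : G ⧸ M)) * π (F0 (a • (g : G ⧸ M))) * (π (F0 (b • (g : G ⧸ M))) * π (F0 (a • b • (g : G ⧸ M)))) = 1
    rw [e1, e2, e3, e4, ← map_mul, ← map_mul, ← map_mul, hπ1]
    change v * (v * ca) * (v * cb * (v * ca * cb)) ∈ Subgroup.center G
    have e5 : v * (v * ca) * (v * cb * (v * ca * cb)) = (v * v * ca * cb) ^ 2 := by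
      have c1 : ca * v = v * ca := hVc _ hcaV _ hvV
      have c2 : cb * v = v * cb := hVc _ hcbV _ hvV
      have c3 : cb * ca = ca * cb := hVc _ hcbV _ hcaV
      rw [pow_two]
      calc v * (v * ca) * (v * cb * (v * ca * cb)) = v * v * ca * v * (cb * v) * ca * cb := by group
        _ = v * v * ca * v * v * (cb * ca) * cb := by rw [c2]; group
        _ = v * v * (ca * (v * v) * ca) * cb * cb := by rw [c3]; group
        _ = v * v * (ca * cb * (v * v) * ca) * cb := by
            have h6 : cb * (v * v) = v * v * cb := by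
              calc cb * (v * v) = (cb * v) * v := by group
                _ = (v * cb) * v := by rw [c2]
                _ = v * (cb * v) := by group
                _ = v * (v * cb) := by rw [c2]
                _ = v * v * cb := by group
            calc v * v * (ca * (v * v) * ca) * cb * cb = v * v * ca * (v * v) * (ca * cb) * cb := by group
              _ = v * v * ca * (v * v) * (cb * ca) * cb := by rw [c3]
              _ = v * v * ca * (v * v * cb) * ca * cb := by group
              _ = v * v * ca * (cb * (v * v)) * ca * cb := by rw [h6]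
              _ = _ := by group
        _ = v * v * ca * cb * (v * v * ca * cb) := by group
    rw [e5]
    exact hV2 _ (V.mul_mem (V.mul_mem (V.mul_mem hvV hvV) hcaV) hcbV)
  · -- no orbits of length two
    rintro _ ⟨A, hA, hAS, rfl⟩ A1 hA1 hidx q hq
    by_contra hcon
    push Not at hcon
    obtain ⟨g, rfl⟩ := QuotientGroup.mk_surjective q
    have hAE : A ≤ E := le_sSup ⟨hA, hAS⟩
    have hVA := FF_norm S hVS hVc hA hAS
    have hfixiff : ∀ x : G, ((x * g : G) : G ⧸ M) = (g : G ⧸ M) ↔ x * (g * z * g⁻¹) = (g * z * g⁻¹) * x := by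
      intro x
      rw [eq_comm, QuotientGroup.eq, hMz]
      constructor
      · intro h
        calc x * (g * z * g⁻¹) = g * ((g⁻¹ * (x * g)) * z) * g⁻¹ := by group
          _ = g * (z * (g⁻¹ * (x * g))) * g⁻¹ := by rw [h]
          _ = _ := by group
      · intro h
        calc g⁻¹ * (x * g) * z = g⁻¹ * (x * (g * z * g⁻¹)) * g := by group
          _ = g⁻¹ * ((g * z * g⁻¹) * x) * g := by rw [h]
          _ = _ := by group
    have hA1A : A1.map E.subtype ≤ A := by
      rintro _ ⟨x, hx, rfl⟩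
      exact hA1 hx
    have hrel : (A1.map E.subtype).relIndex A = 2 := by
      rw [← hidx]
      have := Subgroup.relIndex_map_map_of_injective A1 (A.subgroupOf E) E.subtype_injective
      rw [Subgroup.map_subgroupOf_eq_of_le hAE] at this
      exact this
    obtain ⟨a, ha, haC, e, hTv⟩ := FF_idx hVc hVp hV2 hA hVA hA1A hrel (hconj g) (by
      intro x hx
      rw [← hfixiff]
      constructor
      · rintro ⟨y, hy, rfl⟩
        exact hcon y hy
      · intro h
        exact ⟨⟨x, hAE hx⟩, hq ⟨x, hAE hx⟩ hx h, rfl⟩)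
    exact hno (sec_of_tv hVc hTv (fun h => haC (hcoreC a (hAS ha) h)))
  · rintro ⟨e, he⟩
    change ((e * 1 : G) : G ⧸ M) = _
    rw [QuotientGroup.eq]
    have : e ∈ M := hSM (hES he)
    simpa using M.inv_mem this
  · intro q hq
    obtain ⟨g, rfl⟩ := QuotientGroup.mk_surjective q
    have h6 : cj g⁻¹ E ≤ M := by
      intro x hx
      rw [mem_cj, inv_inv] at hx
      have h7 := hq ⟨g * x * g⁻¹, hx⟩
      change ((g * x * g⁻¹ * g : G) : G ⧸ M) = _ at h7
      have h8 := QuotientGroup.eq.1 h7.symm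
      have e : g⁻¹ * (g * x * g⁻¹ * g) = x := by group
      rwa [e] at h8
    obtain ⟨m, hm, hmS⟩ := (sylIn_of_sylow_le S hSM).exists_conj_le (isPGroup_cj hEp) h6
    rw [← cj_mul] at hmS
    have h9 : m * g⁻¹ ∈ M := hNE (mem_norm.2 (hwc _ hmS))
    rw [QuotientGroup.eq, mul_one]
    have := M.mul_mem (M.inv_mem hm) h9
    rwa [inv_mul_cancel_left] at this

end
end Cfsg.Agent.H2
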