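import Cfsg.Agent.H2.ZJFus2
import Cfsg.Agent.H2.GrpFree
import Cfsg.Agent.L0.Fus.Well3
import Mathlib

set_option autoImplicit false

/-! `ZJ` as a fusion functor; factor systems by strongly closed subgroups are section-free (helper2). -/

namespace Cfsg.Agent.H2

open Cfsg Cfsg.FusionSystem Cfsg.Agent.L0 Cfsg.Agent.L0.Fus

universe u w

theorem zjn_qd {L : Type u} [Group L] [Finite L] {p : ℕ} [hp : Fact p.Prime] (hp2 : p ≠ 2) (P : Sylow p L)
    (hc : Subgroup.centralizer (pCore p L : Set L) ≤ pCore p L) (hf : ¬ H6.Sec (qd p) L) :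
    (zz 0 (P : Subgroup L)).Normal :=
  zz_normal hp2 (Or.inl rfl) P ⟨le_rfl, fun _ _ _ h => h⟩
    (fun B _ hB g hq => good_of_qd_free hp2 hf B hB g hq) hc

noncomputable def zjW (p : ℕ) [Fact p.Prime] : WFun.{u} p :=
  WFun.mk' (p := p) (fun Q _ => zz 0 (⊤ : Subgroup Q))
    (by
      intro Q _ _ hQ hn
      exact zz_ne_bot (p := p) (Or.inl rfl) (hQ.to_subgroup ⊤) (by
        intro h
        obtain ⟨a, b, hab⟩ := hn
        apply hab
        have ha : a ∈ (⊤ : Subgroup Q) := Subgroup.mem_top _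
        have hb : b ∈ (⊤ : Subgroup Q) := Subgroup.mem_top _
        rw [h, Subgroup.mem_bot] at ha hb
        rw [ha, hb]))
    (by
      intro Q R _ _ _ hQ φ
      have h1 := zz_equiv (m := 0) (D := (⊤ : Subgroup Q)) φ
      rw [h1]
      congr 1
      rw [← MonoidHom.range_eq_map]
      exact MonoidHom.range_eq_top.2 φ.surjective)

/-- `Z(J(S))` is normal in a `Qd(p)`-free system -/
theorem zj_normal_free {p : ℕ} [hp : Fact p.Prime] (hp2 : p ≠ 2) {Ω : Type u} [Group Ω] {S : Subgroup Ω} [Finite S]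
    {F : FusionSystem S} (hS : IsPGroup p S) (hF : F.IsSaturated p) (hfree : F.IsSectionFree p ↥(qd p)) :
    F.IsNormal ((zjW p).W S) := by
  refine zj_fusion (zjW p) (H := ↥(qd p)) ?_ Ω S F hS hF hfree
  intro L _ _ P hc hf
  have h1 := zjn_qd hp2 P hc (fun h => hf h.involves)
  have h2 : (zjW p).W (P : Subgroup L) = zz 0 (P : Subgroup L) := by
    show (zz 0 (⊤ : Subgroup ↥(P : Subgroup L))).map (P : Subgroup L).subtype = _
    rw [zz_map _ (Subgroup.subtype_injective _), ← MonoidHom.range_eq_map, Subgroup.range_subtype]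
  rw [h2]; exact h1

/-- factor systems modulo strongly closed subgroups inherit section-freeness -/
theorem sectionFree_factor_sc {Ω : Type*} [Group Ω] {S : Subgroup Ω} [Finite S] {F : FusionSystem S} {p : ℕ} [Fact p.Prime]
    (hS : IsPGroup p S) (hF : F.IsSaturated p) {H : Type w} [Group H] (hfree : F.IsSectionFree p H)
    {K : Subgroup Ω} (hK : F.StronglyClosed K) {Ω' : Type*} [Group Ω'] {S' : Subgroup Ω'} {θ : S →* Ω'} {E : FusionSystem S'}
    (hE : F.IsFactorSystem K θ E) : E.IsSectionFree p H := by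
  have hKn := StronglyClosed.le_normalizer hK
  obtain ⟨N, hN⟩ := exists_normalizerSystem F hK.1
  have hnS : normalizerIn S K = S := inf_eq_left.mpr hKn
  have hfn := fullyNormalized_of_le_normalizer (F := F) hK.1 hKn
  have hNs := normalizerSystem_saturated hS hF hfn hN
  have hNf := sectionFree_normalizer hS hF hfree hfn hN
  have hNn := normalizerSystem_normal hK.1 hN
  have key : ∀ T : Subgroup Ω, T = S → ∀ N : FusionSystem T, N.IsSaturated p → N.IsSectionFree p H → N.IsNormal K →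
      (∀ P, N.Hom P = F.normalizerHom K P) → E.IsSectionFree p H := by
    rintro T rfl N h1 h2 h3 h4
    refine sectionFree_factor hS h1 h2 h3 (θ := θ) (E := E) ⟨hK.1, hE.2.1, hE.2.2.1, ?_⟩
    intro P' φ'
    rw [hE.2.2.2 P' φ', h4]
    have hker : kerIn θ = K := stronglyClosed_kerIn_iff_agree hE.2.1 hK.1
    have hKP : K ≤ preimageAlong θ P' := by rw [← hker]; exact kerIn_le_preimageAlong
    constructor
    · rintro ⟨hP', φ, hφ, hind⟩
      refine ⟨hP', φ, ⟨hφ, ?_, ?_, ?_⟩, hind⟩
      · rw [hnS]; exact hom_le F hφ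
      · intro x; rw [hnS]; exact hom_mem F hφ x
      · -- extension
        have hsup : preimageAlong θ P' ⊔ K = preimageAlong θ P' := sup_eq_left.mpr hKP
        have key2 : ∀ (P Q : Subgroup Ω) (φ : P →* Ω) (hφ : φ ∈ F.Hom P) (hKP : K ≤ P) (hPQ : P ≤ Q) (hQ : Q = P),
            ∃ ψ ∈ F.Hom Q, (∀ x : P, ψ (Subgroup.inclusion hPQ x) = φ x) ∧ (K.subgroupOf Q).map ψ = K := by
          rintro P Q φ hφ hKP hPQ rfl
          refine ⟨φ, hφ, fun x => rfl, ?_⟩
          ext y
          constructor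
          · rintro ⟨x, hx, rfl⟩
            exact (map_mem_iff hK hφ hKP x).2 hx
          · intro hy
            obtain ⟨x, rfl⟩ := le_range hK hφ hKP hy
            exact ⟨x, (map_mem_iff hK hφ hKP x).1 hy, rfl⟩
        exact key2 _ _ φ hφ hKP le_sup_left hsup
    · rintro ⟨hP', φ, hφ, hind⟩
      exact ⟨hP', φ, hφ.1, hind⟩
  exact key _ hnS N hNs hNf hNn hN

end Cfsg.Agent.H2
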